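import Cfsg.Agent.GWP.Join
import Cfsg.Agent.Frob.Action
import Cfsg.Agent.H21.TFWr
import Cfsg.Agent.H20.QDMax
import Cfsg.Agent.H4.Final
import Cfsg.Agent.DihSyl.Basic

set_option autoImplicit false

/-! S3322, the quasi-dihedral case (helper67) -/

namespace Cfsg.Agent.GWP

namespace SDs

open Subgroup

/-- an abelian 2-group with a unique involution is cyclic -/
theorem cyc {G : Type*} [Group G] [Finite G] {R : Subgroup G} (hR : IsPGroup 2 R)
    (hab : ∀ a ∈ R, ∀ b ∈ R, a * b = b * a) {j : G} (huniq : ∀ a ∈ R, a * a = 1 → a = 1 ∨ a = j) :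
    ∃ r ∈ R, R = zpowers r := by
  classical
  haveI : Fact (Nat.Prime 2) := ⟨Nat.prime_two⟩
  letI : CommGroup R := { (inferInstance : Group R) with mul_comm := fun a b => Subtype.ext (hab a a.2 b b.2) }
  have hcyc : IsCyclic R := by
    apply Frob.isCyclic_of_comm_of_sq
    intro p hp B hB
    have hBp : IsPGroup 2 B := hR.to_subgroup B
    obtain ⟨k, hk⟩ := IsPGroup.iff_card.1 hBp
    have hp2 : p = 2 := by
      have h1 : p ∣ 2 ^ k := by rw [← hk, hB]; exact dvd_mul_right p p
      exact (Nat.prime_dvd_prime_iff_eq hp Nat.prime_two).1 (hp.dvd_of_dvd_pow h1)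
    subst hp2
    by_contra hcyc
    have h2 : ∀ b : B, b * b = 1 := by
      intro b
      have h3 : orderOf b ∣ 2 * 2 := by rw [← hB]; exact orderOf_dvd_natCard b
      have h4 : orderOf b ∣ 2 ^ 2 := by rw [sq]; exact h3
      obtain ⟨i, hi, hi'⟩ := (Nat.dvd_prime_pow Nat.prime_two).1 h4
      interval_cases i
      · rw [pow_zero, orderOf_eq_one_iff] at hi'
        rw [hi', one_mul]
      · rw [pow_one] at hi'
        rw [← sq, ← hi', pow_orderOf_eq_one]
      · exfalso
        apply hcyc
        apply isCyclic_of_orderOf_eq_card b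
        rw [hi', hB]; rfl
    have h3 : Nat.card B ≤ 2 := by
      have h4 : Function.Injective (fun b : B => if b = 1 then (0 : Fin 2) else 1) := by
        have h5 : ∀ b : B, b ≠ 1 → (((b : B) : R) : G) = j := by
          intro b hb
          have h6 : (((b : B) : R) : G) * (((b : B) : R) : G) = 1 :=
            congrArg (fun w : B => (((w : B) : R) : G)) (h2 b)
          rcases huniq _ (b : R).2 h6 with h7 | h7
          · exact absurd (Subtype.ext (Subtype.ext h7)) hb
          · exact h7
        intro b b' hbb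
        by_cases hb : b = 1
        · by_cases hb' : b' = 1
          · rw [hb, hb']
          · simp only [hb, if_true, hb', if_false] at hbb
            exact absurd hbb (by decide)
        · by_cases hb' : b' = 1
          · simp only [hb', if_true, hb, if_false] at hbb
            exact absurd hbb (by decide)
          · apply Subtype.ext
            apply Subtype.ext
            rw [h5 b hb, h5 b' hb']
      have h5 := Nat.card_le_card_of_injective _ h4
      simpa using h5
    rw [hB] at h3
    omega
  obtain ⟨g, hg⟩ := hcyc.exists_generator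
  refine ⟨g, g.2, ?_⟩
  apply le_antisymm
  · intro a ha
    obtain ⟨k, hk⟩ := mem_zpowers_iff.1 (hg ⟨a, ha⟩)
    refine mem_zpowers_iff.2 ⟨k, ?_⟩
    have := congrArg Subtype.val hk
    simpa using this
  · rw [zpowers_le]; exact g.2

/-- a 2-subgroup of `C(j)` containing an element outside `A` is dihedral -/
theorem dih_of_cen {G : Type*} [Group G] [Finite G] {A : Subgroup G} {j x : G} (H : Cen A j x) {T : Subgroup G}
    (hT : IsPGroup 2 T) (hjT : j ∈ T) (hTj : ∀ t ∈ T, t * j = j * t) {y : G} (hyT : y ∈ T) (hy : y ∉ A) :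
    ∃ (r s : G) (m : ℕ), DihSyl.DihData T r s m := by
  have hR : IsPGroup 2 (T ⊓ A : Subgroup G) := hT.to_le inf_le_left
  obtain ⟨r, hr, hr'⟩ := cyc (R := T ⊓ A) hR (fun a ha b hb => H.hab a ha.2 b hb.2)
    (j := j) (fun a ha h => H.uniq a ha.2 h)
  obtain ⟨a, ha, hya⟩ := (H.mem_or y (hTj y hyT)).resolve_left hy
  have hyy : y * y = 1 := by rw [hya]; exact H.ax_sq a ha
  have hyinv : ∀ b ∈ A, y * b * y⁻¹ = b⁻¹ := by
    intro b hb; rw [hya]; exact H.ax_conj a b ha hb
  refine ⟨r, y, orderOf r, ⟨hr.1, hyT, rfl, hyy, hyinv r hr.2, ?_, ?_, hT, ?_⟩⟩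
  · rw [← hr']; exact fun h => hy h.2
  · intro t ht
    rcases H.mem_or t (hTj t ht) with h | ⟨b, hb, h⟩
    · left; rw [← hr']; exact ⟨ht, h⟩
    · right; rw [← hr']
      refine ⟨T.mul_mem hyT ht, ?_⟩
      have : y * t = a * b⁻¹ := by
        rw [hya, h]
        calc a * x * (b * x) = a * (x * b) * x := by group
          _ = a * (b⁻¹ * x) * x := by rw [H.x_mul b hb]
          _ = a * b⁻¹ * (x * x) := by group
          _ = a * b⁻¹ := by rw [H.xx, mul_one]
      rw [this]
      exact A.mul_mem ha (A.inv_mem hb)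
  · have h1 : j ∈ zpowers r := by rw [← hr']; exact ⟨hjT, H.tA⟩
    have h2 : orderOf r ≠ 1 := by
      intro h
      rw [orderOf_eq_one_iff] at h
      rw [h, zpowers_one_eq_bot, mem_bot] at h1
      exact H.t1 h1
    have h3 : 0 < orderOf r := orderOf_pos r
    omega

theorem Cen.fourF {G : Type*} [Group G] {A : Subgroup G} {j x : G} (H : Cen A j x) : Four j x :=
  ⟨H.t1, fun h => H.xA (by rw [h]; exact A.one_mem), fun h => H.xA (by rw [← h]; exact H.tA), H.tt, H.xx,
    H.x_comm.symm⟩

theorem zpow_cases {G : Type*} [Group G] {z : G} (zz : z * z = 1) (k : ℤ) : z ^ k = 1 ∨ z ^ k = z := by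
  have h2 : z ^ (2 : ℤ) = 1 := by
    rw [show (2 : ℤ) = ((2 : ℕ) : ℤ) from rfl, zpow_natCast, pow_two]; exact zz
  obtain ⟨l, hl | hl⟩ := Int.even_or_odd' k
  · left; rw [hl, zpow_mul, h2, one_zpow]
  · right; rw [hl, zpow_add, zpow_mul, h2, one_zpow, one_mul, zpow_one]

theorem card_four {G : Type*} [Group G] {u v : G} (F : Four u v) :
    Nat.card (closure ({u, v} : Set G)) = 4 := by
  have h1 : ((closure ({u, v} : Set G) : Subgroup G) : Set G) = {1, u, v, u * v} := by
    ext y
    constructor
    · intro hy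
      rcases mem_closure_four F hy with h | h | h | h <;> simp [h]
    · intro hy
      have hu : u ∈ closure ({u, v} : Set G) := subset_closure (by simp)
      have hv : v ∈ closure ({u, v} : Set G) := subset_closure (by simp)
      rcases hy with h | h | h | h
      · rw [h]; exact one_mem _
      · rw [h]; exact hu
      · rw [h]; exact hv
      · rw [h]; exact mul_mem hu hv
  have h2 : Nat.card (closure ({u, v} : Set G)) =
      ((closure ({u, v} : Set G) : Subgroup G) : Set G).ncard := rfl
  rw [h2, h1]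
  have e1 : (1 : G) ∉ ({u, v, u * v} : Set G) := by
    rintro (h | h | h)
    · exact F.u1 h.symm
    · exact F.v1 h.symm
    · exact F.w1 h.symm
  have e2 : u ∉ ({v, u * v} : Set G) := by
    rintro (h | h)
    · exact F.ne h
    · exact F.v1 (by simpa using h.symm)
  have e3 : v ∉ ({u * v} : Set G) := by
    intro h
    exact F.u1 (by simpa using h.symm)
  rw [Set.ncard_insert_of_notMem e1, Set.ncard_insert_of_notMem e2, Set.ncard_insert_of_notMem e3,
    Set.ncard_singleton]

end SDs

open Subgroup SDs in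
/-- if `O(G) = 1` and the Sylow 2-subgroup is not dihedral, then there is a central involution `z` such that
`G/⟨z⟩` has a generalised dihedral involution centraliser (of order 4) and dihedral Sylow 2-subgroups -/
theorem asSD {G : Type*} [Group G] [Finite G] (hO : Cfsg.pPrimeCore 2 G = ⊥) {A : Subgroup G} {j x : G}
    (H : Cen A j x) (hnd : ∀ (T : Sylow 2 G) (r s : G) (m : ℕ), ¬ DihSyl.DihData (T : Subgroup G) r s m) :
    ∃ (Z : Subgroup G) (_ : Z.Normal), Nat.card Z = 2 ∧
      (∃ (A' : Subgroup (G ⧸ Z)) (j' x' : G ⧸ Z), Cen A' j' x') ∧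
      ∃ (T' : Sylow 2 (G ⧸ Z)) (r s : G ⧸ Z) (m : ℕ), DihSyl.DihData (T' : Subgroup (G ⧸ Z)) r s m := by
  classical
  haveI : Fact (Nat.Prime 2) := ⟨Nat.prime_two⟩
  have F := Cen.fourF H
  obtain ⟨T, hT⟩ := (isPGroup_four F).exists_le_sylow
  have hjT : j ∈ (T : Subgroup G) := hT (subset_closure (by simp))
  have hxT : x ∈ (T : Subgroup G) := hT (subset_closure (by simp))
  -- no Sylow subgroup containing `j` centralises `j` (unless it lies in `A`)
  have hcen : ∀ S : Sylow 2 G, j ∈ (S : Subgroup G) → (∀ t ∈ (S : Subgroup G), t * j = j * t) →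
      (S : Subgroup G) ≤ A := by
    intro S hjS hS y hy
    by_contra hyA
    obtain ⟨r, s, m, h⟩ := dih_of_cen H S.isPGroup' hjS hS hy hyA
    exact hnd S r s m h
  have hnc : ¬ ∀ t ∈ (T : Subgroup G), t * j = j * t := fun h => H.xA (hcen T hjT h hxT)
  -- the Sylow subgroup is quasi-dihedral
  have hqd : Cfsg.IsQuasiDihedral (T : Subgroup G) := by
    have hVT := hT
    set V := closure ({j, x} : Set G) with hV
    have h4 : Nat.card (V.subgroupOf (T : Subgroup G)) = 4 := by
      rw [Nat.card_congr (Subgroup.subgroupOfEquivOfLe hVT).toEquiv, card_four F]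
    have hsq : ∀ v ∈ V.subgroupOf (T : Subgroup G), v * v = 1 := by
      intro v hv
      ext
      rcases mem_closure_four F (mem_subgroupOf.1 hv) with h | h | h | h
      · show (v : G) * v = 1
        rw [h, one_mul]
      · show (v : G) * v = 1
        rw [h]; exact F.uu
      · show (v : G) * v = 1
        rw [h]; exact F.vv
      · show (v : G) * v = 1
        rw [h]; exact F.ww
    have hc : Subgroup.centralizer (V.subgroupOf (T : Subgroup G) : Set (T : Subgroup G)) =
        V.subgroupOf (T : Subgroup G) := by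
      apply le_antisymm
      · intro t ht
        rw [mem_subgroupOf]
        rw [Subgroup.mem_centralizer_iff] at ht
        have h1 := congrArg Subtype.val (ht ⟨j, hjT⟩ (mem_subgroupOf.2 (subset_closure (by simp))))
        have h2 := congrArg Subtype.val (ht ⟨x, hxT⟩ (mem_subgroupOf.2 (subset_closure (by simp))))
        have h1' : (t : G) * j = j * t := h1.symm
        have h2' : (t : G) * x = x * t := h2.symm
        have hj : j ∈ V := subset_closure (by simp)
        have hx : x ∈ V := subset_closure (by simp)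
        rcases H.cent_four F.vv F.v1 F.ne.symm F.comm.symm h1' h2' with h | h | h | h
        · rw [h]; exact one_mem _
        · rw [h]; exact hj
        · rw [h]; exact hx
        · rw [h]; exact mul_mem hj hx
      · intro t ht
        rw [Subgroup.mem_centralizer_iff]
        intro v hv
        have hab : ∀ a ∈ V, ∀ b ∈ V, a * b = b * a := by
          intro a ha b hb
          have e1 : a * a = 1 := by
            rcases mem_closure_four F ha with h | h | h | h <;> rw [h]
            · rw [one_mul]
            · exact F.uu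
            · exact F.vv
            · exact F.ww
          have e2 : b * b = 1 := by
            rcases mem_closure_four F hb with h | h | h | h <;> rw [h]
            · rw [one_mul]
            · exact F.uu
            · exact F.vv
            · exact F.ww
          have e3 : (a * b) * (a * b) = 1 := by
            rcases mem_closure_four F (mul_mem ha hb) with h | h | h | h <;> rw [h]
            · rw [one_mul]
            · exact F.uu
            · exact F.vv
            · exact F.ww
          have e4 : a⁻¹ = a := inv_eq_of_mul_eq_one_left e1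
          have e5 : b⁻¹ = b := inv_eq_of_mul_eq_one_left e2
          have e6 : (a * b)⁻¹ = a * b := inv_eq_of_mul_eq_one_left e3
          rw [mul_inv_rev, e4, e5] at e6
          exact e6.symm
        ext
        exact hab _ (mem_subgroupOf.1 hv) _ (mem_subgroupOf.1 ht)
    have htop : V.subgroupOf (T : Subgroup G) ≠ ⊤ := by
      intro h
      apply hnc
      intro t ht
      have h1 : t ∈ V := by
        have : (⟨t, ht⟩ : (T : Subgroup G)) ∈ V.subgroupOf (T : Subgroup G) := by rw [h]; trivial
        exact mem_subgroupOf.1 this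
      rcases mem_closure_four F h1 with h2 | h2 | h2 | h2
      · rw [h2, one_mul, mul_one]
      · rw [h2]
      · rw [h2]; exact F.comm.symm
      · rw [h2]
        calc j * x * j = j * (x * j) := by group
          _ = j * (j * x) := by rw [F.comm]
    rcases H21.TF.maxClass_of_selfCent T.isPGroup' _ h4 hsq hc htop with ⟨m, hm, ⟨e⟩⟩ | h
    · exfalso
      obtain ⟨r, s, h⟩ := DihSyl.exists_dihData T.isPGroup' hm e
      exact hnd T r s m h
    · exact h
  obtain ⟨m, -, ⟨d⟩⟩ := H20.QDData.exists_of_isQuasiDihedral hqd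
  set zT := d.e (2 ^ (m + 2)) with hzT
  set z : G := (zT : G) with hz
  have hz2 : orderOf zT = 2 := d.orderOf_e_h
  have hz2' : orderOf z = 2 := by rw [hz, Subgroup.orderOf_coe, hz2]
  have zz : z * z = 1 := by
    have := pow_orderOf_eq_one z
    rw [hz2', pow_two] at this; exact this
  have z1 : z ≠ 1 := by
    intro h; rw [h, orderOf_one] at hz2'; exact absurd hz2' (by decide)
  have hzc : ∀ t ∈ (T : Subgroup G), z * t = t * z := by
    intro t ht
    exact congrArg Subtype.val (d.e_h_comm ⟨t, ht⟩).eq
  have hjo : orderOf (⟨j, hjT⟩ : (T : Subgroup G)) = 2 := by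
    rw [Subgroup.orderOf_mk]
    exact orderOf_eq_prime (by rw [pow_two]; exact H.tt) H.t1
  have hjz : j ≠ z := by
    intro h
    apply hnc
    intro t ht
    rw [h]; exact (hzc t ht).symm
  obtain ⟨i0, hi0⟩ : ∃ i, (⟨j, hjT⟩ : (T : Subgroup G)) = d.e (2 * i) * d.y := by
    rcases d.orderOf_eq_two_iff.1 hjo with h | h
    · exact absurd (congrArg Subtype.val h) hjz
    · exact h
  -- every involution of `T` different from `z` is conjugate to `y`
  have hconjy : ∀ t : (T : Subgroup G), orderOf t = 2 → t ≠ zT → ∃ g : G, g * (d.y : G) * g⁻¹ = t := by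
    intro t ht htz
    rcases d.orderOf_eq_two_iff.1 ht with h | ⟨i, h⟩
    · exact absurd h htz
    · obtain ⟨k, hk⟩ := d.conj_even i
      refine ⟨(d.e k : G), ?_⟩
      have := congrArg Subtype.val (hk.trans h.symm)
      exact this
  obtain ⟨gj, hgj⟩ := hconjy ⟨j, hjT⟩ hjo (fun h => hjz (congrArg Subtype.val h))
  -- `z` is not conjugate to `j`
  have hzj : ∀ g : G, g * z * g⁻¹ ≠ j := by
    intro g hg
    have hmem : ∀ t, t ∈ ((g • T : Sylow 2 G) : Subgroup G) ↔ g⁻¹ * t * g ∈ (T : Subgroup G) := by
      intro t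
      rw [Sylow.coe_subgroup_smul, Subgroup.mem_pointwise_smul_iff_inv_smul_mem]
      simp [MulAut.smul_def]
    have h1 : j ∈ ((g • T : Sylow 2 G) : Subgroup G) := by
      rw [hmem, ← hg]
      have : g⁻¹ * (g * z * g⁻¹) * g = z := by group
      rw [this]; exact zT.2
    have h2 : ∀ t ∈ ((g • T : Sylow 2 G) : Subgroup G), t * j = j * t := by
      intro t ht
      have h3 := hzc _ ((hmem t).1 ht)
      rw [← hg]
      calc t * (g * z * g⁻¹) = g * ((g⁻¹ * t * g) * z) * g⁻¹ := by group
        _ = g * (z * (g⁻¹ * t * g)) * g⁻¹ := by rw [h3]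
        _ = g * z * g⁻¹ * t := by group
    have h3 := hcen _ h1 h2
    apply hnc
    intro t ht
    have hg' : ∀ w ∈ (T : Subgroup G), g * w * g⁻¹ ∈ A := by
      intro w hw
      apply h3
      rw [hmem]
      have : g⁻¹ * (g * w * g⁻¹) * g = w := by group
      rw [this]; exact hw
    have h4 := H.hab _ (hg' t ht) _ (hg' j hjT)
    have h5 : g * (t * j) * g⁻¹ = g * (j * t) * g⁻¹ := by
      calc g * (t * j) * g⁻¹ = g * t * g⁻¹ * (g * j * g⁻¹) := by group
        _ = g * j * g⁻¹ * (g * t * g⁻¹) := h4
        _ = g * (j * t) * g⁻¹ := by group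
    simpa using h5
  -- `z` is central
  have hzG : ∀ g : G, z * g = g * z := by
    intro g
    have h1 := H4.zstar_sylow T hz2' (fun g hg => by
      by_contra hne
      have h2 : orderOf (⟨g * z * g⁻¹, hg⟩ : (T : Subgroup G)) = 2 := by
        rw [Subgroup.orderOf_mk, H4.orderOf_conj', hz2']
      obtain ⟨k, hk⟩ := hconjy _ h2 (fun h => hne (congrArg Subtype.val h))
      apply hzj (gj * k⁻¹ * g)
      have hk' : k * (d.y : G) * k⁻¹ = g * z * g⁻¹ := hk
      have hgj' : gj * (d.y : G) * gj⁻¹ = j := hgj
      calc gj * k⁻¹ * g * z * (gj * k⁻¹ * g)⁻¹ = gj * k⁻¹ * (g * z * g⁻¹) * k * gj⁻¹ := by group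
        _ = gj * k⁻¹ * (k * (d.y : G) * k⁻¹) * k * gj⁻¹ := by rw [hk']
        _ = gj * (d.y : G) * gj⁻¹ := by group
        _ = j := hgj') g
    rw [hO, mem_bot, mul_inv_eq_one, mul_inv_eq_iff_eq_mul] at h1
    exact h1
  -- `A = {1, j}`
  have hzA : z ∉ A := by
    intro h
    rcases H.uniq z h zz with h1 | h1
    · exact z1 h1
    · exact hjz h1.symm
  have hA : ∀ a ∈ A, a = 1 ∨ a = j := by
    intro a ha
    have h1 := H.inv_of zz z1 hjz.symm (hzG j) ha
    rw [hzG a, mul_inv_cancel_right] at h1
    apply H.uniq a ha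
    nth_rw 1 [h1]
    exact inv_mul_cancel a
  -- the centre
  set Z := zpowers z with hZ
  have hZn : Z.Normal := by
    constructor
    intro n hn g
    obtain ⟨k, rfl⟩ := mem_zpowers_iff.1 hn
    have h1 : Commute g z := (hzG g).symm
    have h2 : g * z ^ k * g⁻¹ = z ^ k := by
      rw [(h1.zpow_right k).eq, mul_inv_cancel_right]
    rw [h2]; exact hn
  have hZm : ∀ w ∈ Z, w = 1 ∨ w = z := by
    intro w hw
    obtain ⟨k, rfl⟩ := mem_zpowers_iff.1 hw
    exact zpow_cases zz k
  have hzZ : z ∈ Z := mem_zpowers z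
  have hcj : ∀ g : G, g * j = j * g → (QuotientGroup.mk' Z g) ∈ zpowers (QuotientGroup.mk' Z j) := by
    have hAm : ∀ a ∈ A, (QuotientGroup.mk' Z a) ∈ zpowers (QuotientGroup.mk' Z j) := by
      intro a ha
      rcases hA a ha with h | h
      · rw [h, map_one]; exact one_mem _
      · rw [h]; exact mem_zpowers _
    have hxm : (QuotientGroup.mk' Z x) ∈ zpowers (QuotientGroup.mk' Z j) := by
      obtain ⟨b, hb, hzb⟩ := H.outer zz z1 hjz.symm (hzG j)
      have h1 : x = b⁻¹ * z := by rw [hzb]; group
      have h2 : QuotientGroup.mk' Z z = 1 := (QuotientGroup.eq_one_iff z).2 hzZ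
      rw [h1, map_mul, h2, mul_one]
      exact hAm _ (A.inv_mem hb)
    intro g hg
    rcases H.mem_or g hg with h | ⟨a, ha, h⟩
    · exact hAm g h
    · rw [h, map_mul]; exact mul_mem (hAm a ha) hxm
  -- the element `c`
  set cT := d.e (2 ^ (m + 1)) with hcT
  set c : G := (cT : G) with hc
  have hcc : c * c = z := by
    have h1 : cT * cT = zT := by
      rw [hcT, ← d.e_add, hzT]
      congr 1
      rw [← two_mul]; exact H20.QDData.two_q
    exact congrArg Subtype.val h1
  have hcjz : c * j * c⁻¹ = z * j := by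
    have h1 : cT * (⟨j, hjT⟩ : (T : Subgroup G)) * cT⁻¹ = zT * ⟨j, hjT⟩ := by
      rw [hi0, hcT, d.conj_ey, hzT, d.e_mul_ey]
      congr 2
      have e1 := H20.QDData.two_q (m := m)
      have e2 := H20.QDData.h_q (m := m)
      linear_combination e1 - e2
    exact congrArg Subtype.val h1
  have hmj1 : QuotientGroup.mk' Z j ≠ 1 := by
    intro h
    rcases hZm j ((QuotientGroup.eq_one_iff j).1 h) with h1 | h1
    · exact H.t1 h1
    · exact hjz h1
  have hmjj : QuotientGroup.mk' Z j * QuotientGroup.mk' Z j = 1 := by rw [← map_mul, H.tt, map_one]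
  have hmz : QuotientGroup.mk' Z z = 1 := (QuotientGroup.eq_one_iff z).2 hzZ
  have hcnj : ¬ c * j = j * c := by
    intro h
    rw [h, mul_inv_cancel_right] at hcjz
    exact z1 (by simpa using hcjz.symm)
  refine ⟨Z, hZn, by rw [hZ, Nat.card_zpowers, hz2'], ⟨zpowers (QuotientGroup.mk' Z j), QuotientGroup.mk' Z j,
    QuotientGroup.mk' Z c, ?_⟩, ?_⟩
  · have hcases : ∀ a ∈ zpowers (QuotientGroup.mk' Z j), a = 1 ∨ a = QuotientGroup.mk' Z j := by
      intro a ha
      obtain ⟨k, rfl⟩ := mem_zpowers_iff.1 ha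
      exact zpow_cases hmjj k
    have hmc : QuotientGroup.mk' Z c * QuotientGroup.mk' Z j * (QuotientGroup.mk' Z c)⁻¹ = QuotientGroup.mk' Z j := by
      rw [← map_inv, ← map_mul, ← map_mul, hcjz, map_mul, hmz, one_mul]
    have hmji : (QuotientGroup.mk' Z j)⁻¹ = QuotientGroup.mk' Z j := inv_eq_of_mul_eq_one_left hmjj
    have hmcc : QuotientGroup.mk' Z c * QuotientGroup.mk' Z c = 1 := by rw [← map_mul, hcc, hmz]
    refine ⟨?_, mem_zpowers _, hmj1, hmjj, fun a ha _ => hcases a ha, ?_, hmcc, ?_, ?_⟩
    · intro a ha b hb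
      rcases hcases a ha with h | h
      · rw [h, one_mul, mul_one]
      · rcases hcases b hb with h' | h'
        · rw [h', one_mul, mul_one]
        · rw [h, h']
    · intro h
      apply hcnj
      rcases hcases _ h with h1 | h1
      · rcases hZm c ((QuotientGroup.eq_one_iff c).1 h1) with h2 | h2
        · rw [h2, one_mul, mul_one]
        · rw [h2]; exact hzG j
      · have h3 : c * j⁻¹ ∈ Z := by
          rw [← QuotientGroup.eq_one_iff]
          show QuotientGroup.mk' Z (c * j⁻¹) = 1
          rw [map_mul, h1, map_inv, mul_inv_cancel]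
        rcases hZm _ h3 with h2 | h2
        · rw [mul_inv_eq_one] at h2
          rw [h2]
        · rw [mul_inv_eq_iff_eq_mul] at h2
          rw [h2, hzG j]
          calc j * z * j = j * (z * j) := by group
            _ = j * (j * z) := by rw [hzG j]
    · intro a ha
      rcases hcases a ha with h | h
      · rw [h]; simp
      · rw [h, hmc, hmji]
    · intro g hg
      obtain ⟨g, rfl⟩ := QuotientGroup.mk'_surjective Z g
      have h1 : g * j * g⁻¹ * j⁻¹ ∈ Z := by
        rw [← QuotientGroup.eq_one_iff]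
        show QuotientGroup.mk' Z (g * j * g⁻¹ * j⁻¹) = 1
        rw [map_mul, map_mul, map_mul, hg, map_inv, map_inv, mul_inv_cancel_right, mul_inv_cancel]
      rcases hZm _ h1 with h2 | h2
      · left
        apply hcj
        rw [mul_inv_eq_one, mul_inv_eq_iff_eq_mul] at h2
        exact h2
      · right
        rw [← map_mul]
        apply hcj
        rw [mul_inv_eq_iff_eq_mul, mul_inv_eq_iff_eq_mul] at h2
        have h3 : c * j = z * j * c := by rw [← hcjz]; group
        calc g * c * j = g * (c * j) := by group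
          _ = g * (z * j * c) := by rw [h3]
          _ = (g * z) * j * c := by group
          _ = (z * g) * j * c := by rw [hzG g]
          _ = z * (g * j) * c := by group
          _ = z * (z * j * g) * c := by rw [h2]
          _ = (z * z) * (j * (g * c)) := by group
          _ = j * (g * c) := by rw [zz, one_mul]
  · -- the Sylow subgroup of the quotient
    have hsurj := QuotientGroup.mk'_surjective Z
    refine ⟨T.mapSurjective hsurj, QuotientGroup.mk' Z (d.e 1 : G), QuotientGroup.mk' Z (d.y : G), 2 ^ (m + 1 + 1), ?_⟩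
    have hT' : ((T.mapSurjective hsurj : Sylow 2 (G ⧸ Z)) : Subgroup (G ⧸ Z)) = (T : Subgroup G).map (QuotientGroup.mk' Z) :=
      rfl
    have hpow : ∀ k : ℕ, ((d.e 1 : (T : Subgroup G)) : G) ^ k = ((d.e (k : ZMod (2 ^ (m + 3))) : (T : Subgroup G)) : G) := by
      intro k
      have h1 := d.e_nsmul k 1
      rw [mul_one] at h1
      rw [h1]; rfl
    have hpowi : ∀ i : ZMod (2 ^ (m + 3)), ((d.e i : (T : Subgroup G)) : G) ∈ zpowers ((d.e 1 : (T : Subgroup G)) : G) := by
      intro i
      have h1 := hpow i.val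
      rw [ZMod.natCast_zmod_val] at h1
      rw [← h1]
      exact pow_mem (mem_zpowers _) _
    have hpowm : ∀ i : ZMod (2 ^ (m + 3)), QuotientGroup.mk' Z ((d.e i : (T : Subgroup G)) : G) ∈
        zpowers (QuotientGroup.mk' Z ((d.e 1 : (T : Subgroup G)) : G)) := by
      intro i
      rw [← MonoidHom.map_zpowers]
      exact mem_map_of_mem _ (hpowi i)
    refine ⟨?_, ?_, ?_, ?_, ?_, ?_, ?_, Sylow.isPGroup' _, ?_⟩
    · rw [hT']; exact mem_map_of_mem _ (d.e 1).2
    · rw [hT']; exact mem_map_of_mem _ d.y.2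
    · apply orderOf_eq_prime_pow
      · rw [← map_pow, hpow]
        intro h
        have h1 : c ∈ Z := by
          rw [← QuotientGroup.eq_one_iff]
          have h2 : ((2 ^ (m + 1) : ℕ) : ZMod (2 ^ (m + 3))) = 2 ^ (m + 1) := by push_cast; rfl
          rw [h2] at h
          exact h
        apply hcnj
        rcases hZm c h1 with h2 | h2
        · rw [h2, one_mul, mul_one]
        · rw [h2]; exact hzG j
      · rw [← map_pow, hpow]
        have h2 : ((2 ^ (m + 1 + 1) : ℕ) : ZMod (2 ^ (m + 3))) = 2 ^ (m + 2) := by push_cast; rfl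
        rw [h2]
        exact hmz
    · rw [← map_mul]
      have : (d.y : G) * (d.y : G) = 1 := congrArg Subtype.val d.yy
      rw [this, map_one]
    · have h1 : (d.y : G) * (d.e 1 : G) * (d.y : G)⁻¹ = z * (d.e 1 : G)⁻¹ := by
        have h2 : d.y * d.e 1 * d.y⁻¹ = zT * (d.e 1)⁻¹ := by
          rw [d.y_conj_e, hzT, ← d.e_neg, ← d.e_add]
          congr 1; ring
        exact congrArg Subtype.val h2
      rw [← map_inv, ← map_mul, ← map_mul, h1, map_mul, hmz, one_mul, map_inv]
    · intro h
      rw [← MonoidHom.map_zpowers] at h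
      obtain ⟨w, hw, hw'⟩ := h
      have h1 : (d.y : G) * w⁻¹ ∈ Z := by
        rw [← QuotientGroup.eq_one_iff]
        show QuotientGroup.mk' Z ((d.y : G) * w⁻¹) = 1
        rw [map_mul, map_inv, hw', mul_inv_cancel]
      have h2 : ∃ i, w = ((d.e i : (T : Subgroup G)) : G) := by
        obtain ⟨k, hk⟩ := mem_zpowers_iff.1 hw
        have hM : d.e 1 ∈ d.M1 := ⟨1, rfl⟩
        obtain ⟨i, hi⟩ := zpow_mem hM k
        refine ⟨i, ?_⟩
        rw [← hi, ← hk]; rfl
      obtain ⟨i, hi⟩ := h2
      rcases hZm _ h1 with h3 | h3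
      · rw [mul_inv_eq_one, hi] at h3
        exact d.ne i (Subtype.ext h3).symm
      · rw [mul_inv_eq_iff_eq_mul, hi] at h3
        have h4 : d.y = zT * d.e i := Subtype.ext h3
        rw [hzT, ← d.e_add] at h4
        exact d.ne _ h4.symm
    · intro t ht
      rw [hT'] at ht
      obtain ⟨t, ht, rfl⟩ := ht
      rcases d.cases ⟨t, ht⟩ with ⟨i, hi⟩ | ⟨i, hi⟩
      · left
        have h1 : t = ((d.e i : (T : Subgroup G)) : G) := congrArg Subtype.val hi
        rw [h1]; exact hpowm i
      · right
        have h1 : t = ((d.e i * d.y : (T : Subgroup G)) : G) := congrArg Subtype.val hi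
        have h2 : (d.y : G) * t = ((d.e ((2 ^ (m + 2) - 1) * i) : (T : Subgroup G)) : G) := by
          have h3 : d.y * (d.e i * d.y) = d.e ((2 ^ (m + 2) - 1) * i) := by
            rw [← mul_assoc, d.ye, mul_assoc, d.yy, mul_one]
          rw [h1]
          exact congrArg Subtype.val h3
        rw [← map_mul, h2]
        exact hpowm _
    · calc 2 = 2 ^ 1 := by norm_num
        _ ≤ 2 ^ (m + 1 + 1) := Nat.pow_le_pow_right (by norm_num) (by omega)

end Cfsg.Agent.GWP
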