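import Mathlib
import Cfsg.Agent.Transfer.Frobenius

set_option autoImplicit false
set_option linter.unusedSectionVars false

/-! S3322 (T): the index-two subgroup (helper76). -/

namespace Cfsg.Agent.GWP.T
open Subgroup
universe u

/-- a transfer to `ℤˣ` that is fusion invariant -/
theorem exists_hom {G : Type u} [Group G] [Finite G] (H : Subgroup G) (hi : Odd H.index)
    (φ : H →* ℤˣ) (hf : ∀ (a b : H) (g : G), (b : G) = g⁻¹ * a * g → φ b = φ a) :
    ∃ τ : G →* ℤˣ, ∀ h : H, τ h = φ h := by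
  classical
  refine ⟨MonoidHom.transfer φ, fun h => ?_⟩
  have := H.fintypeQuotientOfFiniteIndex
  have := Fintype.ofFinite (Quotient (MulAction.orbitRel (zpowers (h : G)) (G ⧸ H)))
  rw [MonoidHom.transfer_eq_prod_quotient_orbitRel_zpowers_quot]
  have h1 : ∀ q : Quotient (MulAction.orbitRel (zpowers (h : G)) (G ⧸ H)),
      φ ⟨q.out.out⁻¹ * (h : G) ^ Function.minimalPeriod ((h : G) • ·) q.out * q.out.out,
        QuotientGroup.out_conj_pow_minimalPeriod_mem H (h : G) q.out⟩ =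
      φ h ^ Function.minimalPeriod ((h : G) • ·) q.out := by
    intro q
    rw [hf (h ^ Function.minimalPeriod ((h : G) • ·) q.out) _ q.out.out (by simp), map_pow]
  rw [Finset.prod_congr rfl fun q _ => h1 q, Finset.prod_pow_eq_pow_sum,
    ← index_eq_sum_minimalPeriod H (h : G)]
  obtain ⟨k, hk⟩ := hi
  rw [hk, pow_succ, pow_mul, Int.units_sq, one_pow, one_mul]

section

variable {G : Type u} [Group G] {A : Subgroup G} {x : G}

/-- the configuration -/
structure TS (A : Subgroup G) (x e f a₀ : G) : Prop where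
  hab : ∀ a ∈ A, ∀ b ∈ A, a * b = b * a
  xA : x ∉ A
  xx : x * x = 1
  hinv : ∀ a ∈ A, x * a * x⁻¹ = a⁻¹
  hct : ∀ e ∈ A, e ≠ 1 → e * e = 1 → ∀ g : G, g * e = e * g → g ∈ A ∨ g * x ∈ A
  he : e ∈ A
  he1 : e ≠ 1
  he2 : e * e = 1
  hf : f ∈ A
  hf1 : f ≠ 1
  hf2 : f * f = 1
  hef : e ≠ f
  ha : a₀ ∈ A
  ha2 : a₀ * a₀ ≠ 1

variable {e f a₀ : G} (T : TS A x e f a₀)

namespace TS
include T

theorem xinv : x⁻¹ = x := inv_eq_of_mul_eq_one_left T.xx

theorem xa {a : G} (ha : a ∈ A) : x * a = a⁻¹ * x := by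
  rw [← T.hinv a ha]; group

theorem ax {a : G} (ha : a ∈ A) : a * x = x * a⁻¹ := by
  rw [T.xa (inv_mem ha), inv_inv]

/-- elements of `Ax` are involutions -/
theorem sq {y : G} (hy : y * x ∈ A) : y * y = 1 := by
  have h1 : y = (y * x) * x := by rw [mul_assoc, T.xx, mul_one]
  have h2 := T.xa hy
  rw [h1]
  calc (y * x) * x * ((y * x) * x) = (y * x) * (x * (y * x)) * x := by group
    _ = (y * x) * ((y * x)⁻¹ * x) * x := by rw [h2]
    _ = x * x := by group
    _ = 1 := T.xx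

/-- involutions of `A` are central in `A ∪ Ax` -/
theorem central {c g : G} (hc : c ∈ A) (hcc : c * c = 1) (hg : g ∈ A ∨ g * x ∈ A) : g * c = c * g := by
  rcases hg with h | h
  · exact T.hab g h c hc
  · have h1 : g = (g * x) * x := by rw [mul_assoc, T.xx, mul_one]
    have h2 := T.xa hc
    have h3 : c⁻¹ = c := inv_eq_of_mul_eq_one_left hcc
    rw [h3] at h2
    rw [h1]
    calc (g * x) * x * c = (g * x) * (x * c) := by group
      _ = ((g * x) * c) * x := by rw [h2]; group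
      _ = (c * (g * x)) * x := by rw [T.hab _ h c hc]
      _ = c * ((g * x) * x) := by group

/-- membership in `H` -/
theorem iff {c g : G} (hc : c ∈ A) (hc1 : c ≠ 1) (hcc : c * c = 1) :
    (g ∈ A ∨ g * x ∈ A) ↔ g * c = c * g :=
  ⟨T.central hc hcc, T.hct c hc hc1 hcc g⟩

/-- if `g c g⁻¹` is in `A` for an involution `c` of `A`, then `g` normalises `H` -/
theorem norm {c g : G} (hc : c ∈ A) (hc1 : c ≠ 1) (hcc : c * c = 1) (hg : g * c * g⁻¹ ∈ A) (h : G) :
    (g * h * g⁻¹ ∈ A ∨ g * h * g⁻¹ * x ∈ A) ↔ (h ∈ A ∨ h * x ∈ A) := by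
  have h1 : g * c * g⁻¹ ≠ 1 := by
    intro h2
    apply hc1
    have : c = g⁻¹ * (g * c * g⁻¹) * g := by group
    rw [this, h2]; group
  have h2 : g * c * g⁻¹ * (g * c * g⁻¹) = 1 := by
    calc g * c * g⁻¹ * (g * c * g⁻¹) = g * (c * c) * g⁻¹ := by group
      _ = 1 := by rw [hcc]; group
  rw [T.iff (g := g * h * g⁻¹) hg h1 h2, T.iff (g := h) hc hc1 hcc]
  constructor
  · intro h3
    calc h * c = g⁻¹ * ((g * h * g⁻¹) * (g * c * g⁻¹)) * g := by group
      _ = g⁻¹ * ((g * c * g⁻¹) * (g * h * g⁻¹)) * g := by rw [h3]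
      _ = c * h := by group
  · intro h3
    calc (g * h * g⁻¹) * (g * c * g⁻¹) = g * (h * c) * g⁻¹ := by group
      _ = g * (c * h) * g⁻¹ := by rw [h3]
      _ = (g * c * g⁻¹) * (g * h * g⁻¹) := by group

/-- elements of `Ax` are not conjugate to involutions of `A` -/
theorem notConj {c g : G} (hc : c ∈ A) (hc1 : c ≠ 1) (hcc : c * c = 1) : ¬ (g * c * g⁻¹) * x ∈ A := by
  intro hy
  -- `k = g⁻¹`: if `c' ∈ A` is an involution and `g⁻¹ c' g ∈ A` we are done
  have key : ∀ c' ∈ A, c' ≠ 1 → c' * c' = 1 → ¬ g⁻¹ * c' * g ∈ A := by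
    intro c' h1 h2 h3 h4
    have h5 : ∀ h : G, (g⁻¹ * h * g⁻¹⁻¹ ∈ A ∨ g⁻¹ * h * g⁻¹⁻¹ * x ∈ A) ↔ (h ∈ A ∨ h * x ∈ A) :=
      T.norm h1 h2 h3 (by rw [inv_inv]; exact h4)
    -- `a₀` commutes with `g c g⁻¹`
    have h6 := (h5 a₀).2 (Or.inl T.ha)
    rw [inv_inv] at h6
    have h7 := T.central hc hcc h6
    have h8 : a₀ * (g * c * g⁻¹) = (g * c * g⁻¹) * a₀ := by
      calc a₀ * (g * c * g⁻¹) = g * ((g⁻¹ * a₀ * g) * c) * g⁻¹ := by group
        _ = g * (c * (g⁻¹ * a₀ * g)) * g⁻¹ := by rw [h7]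
        _ = (g * c * g⁻¹) * a₀ := by group
    -- but it inverts `a₀`
    set y := g * c * g⁻¹ with hyd
    have h9 : y = (y * x) * x := by rw [mul_assoc, T.xx, mul_one]
    have h10 : y * a₀ = a₀⁻¹ * y := by
      rw [h9]
      calc (y * x) * x * a₀ = (y * x) * (x * a₀) := by group
        _ = ((y * x) * a₀⁻¹) * x := by rw [T.xa T.ha]; group
        _ = (a₀⁻¹ * (y * x)) * x := by rw [T.hab _ hy _ (inv_mem T.ha)]
        _ = a₀⁻¹ * ((y * x) * x) := by group
    rw [← h8] at h10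
    have h11 : a₀ = a₀⁻¹ := mul_right_cancel h10
    apply T.ha2
    nth_rewrite 2 [h11]
    exact mul_inv_cancel a₀
  -- `e`, `f`, `ef` commute with `y`
  have hyH : (g * c * g⁻¹) ∈ A ∨ (g * c * g⁻¹) * x ∈ A := Or.inr hy
  have hcy : ∀ c' ∈ A, c' * c' = 1 → (g⁻¹ * c' * g ∈ A ∨ g⁻¹ * c' * g * x ∈ A) := by
    intro c' h1 h2
    rw [T.iff hc hc1 hcc]
    have h3 := T.central h1 h2 hyH
    calc g⁻¹ * c' * g * c = g⁻¹ * (c' * (g * c * g⁻¹)) * g := by group
      _ = g⁻¹ * ((g * c * g⁻¹) * c') * g := by rw [h3]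
      _ = c * (g⁻¹ * c' * g) := by group
  rcases hcy e T.he T.he2 with h1 | h1
  · exact key e T.he T.he1 T.he2 h1
  rcases hcy f T.hf T.hf2 with h2 | h2
  · exact key f T.hf T.hf1 T.hf2 h2
  have hef1 : e * f ≠ 1 := by
    intro h
    apply T.hef
    have h3 : e = f⁻¹ := eq_inv_of_mul_eq_one_left h
    rw [h3]
    exact inv_eq_of_mul_eq_one_left T.hf2
  have hefs : e * f * (e * f) = 1 := by
    calc e * f * (e * f) = e * (f * e) * f := by group
      _ = e * (e * f) * f := by rw [T.hab f T.hf e T.he]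
      _ = (e * e) * (f * f) := by group
      _ = 1 := by rw [T.he2, T.hf2, one_mul]
  apply key (e * f) (mul_mem T.he T.hf) hef1 hefs
  have h3 : g⁻¹ * (e * f) * g = (g⁻¹ * e * g * x) * (x * (g⁻¹ * f * g)) := by
    calc g⁻¹ * (e * f) * g = (g⁻¹ * e * g) * 1 * (g⁻¹ * f * g) := by group
      _ = (g⁻¹ * e * g) * (x * x) * (g⁻¹ * f * g) := by rw [T.xx]
      _ = _ := by group
  rw [h3]
  refine mul_mem h1 ?_
  have h4 : x * (g⁻¹ * f * g) = x * (g⁻¹ * f * g * x) * x⁻¹ := by group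
  rw [h4, T.hinv _ h2]
  exact inv_mem h2

/-- the subgroup `H` -/
theorem mem_H {g : G} : g ∈ centralizer ({e} : Set G) ↔ g ∈ A ∨ g * x ∈ A := by
  rw [T.iff T.he T.he1 T.he2, mem_centralizer_singleton_iff]

/-- if `g c g⁻¹ ∈ H` for an involution `c` of `A`, then it is in `A` -/
theorem memA {c g : G} (hc : c ∈ A) (hc1 : c ≠ 1) (hcc : c * c = 1)
    (h : g * c * g⁻¹ ∈ A ∨ g * c * g⁻¹ * x ∈ A) : g * c * g⁻¹ ∈ A := by
  rcases h with h | h
  · exact h
  · exact absurd h (T.notConj hc hc1 hcc)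

/-- Lemma N, one step -/
theorem step {g : G} (hn : ∀ c ∈ A, c ≠ 1 → c * c = 1 → g * c * g⁻¹ ∈ A)
    (h2 : g ^ 2 ∈ A ∨ g ^ 2 * x ∈ A) : g ∈ A ∨ g * x ∈ A := by
  by_cases h : g * e = e * g
  · exact T.hct e T.he T.he1 T.he2 g h
  · have h3 := hn e T.he T.he1 T.he2
    set e' := g * e * g⁻¹ with he'
    have h4 : g ^ 2 * e = e * g ^ 2 := T.central T.he T.he2 h2
    have h5 : g * e' * g⁻¹ = e := by
      rw [he']
      calc g * (g * e * g⁻¹) * g⁻¹ = (g ^ 2 * e) * (g ^ 2)⁻¹ := by rw [pow_two]; group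
        _ = e := by rw [h4]; group
    have h6 : e * e' ≠ 1 := by
      intro h7
      apply h
      have h8 : e' = e⁻¹ := eq_inv_of_mul_eq_one_right h7
      have h9 : e⁻¹ = e := inv_eq_of_mul_eq_one_left T.he2
      rw [h9] at h8
      calc g * e = (g * e * g⁻¹) * g := by group
        _ = e * g := by rw [← he', h8]
    have h7 : e' * e' = 1 := by
      rw [he']
      calc g * e * g⁻¹ * (g * e * g⁻¹) = g * (e * e) * g⁻¹ := by group
        _ = 1 := by rw [T.he2]; group
    have h8 : e * e' * (e * e') = 1 := by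
      calc e * e' * (e * e') = e * (e' * e) * e' := by group
        _ = e * (e * e') * e' := by rw [T.hab e' h3 e T.he]
        _ = (e * e) * (e' * e') := by group
        _ = 1 := by rw [T.he2, h7, one_mul]
    refine T.hct (e * e') (mul_mem T.he h3) h6 h8 g ?_
    calc g * (e * e') = (g * e * g⁻¹) * (g * e' * g⁻¹) * g := by group
      _ = (e' * e) * g := by rw [← he', h5]
      _ = (e * e') * g := by rw [T.hab e' h3 e T.he]

/-- Lemma N -/
theorem lemmaN {g : G} {k : ℕ} (hk : g ^ 2 ^ k = 1)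
    (hn : ∀ c ∈ A, c ≠ 1 → c * c = 1 → g * c * g⁻¹ ∈ A) : g ∈ A ∨ g * x ∈ A := by
  have hpow : ∀ j : ℕ, ∀ c ∈ A, c ≠ 1 → c * c = 1 → g ^ j * c * (g ^ j)⁻¹ ∈ A := by
    intro j
    induction j with
    | zero => intro c hc _ _; simpa using hc
    | succ j ih =>
      intro c hc hc1 hcc
      have h1 := hn c hc hc1 hcc
      have h2 : g * c * g⁻¹ ≠ 1 := by
        intro h2
        apply hc1
        have : c = g⁻¹ * (g * c * g⁻¹) * g := by group
        rw [this, h2]; group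
      have h3 : g * c * g⁻¹ * (g * c * g⁻¹) = 1 := by
        calc g * c * g⁻¹ * (g * c * g⁻¹) = g * (c * c) * g⁻¹ := by group
          _ = 1 := by rw [hcc]; group
      have h4 := ih _ h1 h2 h3
      have h5 : g ^ (j + 1) * c * (g ^ (j + 1))⁻¹ = g ^ j * (g * c * g⁻¹) * (g ^ j)⁻¹ := by
        rw [pow_succ]; group
      rw [h5]; exact h4
  have h1 : ∀ i : ℕ, i ≤ k → (g ^ 2 ^ (k - i) ∈ A ∨ g ^ 2 ^ (k - i) * x ∈ A) := by
    intro i
    induction i with
    | zero => intro _; left; rw [Nat.sub_zero, hk]; exact one_mem _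
    | succ i ih =>
      intro hi
      have h2 := ih (by omega)
      have h3 : k - i = (k - (i + 1)) + 1 := by omega
      rw [h3, pow_succ 2, pow_mul] at h2
      exact T.step (hpow _) h2
  have h2 := h1 k le_rfl
  rwa [Nat.sub_self, pow_zero, pow_one] at h2

theorem centE [Finite G] : Odd (centralizer ({e} : Set G)).index := by
  set H := centralizer ({e} : Set G) with hH
  obtain ⟨P⟩ : Nonempty (Sylow 2 H) := inferInstance
  have hPp : IsPGroup 2 ((P : Subgroup H).map H.subtype) := P.2.map _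
  obtain ⟨S, hS⟩ := hPp.exists_le_sylow
  set D := (P : Subgroup H).map H.subtype with hD
  have hDH : D ≤ H := by
    rintro _ ⟨y, -, rfl⟩; exact y.2
  -- involutions of A are in D
  have hED : ∀ c ∈ A, c * c = 1 → c ∈ D := by
    intro c hc hcc
    have hcH : c ∈ H := T.mem_H.2 (Or.inl hc)
    have hz : (⟨c, hcH⟩ : H) ∈ center H := by
      rw [mem_center_iff]
      intro g
      apply Subtype.ext
      exact T.central hc hcc (T.mem_H.1 g.2)
    have hn : (zpowers (⟨c, hcH⟩ : H)).Normal := by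
      constructor
      intro n hn g
      have : n ∈ center H := (zpowers_le.2 hz) hn
      rw [(mem_center_iff.1 this g)]
      simpa using hn
    have hp : IsPGroup 2 (zpowers (⟨c, hcH⟩ : H)) := by
      have h1 : (⟨c, hcH⟩ : H) ^ 2 = 1 := by
        apply Subtype.ext
        change c ^ 2 = 1
        rw [pow_two, hcc]
      intro ⟨n, hn⟩
      obtain ⟨j, rfl⟩ := mem_zpowers_iff.1 hn
      refine ⟨1, ?_⟩
      apply Subtype.ext
      change ((⟨c, hcH⟩ : H) ^ j) ^ (2 ^ 1) = 1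
      rw [pow_one, ← zpow_natCast, ← zpow_mul, mul_comm, zpow_mul, zpow_natCast, h1, one_zpow]
    have hle : zpowers (⟨c, hcH⟩ : H) ≤ P := by
      have h1 := P.3 (P.2.to_sup_of_normal_right hp) le_sup_left
      rw [← h1]
      exact le_sup_right
    exact ⟨⟨c, hcH⟩, hle (mem_zpowers _), rfl⟩
  by_cases hDS : D = S
  · -- then the index is odd
    have h1 : (S : Subgroup G) ≤ H := hDS ▸ hDH
    have h2 : ¬ 2 ∣ (S : Subgroup G).index := S.not_dvd_index
    rw [← Nat.not_even_iff_odd, even_iff_two_dvd]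
    intro h3
    exact h2 (h3.trans (index_dvd_of_le h1))
  · exfalso
    have hlt : D < S := lt_of_le_of_ne hS hDS
    have h1 := Transfer.lt_normalizer_inf_of_isPGroup S.2 hlt
    obtain ⟨g, hg, hgD⟩ := SetLike.exists_of_lt h1
    obtain ⟨hgN, hgS⟩ := hg
    apply hgD
    -- `g ∈ H`
    obtain ⟨k, hk⟩ := S.2 ⟨g, hgS⟩
    have hk' : g ^ 2 ^ k = 1 := congrArg Subtype.val hk
    have hn : ∀ c ∈ A, c ≠ 1 → c * c = 1 → g * c * g⁻¹ ∈ A := by
      intro c hc hc1 hcc
      refine T.memA hc hc1 hcc (T.mem_H.1 (hDH ?_))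
      exact (mem_normalizer_iff.1 hgN c).1 (hED c hc hcc)
    have hgH : g ∈ H := T.mem_H.2 (T.lemmaN hk' hn)
    -- `S ∩ H` is a 2-subgroup of `H` containing `P`
    have h2 : IsPGroup 2 ((S : Subgroup G).subgroupOf H) :=
      S.2.comap_of_injective _ (subtype_injective _)
    have h3 : (P : Subgroup H) ≤ (S : Subgroup G).subgroupOf H := by
      intro y hy
      exact hS ⟨y, hy, rfl⟩
    have h4 := P.3 h2 h3
    refine ⟨⟨g, hgH⟩, ?_, rfl⟩
    have h5 : (⟨g, hgH⟩ : H) ∈ (S : Subgroup G).subgroupOf H := hgS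
    rw [h4] at h5
    exact h5

/-- the index-two subgroup -/
theorem exists_G0 [Finite G] : ∃ G₀ : Subgroup G, G₀.Normal ∧ G₀.index = 2 ∧ x ∉ G₀ ∧ A ≤ G₀ := by
  classical
  set H := centralizer ({e} : Set G) with hH
  have hmul : ∀ a b : G, (a ∈ A ∨ a * x ∈ A) → (b ∈ A ∨ b * x ∈ A) →
      ((a * b ∈ A) ↔ (a ∈ A ↔ b ∈ A)) := by
    intro a b ha hb
    by_cases h1 : a ∈ A
    · by_cases h2 : b ∈ A
      · exact ⟨fun _ => ⟨fun _ => h2, fun _ => h1⟩, fun _ => mul_mem h1 h2⟩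
      · constructor
        · intro h; exact absurd ((mul_mem_cancel_left h1).1 h) h2
        · intro h; exact absurd (h.1 h1) h2
    · by_cases h2 : b ∈ A
      · constructor
        · intro h; exact absurd ((mul_mem_cancel_right h2).1 h) h1
        · intro h; exact absurd (h.2 h2) h1
      · have h3 := ha.resolve_left h1
        have h4 := hb.resolve_left h2
        refine ⟨fun _ => ⟨fun h => absurd h h1, fun h => absurd h h2⟩, fun _ => ?_⟩
        have h5 : a * b = (a * x) * (x * (b * x) * x⁻¹) := by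
          calc a * b = a * 1 * b := by group
            _ = a * (x * x) * b := by rw [T.xx]
            _ = _ := by group
        rw [h5, T.hinv _ h4]
        exact mul_mem h3 (inv_mem h4)
  let φ : H →* ℤˣ :=
    { toFun := fun h => if (h : G) ∈ A then 1 else -1
      map_one' := by rw [if_pos]; exact one_mem A
      map_mul' := by
        intro a b
        have h1 := hmul a b (T.mem_H.1 a.2) (T.mem_H.1 b.2)
        change (if (a : G) * b ∈ A then (1 : ℤˣ) else -1) = (if (a : G) ∈ A then 1 else -1) *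
          (if (b : G) ∈ A then 1 else -1)
        by_cases h2 : (a : G) ∈ A
        · by_cases h3 : (b : G) ∈ A
          · rw [if_pos (h1.2 ⟨fun _ => h3, fun _ => h2⟩), if_pos h2, if_pos h3, mul_one]
          · rw [if_neg (fun h => h3 ((h1.1 h).1 h2)), if_pos h2, if_neg h3, one_mul]
        · by_cases h3 : (b : G) ∈ A
          · rw [if_neg (fun h => h2 ((h1.1 h).2 h3)), if_neg h2, if_pos h3, mul_one]
          · rw [if_pos (h1.2 ⟨fun h => absurd h h2, fun h => absurd h h3⟩), if_neg h2, if_neg h3]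
            rfl }
  have hφ : ∀ h : H, φ h = if (h : G) ∈ A then 1 else -1 := fun _ => rfl
  have hf1 : ∀ (a b : H) (g : G), (b : G) = g⁻¹ * a * g → (a : G) ∈ A → (b : G) ∈ A := by
    intro a b g hg ha
    by_contra hb
    have h1 := (T.mem_H.1 b.2).resolve_left hb
    have h2 := T.sq h1
    have h3 : (a : G) * a = 1 := by
      have h4 : (a : G) = g * b * g⁻¹ := by rw [hg]; group
      rw [h4]
      calc g * b * g⁻¹ * (g * b * g⁻¹) = g * ((b : G) * b) * g⁻¹ := by group
        _ = 1 := by rw [h2]; group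
    have h4 : (a : G) ≠ 1 := by
      intro h5
      apply hb
      rw [hg, h5]
      have : g⁻¹ * 1 * g = (1 : G) := by group
      rw [this]; exact one_mem A
    apply T.notConj (g := g⁻¹) ha h4 h3
    rw [inv_inv, ← hg]; exact h1
  have hf : ∀ (a b : H) (g : G), (b : G) = g⁻¹ * a * g → φ b = φ a := by
    intro a b g hg
    rw [hφ, hφ]
    by_cases h1 : (a : G) ∈ A
    · rw [if_pos h1, if_pos (hf1 a b g hg h1)]
    · rw [if_neg h1, if_neg]
      intro h2
      exact h1 (hf1 b a g⁻¹ (by rw [hg]; group) h2)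
  obtain ⟨τ, hτ⟩ := exists_hom H T.centE φ hf
  have hxH : x ∈ H := T.mem_H.2 (Or.inr (by rw [T.xx]; exact one_mem A))
  have hx : τ x = -1 := by
    rw [hτ ⟨x, hxH⟩, hφ, if_neg T.xA]
  have hAH : ∀ a ∈ A, τ a = 1 := by
    intro a ha
    rw [hτ ⟨a, T.mem_H.2 (Or.inl ha)⟩, hφ, if_pos ha]
  refine ⟨τ.ker, inferInstance, ?_, ?_, ?_⟩
  · rw [index_ker]
    have h1 : τ.range = ⊤ := by
      rw [eq_top_iff]
      intro z _
      rcases Int.units_eq_one_or z with h | h
      · exact ⟨1, by rw [map_one, h]⟩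
      · exact ⟨x, by rw [hx, h]⟩
    rw [h1, card_top, Nat.card_eq_fintype_card]
    rfl
  · rw [MonoidHom.mem_ker, hx]
    decide
  · intro a ha
    rw [MonoidHom.mem_ker]
    exact hAH a ha

end TS
end

end Cfsg.Agent.GWP.T
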