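import Mathlib
import Cfsg.Agent.H52.Four
import Cfsg.Agent.Cop.Hall
import Cfsg.Agent.BSW.Basic

set_option autoImplicit false

/-!
# Groups in which every involution centraliser is a generalised dihedral group over an abelian group with a
unique involution (helper5): elementary properties.
-/

namespace Cfsg.Agent.GWP

universe u

variable {G : Type u} [Group G]

/-- `C(t) = A ∪ A x`, `A` abelian with the unique involution `t`, `x` an involution inverting `A`. -/
structure Cen (A : Subgroup G) (t x : G) : Prop where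
  hab : ∀ a ∈ A, ∀ b ∈ A, a * b = b * a
  tA : t ∈ A
  t1 : t ≠ 1
  tt : t * t = 1
  uniq : ∀ a ∈ A, a * a = 1 → a = 1 ∨ a = t
  xA : x ∉ A
  xx : x * x = 1
  inv : ∀ a ∈ A, x * a * x⁻¹ = a⁻¹
  ct : ∀ g : G, g * t = t * g → g ∈ A ∨ g * x ∈ A

/-- every involution has such a centraliser -/
def PP (G : Type u) [Group G] : Prop := ∀ t : G, t ≠ 1 → t * t = 1 → ∃ (A : Subgroup G) (x : G), Cen A t x

/-- the odd part of the centraliser of `t` -/
def K (t : G) : Subgroup G := Subgroup.closure {g | g * t = t * g ∧ Odd (orderOf g)}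

theorem eq_one_of_sq {g : G} (ho : Odd (orderOf g)) (h : g * g = 1) : g = 1 := by
  rw [← pow_two] at h
  have h1 := orderOf_dvd_of_pow_eq_one h
  rcases (Nat.dvd_prime Nat.prime_two).1 h1 with h2 | h2
  · exact orderOf_eq_one_iff.1 h2
  · rw [h2] at ho; exact absurd ho (by decide)

theorem eq_one_of_inv {g : G} (ho : Odd (orderOf g)) (h : g = g⁻¹) : g = 1 := by
  apply eq_one_of_sq ho
  nth_rw 1 [h]
  exact inv_mul_cancel g

namespace Cen

variable {A : Subgroup G} {t x : G} (H : Cen A t x)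
include H

theorem x_inv : x⁻¹ = x := inv_eq_of_mul_eq_one_left H.xx

theorem x_mul (a : G) (ha : a ∈ A) : x * a = a⁻¹ * x := by
  have := H.inv a ha
  rw [mul_inv_eq_iff_eq_mul] at this
  exact this

theorem mem_or (g : G) (h : g * t = t * g) : g ∈ A ∨ ∃ a ∈ A, g = a * x := by
  rcases H.ct g h with h1 | h1
  · exact Or.inl h1
  · exact Or.inr ⟨g * x, h1, by rw [mul_assoc, H.xx, mul_one]⟩

theorem ax_sq (a : G) (ha : a ∈ A) : (a * x) * (a * x) = 1 := by
  calc (a * x) * (a * x) = a * (x * a) * x := by group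
    _ = a * (a⁻¹ * x) * x := by rw [H.x_mul a ha]
    _ = x * x := by group
    _ = 1 := H.xx

theorem ax_conj (a b : G) (ha : a ∈ A) (hb : b ∈ A) : (a * x) * b * (a * x)⁻¹ = b⁻¹ := by
  have h1 := H.inv b hb
  have h2 := H.hab a ha b⁻¹ (A.inv_mem hb)
  calc (a * x) * b * (a * x)⁻¹ = a * (x * b * x⁻¹) * a⁻¹ := by group
    _ = a * b⁻¹ * a⁻¹ := by rw [h1]
    _ = b⁻¹ := by rw [h2]; group

theorem comm_t (a : G) (ha : a ∈ A) : a * t = t * a := H.hab a ha t H.tA

theorem t_inv : t⁻¹ = t := inv_eq_of_mul_eq_one_left H.tt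

theorem x_comm : x * t = t * x := by
  rw [H.x_mul t H.tA, H.t_inv]

/-- elements of odd order of the centraliser lie in `A` -/
theorem odd_mem {g : G} (h : g * t = t * g) (ho : Odd (orderOf g)) : g ∈ A := by
  rcases H.mem_or g h with h1 | ⟨a, ha, h1⟩
  · exact h1
  · have h2 : g * g = 1 := by rw [h1]; exact H.ax_sq a ha
    rw [eq_one_of_sq ho h2]
    exact A.one_mem

theorem mem_K {g : G} : g ∈ K t ↔ g * t = t * g ∧ Odd (orderOf g) := by
  constructor
  · intro h
    have key : ∀ g ∈ K t, g ∈ A ∧ Odd (orderOf g) := by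
      intro g hg
      refine Subgroup.closure_induction (p := fun g _ => g ∈ A ∧ Odd (orderOf g)) ?_ ?_ ?_ ?_ hg
      · rintro y ⟨hy1, hy2⟩
        exact ⟨H.odd_mem hy1 hy2, hy2⟩
      · exact ⟨A.one_mem, by rw [orderOf_one]; exact odd_one⟩
      · rintro a b - - ⟨ha, ha'⟩ ⟨hb, hb'⟩
        refine ⟨A.mul_mem ha hb, ?_⟩
        have hc : Commute a b := H.hab a ha b hb
        exact Odd.of_dvd_nat (ha'.mul hb') (hc.orderOf_mul_dvd_mul_orderOf)
      · rintro a - ⟨ha, ha'⟩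
        exact ⟨A.inv_mem ha, by rw [orderOf_inv]; exact ha'⟩
    exact ⟨H.comm_t g (key g h).1, (key g h).2⟩
  · intro h
    exact Subgroup.subset_closure h

theorem K_le : K t ≤ A := fun _ hg => H.odd_mem (H.mem_K.1 hg).1 (H.mem_K.1 hg).2

theorem K_comm {a b : G} (ha : a ∈ K t) (hb : b ∈ K t) : a * b = b * a :=
  H.hab a (H.K_le ha) b (H.K_le hb)

theorem K_card [Finite G] : Odd (Nat.card (K t)) := by
  rw [← Nat.not_even_iff_odd, even_iff_two_dvd]
  intro h
  obtain ⟨g, hg⟩ := exists_prime_orderOf_dvd_card' 2 h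
  have h1 := (H.mem_K.1 g.2).2
  rw [Subgroup.orderOf_coe, hg] at h1
  exact absurd h1 (by decide)

/-- the involutions commuting with `t` invert `K t` -/
theorem outer {s : G} (hs : s * s = 1) (hs1 : s ≠ 1) (hst : s ≠ t) (h : s * t = t * s) :
    ∃ a ∈ A, s = a * x := by
  rcases H.mem_or s h with h1 | h1
  · rcases H.uniq s h1 hs with h2 | h2
    · exact absurd h2 hs1
    · exact absurd h2 hst
  · exact h1

theorem inv_of {s : G} (hs : s * s = 1) (hs1 : s ≠ 1) (hst : s ≠ t) (h : s * t = t * s) {a : G} (ha : a ∈ A) :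
    s * a * s⁻¹ = a⁻¹ := by
  obtain ⟨b, hb, rfl⟩ := H.outer hs hs1 hst h
  exact H.ax_conj b a hb ha

/-- two commuting involutions generate a self-centralising subgroup -/
theorem cent_four {s : G} (hs : s * s = 1) (hs1 : s ≠ 1) (hst : s ≠ t) (h : s * t = t * s) {g : G}
    (hg : g * t = t * g) (hgs : g * s = s * g) : g = 1 ∨ g = t ∨ g = s ∨ g = t * s := by
  have key : ∀ g ∈ A, g * s = s * g → g = 1 ∨ g = t := by
    intro g hgA hgs
    apply H.uniq g hgA
    have h1 := H.inv_of hs hs1 hst h hgA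
    rw [← hgs, mul_inv_cancel_right] at h1
    nth_rw 1 [h1]
    exact inv_mul_cancel g
  rcases H.mem_or g hg with h1 | ⟨a, ha, h1⟩
  · rcases key g h1 hgs with h2 | h2
    · exact Or.inl h2
    · exact Or.inr (Or.inl h2)
  · obtain ⟨b, hb, hb'⟩ := H.outer hs hs1 hst h
    have h2 : g * s ∈ A := by
      have : g * s = a * b⁻¹ := by
        rw [h1, hb']
        calc a * x * (b * x) = a * (x * b) * x := by group
          _ = a * (b⁻¹ * x) * x := by rw [H.x_mul b hb]
          _ = a * b⁻¹ * (x * x) := by group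
          _ = a * b⁻¹ := by rw [H.xx, mul_one]
      rw [this]
      exact A.mul_mem ha (A.inv_mem hb)
    rcases key (g * s) h2 (by rw [← mul_assoc, hgs]) with h3 | h3
    · right; right; left
      have : g = s⁻¹ := eq_inv_of_mul_eq_one_left h3
      rw [this]; exact inv_eq_of_mul_eq_one_left hs
    · right; right; right
      rw [← h3, mul_assoc, hs, mul_one]

end Cen

theorem K_conj (g t : G) {y : G} (hy : y ∈ K t) : g * y * g⁻¹ ∈ K (g * t * g⁻¹) := by
  refine Subgroup.closure_induction (p := fun y _ => g * y * g⁻¹ ∈ K (g * t * g⁻¹)) ?_ ?_ ?_ ?_ hy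
  · rintro y ⟨h1, h2⟩
    apply Subgroup.subset_closure
    refine ⟨?_, ?_⟩
    · calc g * y * g⁻¹ * (g * t * g⁻¹) = g * (y * t) * g⁻¹ := by group
        _ = g * (t * y) * g⁻¹ := by rw [h1]
        _ = g * t * g⁻¹ * (g * y * g⁻¹) := by group
    · have : orderOf (g * y * g⁻¹) = orderOf y := by
        have := orderOf_injective (MulAut.conj g).toMonoidHom (MulAut.conj g).injective y
        simpa using this
      rw [this]; exact h2
  · simp
  · intro a b _ _ ha hb
    have : g * (a * b) * g⁻¹ = (g * a * g⁻¹) * (g * b * g⁻¹) := by group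
    rw [this]; exact Subgroup.mul_mem _ ha hb
  · intro a _ ha
    have : g * a⁻¹ * g⁻¹ = (g * a * g⁻¹)⁻¹ := by group
    rw [this]; exact Subgroup.inv_mem _ ha

theorem K_conj_iff (g t y : G) : g * y * g⁻¹ ∈ K (g * t * g⁻¹) ↔ y ∈ K t := by
  refine ⟨fun h => ?_, K_conj g t⟩
  have := K_conj g⁻¹ _ h
  simpa [mul_assoc] using this

/-- distinct commuting involutions -/
structure Four (u v : G) : Prop where
  u1 : u ≠ 1
  v1 : v ≠ 1
  ne : u ≠ v
  uu : u * u = 1
  vv : v * v = 1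
  comm : u * v = v * u

/-- normalised by `u` and `v` -/
def Inv (u v : G) (X : Subgroup G) : Prop := (∀ x ∈ X, u * x * u⁻¹ ∈ X) ∧ ∀ x ∈ X, v * x * v⁻¹ ∈ X

/-- products of elements of odd order of `L` have odd order (i.e. `L` has a normal 2-complement) -/
def OddNil (L : Subgroup G) : Prop :=
  ∀ x ∈ L, ∀ y ∈ L, Odd (orderOf x) → Odd (orderOf y) → Odd (orderOf (x * y))

/-- the subgroup generated by the elements of odd order of `L` -/
def OO (L : Subgroup G) : Subgroup G := Subgroup.closure {g | g ∈ L ∧ Odd (orderOf g)}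

/-- the `q`-part of `K t` -/
def Kq (q : ℕ) (t : G) : Subgroup G := Subgroup.closure {g | g ∈ K t ∧ ∃ k : ℕ, g ^ q ^ k = 1}

/-- the join of the `q`-parts for the involutions of the four-group -/
def T (q : ℕ) (u v : G) : Subgroup G := Kq q u ⊔ Kq q v ⊔ Kq q (u * v)

/-- the hypotheses on `G` (together with `[Finite G] [IsSimpleGroup G]`) -/
structure Core (G : Type u) [Group G] : Prop where
  pp : PP G
  conj : ∀ s t : G, s ≠ 1 → s * s = 1 → t ≠ 1 → t * t = 1 → ∃ g : G, g * s * g⁻¹ = t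

namespace Four
variable {u v : G} (F : Four u v)
include F

theorem w1 : u * v ≠ 1 := by
  intro h
  apply F.ne
  have h1 := eq_inv_of_mul_eq_one_left h
  rw [h1]; exact inv_eq_of_mul_eq_one_left F.vv

theorem ww : u * v * (u * v) = 1 := by
  calc u * v * (u * v) = u * (v * u) * v := by group
    _ = u * (u * v) * v := by rw [F.comm]
    _ = (u * u) * (v * v) := by group
    _ = 1 := by rw [F.uu, F.vv, one_mul]

theorem uinv : u⁻¹ = u := inv_eq_of_mul_eq_one_left F.uu
theorem vinv : v⁻¹ = v := inv_eq_of_mul_eq_one_left F.vv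

theorem symm : Four v u := ⟨F.v1, F.u1, F.ne.symm, F.vv, F.uu, F.comm.symm⟩

theorem uw : u * (u * v) = v := by rw [← mul_assoc, F.uu, one_mul]
theorem vw : v * (u * v) = u := by rw [F.comm, ← mul_assoc, F.vv, one_mul]
theorem wu : u * v * u = v := by rw [mul_assoc, ← F.comm, F.uw]
theorem wv : u * v * v = u := by rw [mul_assoc, F.vv, mul_one]

theorem f2 : Four u (u * v) :=
  ⟨F.u1, F.w1, fun h => F.v1 (by simpa using h.symm), F.uu, F.ww, by rw [F.uw, F.wu]⟩

theorem f3 : Four v (u * v) :=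
  ⟨F.v1, F.w1, fun h => F.u1 (by simpa using h.symm), F.vv, F.ww, by rw [F.vw, F.wv]⟩

end Four

theorem Four.conj {u v : G} (F : Four u v) (g : G) : Four (g * u * g⁻¹) (g * v * g⁻¹) where
  u1 := by rw [ne_eq, conj_eq_one_iff]; exact F.u1
  v1 := by rw [ne_eq, conj_eq_one_iff]; exact F.v1
  ne := by
    intro h
    apply F.ne
    simpa using h
  uu := by
    calc g * u * g⁻¹ * (g * u * g⁻¹) = g * (u * u) * g⁻¹ := by group
      _ = 1 := by rw [F.uu]; group
  vv := by
    calc g * v * g⁻¹ * (g * v * g⁻¹) = g * (v * v) * g⁻¹ := by group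
      _ = 1 := by rw [F.vv]; group
  comm := by
    calc g * u * g⁻¹ * (g * v * g⁻¹) = g * (u * v) * g⁻¹ := by group
      _ = g * (v * u) * g⁻¹ := by rw [F.comm]
      _ = g * v * g⁻¹ * (g * u * g⁻¹) := by group

theorem Inv.w {u v : G} {X : Subgroup G} (h : Inv u v X) : ∀ x ∈ X, u * v * x * (u * v)⁻¹ ∈ X := by
  intro x hx
  have : u * v * x * (u * v)⁻¹ = u * (v * x * v⁻¹) * u⁻¹ := by group
  rw [this]
  exact h.1 _ (h.2 x hx)

theorem Inv.symm {u v : G} {X : Subgroup G} (h : Inv u v X) : Inv v u X := ⟨h.2, h.1⟩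

theorem Inv.mem_normalizer {X : Subgroup G} {s : G} (ss : s * s = 1) (h : ∀ x ∈ X, s * x * s⁻¹ ∈ X) :
    s ∈ Subgroup.normalizer (X : Set G) := by
  rw [Subgroup.mem_normalizer_iff]
  have hi : s⁻¹ = s := inv_eq_of_mul_eq_one_left ss
  refine fun x => ⟨h x, fun hx => ?_⟩
  have h1 := h _ hx
  have h2 : s * (s * x * s⁻¹) * s⁻¹ = x := by
    rw [hi]
    calc s * (s * x * s) * s = (s * s) * x * (s * s) := by group
      _ = x := by rw [ss]; group
  rwa [h2] at h1

section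
variable (hP : PP G)
include hP

theorem mem_K {t : G} (t1 : t ≠ 1) (tt : t * t = 1) {g : G} : g ∈ K t ↔ g * t = t * g ∧ Odd (orderOf g) := by
  obtain ⟨A, x, H⟩ := hP t t1 tt
  exact H.mem_K

theorem K_comm {t : G} (t1 : t ≠ 1) (tt : t * t = 1) {a b : G} (ha : a ∈ K t) (hb : b ∈ K t) :
    a * b = b * a := by
  obtain ⟨A, x, H⟩ := hP t t1 tt
  exact H.K_comm ha hb

theorem K_odd [Finite G] {t : G} (t1 : t ≠ 1) (tt : t * t = 1) : Odd (Nat.card (K t)) := by
  obtain ⟨A, x, H⟩ := hP t t1 tt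
  exact H.K_card

/-- `v` inverts `K u` -/
theorem K_inv {u v : G} (F : Four u v) {a : G} (ha : a ∈ K u) : v * a * v⁻¹ = a⁻¹ := by
  obtain ⟨A, x, H⟩ := hP u F.u1 F.uu
  exact H.inv_of F.vv F.v1 F.ne.symm F.comm.symm (H.K_le ha)

/-- a four-group is self-centralising -/
theorem cent_four {u v : G} (F : Four u v) {g : G} (hu : g * u = u * g) (hv : g * v = v * g) :
    g = 1 ∨ g = u ∨ g = v ∨ g = u * v := by
  obtain ⟨A, x, H⟩ := hP u F.u1 F.uu
  exact H.cent_four F.vv F.v1 F.ne.symm F.comm.symm hu hv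

theorem cent_odd {u v : G} (F : Four u v) {g : G} (hu : g * u = u * g) (hv : g * v = v * g)
    (ho : Odd (orderOf g)) : g = 1 := by
  rcases cent_four hP F hu hv with h | h | h | h
  · exact h
  · exact eq_one_of_sq ho (by rw [h]; exact F.uu)
  · exact eq_one_of_sq ho (by rw [h]; exact F.vv)
  · exact eq_one_of_sq ho (by rw [h]; exact F.ww)

theorem K_inf {u v : G} (F : Four u v) {g : G} (hu : g ∈ K u) (hv : g ∈ K v) : g = 1 := by
  rw [mem_K hP F.u1 F.uu] at hu
  rw [mem_K hP F.v1 F.vv] at hv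
  exact cent_odd hP F hu.1 hv.1 hu.2

theorem mem_Kq {q : ℕ} {t : G} (t1 : t ≠ 1) (tt : t * t = 1) {g : G} :
    g ∈ Kq q t ↔ g ∈ K t ∧ ∃ k : ℕ, g ^ q ^ k = 1 := by
  constructor
  · intro h
    refine Subgroup.closure_induction (p := fun g _ => g ∈ K t ∧ ∃ k : ℕ, g ^ q ^ k = 1) ?_ ?_ ?_ ?_ h
    · exact fun y hy => hy
    · exact ⟨(K t).one_mem, 0, by simp⟩
    · rintro a b - - ⟨ha, k, hk⟩ ⟨hb, l, hl⟩
      refine ⟨(K t).mul_mem ha hb, k + l, ?_⟩
      have hc : Commute a b := K_comm hP t1 tt ha hb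
      rw [hc.mul_pow, pow_add, pow_mul, hk, one_pow, mul_comm (q ^ k), pow_mul, hl, one_pow, one_mul]
    · rintro a - ⟨ha, k, hk⟩
      exact ⟨(K t).inv_mem ha, k, by rw [inv_pow, hk, inv_one]⟩
  · intro h
    exact Subgroup.subset_closure h

theorem Kq_le {q : ℕ} {t : G} (t1 : t ≠ 1) (tt : t * t = 1) : Kq q t ≤ K t :=
  fun _ hg => ((mem_Kq hP t1 tt).1 hg).1

theorem Kq_pgroup {q : ℕ} {t : G} (t1 : t ≠ 1) (tt : t * t = 1) : IsPGroup q (Kq q t) := by
  intro g
  obtain ⟨k, hk⟩ := ((mem_Kq hP t1 tt).1 g.2).2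
  exact ⟨k, by ext; simpa using hk⟩

theorem K_Inv {u v : G} (F : Four u v) : Inv u v (K u) := by
  refine ⟨fun x hx => ?_, fun x hx => ?_⟩
  · have h1 := ((mem_K hP F.u1 F.uu).1 hx).1
    rwa [← h1, mul_inv_cancel_right]
  · rw [K_inv hP F hx]; exact (K u).inv_mem hx

/-- any subgroup of `K u` is normalised by `u` and `v` -/
theorem Inv_of_le {u v : G} (F : Four u v) {Y : Subgroup G} (hY : Y ≤ K u) : Inv u v Y := by
  refine ⟨fun x hx => ?_, fun x hx => ?_⟩
  · have h1 := ((mem_K hP F.u1 F.uu).1 (hY hx)).1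
    rwa [← h1, mul_inv_cancel_right]
  · rw [K_inv hP F (hY hx)]; exact Y.inv_mem hx

omit hP in
theorem odd_of_mem [Finite G] {X : Subgroup G} (hX : Odd (Nat.card X)) {x : G} (hx : x ∈ X) : Odd (orderOf x) := by
  have h1 : orderOf (⟨x, hx⟩ : X) ∣ Nat.card X := orderOf_dvd_natCard _
  rw [Subgroup.orderOf_mk] at h1
  exact Odd.of_dvd_nat hX h1

/-- the Brauer-Wielandt factorisation: `X = ⟨X_u, X_v, X_{uv}⟩` -/
theorem le_of_parts [Finite G] {u v : G} (F : Four u v) {X : Subgroup G} (hX : Odd (Nat.card X)) (hI : Inv u v X)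
    {L : Subgroup G} (h1 : X ⊓ K u ≤ L) (h2 : X ⊓ K v ≤ L) (h3 : X ⊓ K (u * v) ≤ L) : X ≤ L := by
  refine H52.four_group_le X hX u v F.uu F.vv F.comm hI.1 hI.2 L ?_ ?_ ?_
  · intro x hx h
    exact h1 ⟨hx, (mem_K hP F.u1 F.uu).2 ⟨h.symm, odd_of_mem hX hx⟩⟩
  · intro x hx h
    exact h2 ⟨hx, (mem_K hP F.v1 F.vv).2 ⟨h.symm, odd_of_mem hX hx⟩⟩
  · intro x hx h
    exact h3 ⟨hx, (mem_K hP F.w1 F.ww).2 ⟨h.symm, odd_of_mem hX hx⟩⟩

end

theorem Kq_conj (hP : PP G) {q : ℕ} (g t : G) (t1 : t ≠ 1) (tt : t * t = 1) {y : G} (hy : y ∈ Kq q t) :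
    g * y * g⁻¹ ∈ Kq q (g * t * g⁻¹) := by
  obtain ⟨h1, k, hk⟩ := (mem_Kq hP t1 tt).1 hy
  apply Subgroup.subset_closure
  exact ⟨K_conj g t h1, k, by rw [conj_pow, hk]; group⟩

theorem mem_OO {L : Subgroup G} (hL : OddNil L) {g : G} : g ∈ OO L ↔ g ∈ L ∧ Odd (orderOf g) := by
  constructor
  · intro h
    refine Subgroup.closure_induction (p := fun g _ => g ∈ L ∧ Odd (orderOf g)) ?_ ?_ ?_ ?_ h
    · exact fun y hy => hy
    · exact ⟨L.one_mem, by rw [orderOf_one]; exact odd_one⟩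
    · rintro a b - - ⟨ha, ha'⟩ ⟨hb, hb'⟩
      exact ⟨L.mul_mem ha hb, hL a ha b hb ha' hb'⟩
    · rintro a - ⟨ha, ha'⟩
      exact ⟨L.inv_mem ha, by rw [orderOf_inv]; exact ha'⟩
  · intro h
    exact Subgroup.subset_closure h

theorem OO_odd [Finite G] {L : Subgroup G} (hL : OddNil L) : Odd (Nat.card (OO L)) := by
  rw [← Nat.not_even_iff_odd, even_iff_two_dvd]
  intro h
  obtain ⟨g, hg⟩ := exists_prime_orderOf_dvd_card' 2 h
  have h1 := ((mem_OO hL).1 g.2).2
  rw [Subgroup.orderOf_coe, hg] at h1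
  exact absurd h1 (by decide)

theorem OO_le {L : Subgroup G} : OO L ≤ L := by
  rw [OO, Subgroup.closure_le]
  exact fun y hy => hy.1

theorem OO_conj {L : Subgroup G} {g : G} (hg : g ∈ Subgroup.normalizer (L : Set G)) {x : G} (hx : x ∈ OO L) :
    g * x * g⁻¹ ∈ OO L := by
  refine Subgroup.closure_induction (p := fun x _ => g * x * g⁻¹ ∈ OO L) ?_ ?_ ?_ ?_ hx
  · rintro y ⟨h1, h2⟩
    apply Subgroup.subset_closure
    refine ⟨(Subgroup.mem_normalizer_iff.1 hg y).1 h1, ?_⟩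
    have : orderOf (g * y * g⁻¹) = orderOf y := by
      have := orderOf_injective (MulAut.conj g).toMonoidHom (MulAut.conj g).injective y
      simpa using this
    rw [this]; exact h2
  · simp
  · intro a b _ _ ha hb
    have : g * (a * b) * g⁻¹ = (g * a * g⁻¹) * (g * b * g⁻¹) := by group
    rw [this]; exact Subgroup.mul_mem _ ha hb
  · intro a _ ha
    have : g * a⁻¹ * g⁻¹ = (g * a * g⁻¹)⁻¹ := by group
    rw [this]; exact Subgroup.inv_mem _ ha

end Cfsg.Agent.GWP
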