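import Cfsg.Agent.GWP.Basic
import Cfsg.Agent.H10.Eqf

set_option autoImplicit false

namespace Cfsg.Agent.GWP
universe u
variable {G : Type u} [Group G] [Finite G]

omit [Finite G] in
theorem mem_closure_four {u v : G} (F : Four u v) {x : G} (hx : x ∈ Subgroup.closure ({u, v} : Set G)) :
    x = 1 ∨ x = u ∨ x = v ∨ x = u * v := by
  refine Subgroup.closure_induction (p := fun x _ => x = 1 ∨ x = u ∨ x = v ∨ x = u * v) ?_ ?_ ?_ ?_ hx
  · intro y hy
    rcases hy with rfl | hy
    · exact Or.inr (Or.inl rfl)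
    · exact Or.inr (Or.inr (Or.inl hy))
  · exact Or.inl rfl
  · intro a b _ _ ha hb
    rcases ha with rfl | rfl | rfl | rfl
    · rw [one_mul]; exact hb
    · rcases hb with rfl | rfl | rfl | rfl
      · simp
      · exact Or.inl F.uu
      · simp
      · rw [F.uw]; simp
    · rcases hb with rfl | rfl | rfl | rfl
      · simp
      · rw [← F.comm]; simp
      · exact Or.inl F.vv
      · rw [F.vw]; simp
    · rcases hb with rfl | rfl | rfl | rfl
      · simp
      · rw [F.wu]; simp
      · rw [F.wv]; simp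
      · exact Or.inl F.ww
  · intro a _ ha
    rcases ha with rfl | rfl | rfl | rfl
    · simp
    · rw [F.uinv]; simp
    · rw [F.vinv]; simp
    · have : (u * v)⁻¹ = u * v := inv_eq_of_mul_eq_one_left F.ww
      rw [this]; simp

omit [Finite G] in
theorem isPGroup_four {u v : G} (F : Four u v) : IsPGroup 2 (Subgroup.closure ({u, v} : Set G)) := by
  intro x
  refine ⟨1, ?_⟩
  ext
  rw [pow_one, Subgroup.coe_pow, pow_two, Subgroup.coe_one]
  rcases mem_closure_four F x.2 with h | h | h | h <;> rw [h]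
  · rw [one_mul]
  · exact F.uu
  · exact F.vv
  · exact F.ww

omit [Finite G] in
theorem closure_le_normalizer {u v : G} (F : Four u v) {X : Subgroup G} (h : Inv u v X) :
    Subgroup.closure ({u, v} : Set G) ≤ Subgroup.normalizer (X : Set G) := by
  rw [Subgroup.closure_le]
  rintro y (rfl | hy)
  · exact Inv.mem_normalizer F.uu h.1
  · rw [Set.mem_singleton_iff] at hy
    subst hy
    exact Inv.mem_normalizer F.vv h.2

omit [Finite G] in
theorem inv_of_le_normalizer {u v : G} {X : Subgroup G}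
    (h : Subgroup.closure ({u, v} : Set G) ≤ Subgroup.normalizer (X : Set G)) : Inv u v X := by
  have hu : u ∈ Subgroup.closure ({u, v} : Set G) := Subgroup.subset_closure (by simp)
  have hv : v ∈ Subgroup.closure ({u, v} : Set G) := Subgroup.subset_closure (by simp)
  exact ⟨fun x hx => (Subgroup.mem_normalizer_iff.1 (h hu) x).1 hx,
    fun x hx => (Subgroup.mem_normalizer_iff.1 (h hv) x).1 hx⟩

/-- two `V`-invariant `q`-subgroups of a subgroup `L ≥ V` with a normal 2-complement lie in a common one -/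
theorem join (hP : PP G) {u v : G} (F : Four u v) {L : Subgroup G} (hL : OddNil L) (hu : u ∈ L) (hv : v ∈ L)
    {q : ℕ} [Fact q.Prime] (hq : q ≠ 2) {P R : Subgroup G} (hPL : P ≤ L) (hRL : R ≤ L) (hPq : IsPGroup q P)
    (hRq : IsPGroup q R) (hPI : Inv u v P) (hRI : Inv u v R) :
    ∃ S ≤ L, IsPGroup q S ∧ Inv u v S ∧ P ≤ S ∧ R ≤ S := by
  set A := Subgroup.closure ({u, v} : Set G) with hA
  have hXodd := OO_odd hL
  have hXI : Inv u v (OO L) :=
    ⟨fun x hx => OO_conj (Subgroup.le_normalizer hu) hx, fun x hx => OO_conj (Subgroup.le_normalizer hv) hx⟩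
  have hAX : A ≤ Subgroup.normalizer (OO L : Set G) := closure_le_normalizer F hXI
  have hA2 : IsPGroup 2 A := isPGroup_four F
  haveI : Fact (Nat.Prime 2) := ⟨Nat.prime_two⟩
  obtain ⟨n, hn⟩ := IsPGroup.iff_card.1 hA2
  have hcop : (Nat.card A).Coprime (Nat.card (OO L)) := by
    rw [hn]
    exact Nat.Coprime.pow_left n ((Nat.coprime_two_left).2 hXodd)
  have hsolv : Group.IsSolvable A ∨ Group.IsSolvable (OO L) := by
    left
    haveI := hA2.isNilpotent
    infer_instance
  have hle : ∀ {P : Subgroup G}, P ≤ L → IsPGroup q P → P ≤ OO L := by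
    intro P hPL hPq x hx
    apply Subgroup.subset_closure
    refine ⟨hPL hx, ?_⟩
    obtain ⟨k, hk⟩ := hPq ⟨x, hx⟩
    have h1 : x ^ q ^ k = 1 := by
      have := congrArg Subtype.val hk
      simpa using this
    have h2 := orderOf_dvd_of_pow_eq_one h1
    exact Odd.of_dvd_nat (((Nat.Prime.odd_of_ne_two Fact.out hq)).pow) h2
  obtain ⟨P', hP1, hP2⟩ := Cop.exists_invariant_sylow_ge hAX hcop hsolv q (hle hPL hPq) hPq
    (closure_le_normalizer F hPI)
  obtain ⟨R', hR1, hR2⟩ := Cop.exists_invariant_sylow_ge hAX hcop hsolv q (hle hRL hRq) hRq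
    (closure_le_normalizer F hRI)
  obtain ⟨c, hc, hc'⟩ := Cop.exists_centralizer_conj_sylow hAX hcop hsolv q P' R' hP2 hR2
  have hc1 : c = 1 := by
    ext
    rw [Subgroup.mem_centralizer_iff] at hc
    exact cent_odd hP F (hc u (Subgroup.subset_closure (by simp))).symm
      (hc v (Subgroup.subset_closure (by simp))).symm (odd_of_mem hXodd c.2)
  have hPR : P' = R' := by
    rw [← hc', hc1, map_one, one_smul]
  refine ⟨(P' : Subgroup (OO L)).map (OO L).subtype, ?_, P'.isPGroup'.map _, inv_of_le_normalizer hP2, hP1, ?_⟩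
  · rintro _ ⟨x, _, rfl⟩
    exact OO_le x.2
  · rw [hPR]; exact hR1

/-- order formula for a `V`-invariant subgroup of odd order -/
theorem card_eq (hP : PP G) {u v : G} (F : Four u v) {X : Subgroup G} (hX : Odd (Nat.card X)) (hI : Inv u v X) :
    Nat.card X = Nat.card (X ⊓ K u : Subgroup G) * Nat.card (X ⊓ K v : Subgroup G) *
      Nat.card (X ⊓ K (u * v) : Subgroup G) := by
  have key : ∀ t : G, t ≠ 1 → t * t = 1 → X ⊓ K t = X ⊓ Subgroup.centralizer ({t} : Set G) := by
    intro t t1 tt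
    ext x
    simp only [Subgroup.mem_inf, Subgroup.mem_centralizer_iff, Set.mem_singleton_iff, forall_eq]
    constructor
    · rintro ⟨h1, h2⟩
      exact ⟨h1, ((mem_K hP t1 tt).1 h2).1.symm⟩
    · rintro ⟨h1, h2⟩
      exact ⟨h1, (mem_K hP t1 tt).2 ⟨h2.symm, odd_of_mem hX h1⟩⟩
  rw [key u F.u1 F.uu, key v F.v1 F.vv, key (u * v) F.w1 F.ww, mul_assoc]
  refine H10.order_formula X hX u v F.uu F.vv F.comm hI.1 hI.2 ?_
  intro x hx h1 h2
  exact cent_odd hP F h1.symm h2.symm (odd_of_mem hX hx)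

end Cfsg.Agent.GWP
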