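import Cfsg.Agent.GWP.NY
import Cfsg.Agent.GWP.Join
import Cfsg.Agent.BSW.Main

set_option autoImplicit false

namespace Cfsg.Agent.GWP
universe u
variable {G : Type u} [Group G] [Finite G]

omit [Finite G] in
theorem Cen.change (_hP : PP G) {A : Subgroup G} {u v x : G} (H : Cen A u x) (F : Four u v) : Cen A u v where
  hab := H.hab
  tA := H.tA
  t1 := H.t1
  tt := H.tt
  uniq := H.uniq
  xA := by
    intro h
    rcases H.uniq v h F.vv with h1 | h1
    · exact F.v1 h1
    · exact F.ne h1.symm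
  xx := F.vv
  inv := fun a ha => H.inv_of F.vv F.v1 F.ne.symm F.comm.symm ha
  ct := by
    intro g hg
    obtain ⟨b, hb, hb'⟩ := H.outer F.vv F.v1 F.ne.symm F.comm.symm
    rcases H.mem_or g hg with h | ⟨a, ha, h⟩
    · exact Or.inl h
    · right
      have : g * v = a * b⁻¹ := by
        rw [h, hb']
        calc a * x * (b * x) = a * (x * b) * x := by group
          _ = a * (b⁻¹ * x) * x := by rw [H.x_mul b hb]
          _ = a * b⁻¹ * (x * x) := by group
          _ = a * b⁻¹ := by rw [H.xx, mul_one]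
      rw [this]
      exact A.mul_mem ha (A.inv_mem hb)

/-- a `V`-invariant `q`-group containing `Kq q u` properly contains a non-trivial `q`-element of `K v` or
`K (uv)` normalising `Kq q u` -/
theorem exists_of_lt (hP : PP G) {u v : G} (F : Four u v) {q : ℕ} [Fact q.Prime] (hq : q ≠ 2)
    {Q : Subgroup G} (hQq : IsPGroup q Q) (hI : Inv u v Q) (hle : Kq q u ≤ Q) (hne : ¬ Q ≤ Kq q u) :
    ∃ z : G, z ≠ 1 ∧ z ∈ Subgroup.normalizer (Kq q u : Set G) ∧ (z ∈ Kq q v ∨ z ∈ Kq q (u * v)) := by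
  have hqodd : Odd q := (Fact.out : q.Prime).odd_of_ne_two hq
  have hQodd : Odd (Nat.card Q) := by
    obtain ⟨k, hk⟩ := IsPGroup.iff_card.1 hQq
    rw [hk]; exact hqodd.pow
  -- the normaliser in `Q`
  set D : Subgroup G := Q ⊓ Subgroup.normalizer (Kq q u : Set G) with hD
  have hDodd : Odd (Nat.card D) := Odd.of_dvd_nat hQodd (Subgroup.card_dvd_of_le inf_le_left)
  have hKI : Inv u v (Kq q u) := Inv_of_le hP F (Kq_le hP F.u1 F.uu)
  have hun : u ∈ Subgroup.normalizer (Kq q u : Set G) := Inv.mem_normalizer F.uu hKI.1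
  have hvn : v ∈ Subgroup.normalizer (Kq q u : Set G) := Inv.mem_normalizer F.vv hKI.2
  have hDI : Inv u v D := by
    refine ⟨fun x hx => ⟨hI.1 x hx.1, ?_⟩, fun x hx => ⟨hI.2 x hx.1, ?_⟩⟩
    · exact Subgroup.mul_mem _ (Subgroup.mul_mem _ hun hx.2) (Subgroup.inv_mem _ hun)
    · exact Subgroup.mul_mem _ (Subgroup.mul_mem _ hvn hx.2) (Subgroup.inv_mem _ hvn)
  have hDne : ¬ D ≤ Kq q u := by
    intro hDle
    -- `Kq q u` as a subgroup of `Q` is proper and self-normalising
    have hnc : NormalizerCondition Q := by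
      have : Group.IsNilpotent Q := hQq.isNilpotent
      exact Group.normalizerCondition_of_isNilpotent
    have hlt : (Kq q u).subgroupOf Q < ⊤ := by
      rw [lt_top_iff_ne_top]
      intro h
      exact hne (Subgroup.subgroupOf_eq_top.1 h)
    have h1 := hnc _ hlt
    apply h1.not_ge
    intro z hz
    rw [Subgroup.mem_subgroupOf]
    apply hDle
    refine ⟨z.2, ?_⟩
    change (z : G) ∈ Subgroup.normalizer (Kq q u : Set G)
    rw [Subgroup.mem_normalizer_iff] at hz ⊢
    intro h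
    constructor
    · intro hh
      have := (hz ⟨h, hle hh⟩).1 (by rw [Subgroup.mem_subgroupOf]; exact hh)
      rw [Subgroup.mem_subgroupOf] at this
      exact this
    · intro hh
      have hhQ : h ∈ Q := by
        have h2 : (z : G)⁻¹ * ((z : G) * h * (z : G)⁻¹) * (z : G) ∈ Q :=
          Q.mul_mem (Q.mul_mem (Q.inv_mem z.2) (hle hh)) z.2
        have h3 : (z : G)⁻¹ * ((z : G) * h * (z : G)⁻¹) * (z : G) = h := by group
        rwa [h3] at h2
      have := (hz ⟨h, hhQ⟩).2 (by rw [Subgroup.mem_subgroupOf]; exact hh)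
      rw [Subgroup.mem_subgroupOf] at this
      exact this
  have hpow : ∀ z ∈ D, ∃ k : ℕ, z ^ q ^ k = 1 := by
    intro z hz
    obtain ⟨k, hk⟩ := hQq ⟨z, hz.1⟩
    exact ⟨k, by simpa using congrArg Subtype.val hk⟩
  by_contra hcon
  push Not at hcon
  apply hDne
  refine le_of_parts hP F hDodd hDI ?_ ?_ ?_
  · intro z hz
    exact (mem_Kq hP F.u1 F.uu).2 ⟨hz.2, hpow z hz.1⟩
  · intro z hz
    by_cases hz1 : z = 1
    · rw [hz1]; exact Subgroup.one_mem _
    · exact absurd ((mem_Kq hP F.v1 F.vv).2 ⟨hz.2, hpow z hz.1⟩) (hcon z hz1 hz.1.2).1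
  · intro z hz
    by_cases hz1 : z = 1
    · rw [hz1]; exact Subgroup.one_mem _
    · exact absurd ((mem_Kq hP F.w1 F.ww).2 ⟨hz.2, hpow z hz.1⟩) (hcon z hz1 hz.1.2).2

/-- the key step: no nontrivial element of `K v` lies in `OO N(Y)`, `1 ≠ Y ≤ K u`. -/
theorem no_part (hP : PP G)
    (hPi : ∀ (q : ℕ) (_ : Fact q.Prime) (u v : G), q ≠ 2 → Four u v → ∀ y ∈ Kq q v,
      (∀ a ∈ Kq q u, a * y = y * a) → y = 1) {u v : G} (F : Four u v) {Y : Subgroup G} (hY : Y ≤ K u)
    (hY1 : Y ≠ ⊥) {y : G} (hyX : y ∈ OO (Subgroup.normalizer (Y : Set G))) (hyv : y ∈ K v) : y = 1 := by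
  by_contra hy1
  obtain ⟨hL, -⟩ := ny hP F hY hY1
  obtain ⟨hyL, hyo⟩ := (mem_OO hL).1 hyX
  -- a prime divisor of the order of `y`
  have hne1 : orderOf y ≠ 1 := by rw [ne_eq, orderOf_eq_one_iff]; exact hy1
  obtain ⟨q, hq, hqd⟩ := Nat.exists_prime_and_dvd hne1
  have : Fact q.Prime := ⟨hq⟩
  have hq2 : q ≠ 2 := by
    rintro rfl
    exact absurd (Odd.of_dvd_nat hyo hqd) (by decide)
  obtain ⟨m, hm⟩ := hqd
  have hord0 : 0 < orderOf y := orderOf_pos y
  have hm0 : m ≠ 0 := by rintro rfl; rw [mul_zero] at hm; omega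
  set z := y ^ m with hz
  have hzq : z ^ q = 1 := by rw [hz, ← pow_mul, mul_comm, ← hm, pow_orderOf_eq_one]
  have hz1 : z ≠ 1 := by
    intro h
    have h1 := orderOf_dvd_of_pow_eq_one h
    rw [hm] at h1
    have h2 := Nat.le_of_dvd (Nat.pos_of_ne_zero hm0) h1
    have h3 := hq.two_le
    nlinarith [Nat.pos_of_ne_zero hm0]
  have hzK : z ∈ Kq q v :=
    (mem_Kq hP F.v1 F.vv).2 ⟨(K v).pow_mem hyv m, 1, by rw [pow_one]; exact hzq⟩
  have hzL : z ∈ Subgroup.normalizer (Y : Set G) := Subgroup.pow_mem _ hyL m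
  have hYI : Inv u v Y := Inv_of_le hP F hY
  have huL : u ∈ Subgroup.normalizer (Y : Set G) := Inv.mem_normalizer F.uu hYI.1
  have hvL : v ∈ Subgroup.normalizer (Y : Set G) := Inv.mem_normalizer F.vv hYI.2
  have hKL : Kq q u ≤ Subgroup.normalizer (Y : Set G) := by
    intro k hk
    rw [Subgroup.mem_normalizer_iff]
    intro h
    have hkK := Kq_le hP F.u1 F.uu hk
    constructor
    · intro hh
      have : k * h = h * k := K_comm hP F.u1 F.uu hkK (hY hh)
      rw [this, mul_inv_cancel_right]; exact hh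
    · intro hh
      have h1 : k * (k * h * k⁻¹) = (k * h * k⁻¹) * k := K_comm hP F.u1 F.uu hkK (hY hh)
      have h2 : k * h * k⁻¹ = h := by
        have h3 : k * h * k⁻¹ * k = k * h := by group
        rw [h3] at h1
        have h4 := mul_left_cancel h1
        exact h4
      rw [h2] at hh; exact hh
  have hRI : Inv u v (Subgroup.zpowers z) := by
    have : Inv v u (Subgroup.zpowers z) := by
      apply Inv_of_le hP F.symm
      rw [Subgroup.zpowers_le]
      exact Kq_le hP F.v1 F.vv hzK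
    exact this.symm
  have hRq : IsPGroup q (Subgroup.zpowers z) := by
    rw [IsPGroup.iff_card]
    rw [Nat.card_zpowers]
    have h1 : orderOf z ∣ q ^ 1 := by rw [pow_one]; exact orderOf_dvd_of_pow_eq_one hzq
    obtain ⟨k, -, hk⟩ := (Nat.dvd_prime_pow hq).1 h1
    exact ⟨k, hk⟩
  obtain ⟨Q, hQL, hQq, hQI, hPQ, hRQ⟩ := join hP F hL huL hvL hq2 hKL
    (by rw [Subgroup.zpowers_le]; exact hzL) (Kq_pgroup hP F.u1 F.uu) hRq
    (Inv_of_le hP F (Kq_le hP F.u1 F.uu)) hRI
  have hne : ¬ Q ≤ Kq q u := by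
    intro h
    apply hz1
    exact K_inf hP F (Kq_le hP F.u1 F.uu (h (hRQ (Subgroup.mem_zpowers z)))) (Kq_le hP F.v1 F.vv hzK)
  obtain ⟨s, hs1, hsN, hs⟩ := exists_of_lt hP F hq2 hQq hQI hPQ hne
  have hodd : Odd (orderOf s) := by
    rcases hs with hs | hs
    · exact ((mem_K hP F.v1 F.vv).1 (Kq_le hP F.v1 F.vv hs)).2
    · exact ((mem_K hP F.w1 F.ww).1 (Kq_le hP F.w1 F.ww hs)).2
  have hcen : ∀ a ∈ Kq q u, a * s = s * a := by
    by_cases hb : Kq q u = ⊥
    · intro a ha
      rw [hb, Subgroup.mem_bot] at ha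
      rw [ha, one_mul, mul_one]
    · intro a ha
      exact ((ny hP F (Kq_le hP F.u1 F.uu) hb).2 s hsN hodd a ha).symm
  rcases hs with hs | hs
  · exact hs1 (hPi q ⟨hq⟩ u v hq2 F s hs hcen)
  · exact hs1 (hPi q ⟨hq⟩ u (u * v) hq2 F.f2 s hs hcen)

/-- if no `1 ≠ y ∈ Kq q v` centralises `Kq q u` (all four-groups, all odd primes) then `G` is `PSL₂` -/
theorem psl_of_no_pi [IsSimpleGroup G] (hG : Core G) {u v : G} (F : Four u v)
    (hPi : ∀ (q : ℕ) (_ : Fact q.Prime) (u v : G), q ≠ 2 → Four u v → ∀ y ∈ Kq q v,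
      (∀ a ∈ Kq q u, a * y = y * a) → y = 1) :
    ∃ (K : Subgroup G) (t s : G), BSW.Conf K t s := by
  have hP := hG.pp
  obtain ⟨A, x, H0⟩ := hP u F.u1 F.uu
  have H : Cen A u v := H0.change hP F
  refine ⟨A, u, v, ?_⟩
  refine ⟨H.hab, H.tA, H.t1, H.tt, H.uniq, H.xA, H.xx, H.inv, H.ct, ?_, ?_⟩
  · intro a ha ha1 hau g hg
    by_cases ho : Odd (orderOf a)
    · have haK : a ∈ K u := H.mem_K.2 ⟨H.comm_t a ha, ho⟩
      refine cy hP H F haK ha1 ?_ hg
      have hle : Subgroup.zpowers a ≤ K u := by rw [Subgroup.zpowers_le]; exact haK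
      have hne : Subgroup.zpowers a ≠ ⊥ := by rw [ne_eq, Subgroup.zpowers_eq_bot]; exact ha1
      have hL := (ny hP F hle hne).1
      have hYI : Inv u v (Subgroup.zpowers a) := Inv_of_le hP F hle
      have huL : u ∈ Subgroup.normalizer (Subgroup.zpowers a : Set G) := Inv.mem_normalizer F.uu hYI.1
      have hvL : v ∈ Subgroup.normalizer (Subgroup.zpowers a : Set G) := Inv.mem_normalizer F.vv hYI.2
      have hself : Subgroup.normalizer (Subgroup.zpowers a : Set G) ≤
          Subgroup.normalizer ((Subgroup.normalizer (Subgroup.zpowers a : Set G)) : Set G) :=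
        Subgroup.le_normalizer
      refine le_of_parts hP F (OO_odd hL)
        ⟨fun z hz => OO_conj (hself huL) hz, fun z hz => OO_conj (hself hvL) hz⟩ inf_le_right ?_ ?_
      · rintro z ⟨hz1, hz2⟩
        rw [no_part hP hPi F hle hne hz1 hz2]
        exact Subgroup.one_mem _
      · rintro z ⟨hz1, hz2⟩
        rw [no_part hP hPi F.f2 hle hne hz1 hz2]
        exact Subgroup.one_mem _
    · rw [Nat.not_odd_iff_even, even_iff_two_dvd] at ho
      obtain ⟨m, hm⟩ := ho
      have hord0 : 0 < orderOf a := orderOf_pos a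
      have hm0 : m ≠ 0 := by rintro rfl; rw [mul_zero] at hm; omega
      have h1 : a ^ m * a ^ m = 1 := by rw [← pow_add, ← two_mul, ← hm, pow_orderOf_eq_one]
      have h2 : a ^ m ≠ 1 := by
        intro h
        have h3 := orderOf_dvd_of_pow_eq_one h
        rw [hm] at h3
        have h4 := Nat.le_of_dvd (Nat.pos_of_ne_zero hm0) h3
        omega
      have h3 : a ^ m = u := (H.uniq _ (A.pow_mem ha m) h1).resolve_left h2
      have hgu : g * u = u * g := by
        rw [← h3]
        exact (Commute.pow_right (show Commute g a from hg) m)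
      rcases H.mem_or g hgu with h4 | ⟨b, hb, h4⟩
      · exact h4
      · exfalso
        have h5 := H.ax_conj b a hb ha
        rw [← h4, hg, mul_inv_cancel_right] at h5
        have h6 : a * a = 1 := by
          nth_rw 1 [h5]; exact inv_mul_cancel a
        rcases H.uniq a ha h6 with h7 | h7
        · exact ha1 h7
        · exact hau h7
  · intro y hy1 hyy
    exact hG.conj y u hy1 hyy F.u1 F.uu

end Cfsg.Agent.GWP
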