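import Cfsg.Agent.GWP.Basic
import Cfsg.Agent.H23.Uniq81

set_option autoImplicit false
set_option linter.unusedSectionVars false

/-! General facts on groups `X` with `[X, X] ≤ F(X)`. -/

namespace Cfsg.Agent.GWP
open Subgroup Cfsg
open Cfsg.Agent.BG (pCoreOf)
open scoped commutatorElement Pointwise
universe u
variable {G : Type u} [Group G] [Finite G]

/-- commutators of `X` lie in the Fitting subgroup -/
def CF (X : Subgroup G) : Prop := ∀ x ∈ X, ∀ y ∈ X, x * y * x⁻¹ * y⁻¹ ∈ fittingOf X

/-- `T` is a maximal `q`-subgroup of `X` -/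
def MaxQ (q : ℕ) (X T : Subgroup G) : Prop := T ≤ X ∧ IsPGroup q T ∧ ∀ P ≤ X, IsPGroup q P → T ≤ P → P ≤ T

theorem fr {q : ℕ} [Fact q.Prime] {X T D : Subgroup G} (hc : CF X) (hT : MaxQ q X T)
    (h1 : X ⊓ normalizer (T : Set G) ≤ D) (h2 : fittingOf X ≤ D) : X ≤ D := by
  obtain ⟨hTX, hTq, hTm⟩ := hT
  let P : Sylow q X :=
    { toSubgroup := T.subgroupOf X
      isPGroup' := hTq.comap_of_injective _ X.subtype_injective
      is_maximal' := by
        intro Q hQ hle
        have h3 : Q.map X.subtype ≤ T := by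
          apply hTm _ (map_subtype_le Q) (hQ.map _)
          have := Subgroup.map_mono (f := X.subtype) hle
          rwa [Hall.map_subgroupOf_subtype hTX] at this
        apply le_antisymm
        · intro y hy
          rw [mem_subgroupOf]
          exact h3 ⟨y, hy, rfl⟩
        · exact hle }
  have hPT : (P : Subgroup X) = T.subgroupOf X := rfl
  set F := fittingSubgroup X with hF
  have hFn : F.Normal := Solv.fitting_normal
  have hN : ((P : Subgroup X) ⊔ F).Normal := by
    constructor
    intro n hn g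
    have h4 : g * n * g⁻¹ * n⁻¹ ∈ F := by
      obtain ⟨z, hz, hz'⟩ := hc g g.2 n n.2
      have : z = g * n * g⁻¹ * n⁻¹ := Subtype.ext hz'
      rwa [this] at hz
    have h5 : g * n * g⁻¹ = (g * n * g⁻¹ * n⁻¹) * n := by group
    rw [h5]
    exact mul_mem (mem_sup_right h4) hn
  have h6 := Sylow.normalizer_sup_eq_top' (N := (P : Subgroup X) ⊔ F) P le_sup_left
  have h7 : (⊤ : Subgroup X) ≤ D.subgroupOf X := by
    rw [← h6]
    have hnP : normalizer ((P : Subgroup X) : Set X) ≤ D.subgroupOf X := by
      intro g hg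
      rw [mem_subgroupOf]
      apply h1
      refine ⟨g.2, ?_⟩
      rw [hPT, ← subgroupOf_normalizer_eq hTX] at hg
      exact mem_subgroupOf.1 hg
    refine sup_le hnP (sup_le (le_normalizer.trans hnP) ?_)
    intro f hf
    exact h2 ⟨f, hf, rfl⟩
  exact subgroupOf_eq_top.1 (top_le_iff.1 h7)

theorem normalizer_le_commutator (T S : Subgroup G) {g : G} (hg : g ∈ normalizer (T : Set G))
    (hg' : g ∈ normalizer (S : Set G)) : g ∈ normalizer ((⁅T, S⁆ : Subgroup G) : Set G) := by
  apply Cop.mem_normalizer_of_conj_smul_eq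
  have h1 := Cop.conj_smul_eq_of_mem_normalizer hg
  have h2 := Cop.conj_smul_eq_of_mem_normalizer hg'
  have h3 : MulAut.conj g • (⁅T, S⁆ : Subgroup G) = ⁅MulAut.conj g • T, MulAut.conj g • S⁆ := by
    exact Subgroup.map_commutator T S _
  rw [h3, h1, h2]

theorem pCoreOf_le_max {q : ℕ} [Fact q.Prime] {X T : Subgroup G} (hT : MaxQ q X T) : pCoreOf q X ≤ T := by
  obtain ⟨hTX, hTq, hTm⟩ := hT
  have h1 : T ≤ normalizer (pCoreOf q X : Set G) := hTX.trans (BG.le_normalizer_pCoreOf q X)
  have h2 : IsPGroup q (T ⊔ pCoreOf q X : Subgroup G) :=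
    IsPGroup.to_sup_of_normal_right' hTq (BG.pCoreOf_isPGroup q X) h1
  exact le_sup_right.trans (hTm _ (sup_le hTX (BG.pCoreOf_le q X)) h2 le_sup_left)

/-- `X` normalises `[T, T]` for a Sylow subgroup `T` -/
theorem normalizes_derived {q : ℕ} [Fact q.Prime] {X T : Subgroup G} (hc : CF X) (hT : MaxQ q X T) :
    X ≤ normalizer ((⁅T, T⁆ : Subgroup G) : Set G) := by
  refine fr hc hT (fun g hg => normalizer_le_commutator T T hg.2 hg.2) ?_
  apply H23.fittingOf_le_of_forall
  intro r hr
  have := Fact.mk hr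
  by_cases hrq : r = q
  · subst hrq
    intro g hg
    have : g ∈ normalizer (T : Set G) := le_normalizer (pCoreOf_le_max hT hg)
    exact normalizer_le_commutator T T this this
  · have h1 : (⁅T, T⁆ : Subgroup G) ≤ pCoreOf q X := by
      apply H23.le_pCoreOf_of_le_fittingOf
      · rw [commutator_le]
        intro x hx y hy
        exact hc x (hT.1 hx) y (hT.1 hy)
      · refine hT.2.1.to_le ?_
        rw [commutator_le]
        intro x hx y hy
        exact T.mul_mem (T.mul_mem (T.mul_mem hx hy) (T.inv_mem hx)) (T.inv_mem hy)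
    have h2 := H23.pCoreOf_le_centralizer (q := r) (r := q) hrq (M := X)
    intro g hg
    have h3 := mem_centralizer_iff.1 (h2 hg)
    rw [mem_normalizer_iff]
    have key : ∀ y ∈ (⁅T, T⁆ : Subgroup G), g * y * g⁻¹ = y := by
      intro y hy
      rw [← h3 y (h1 hy)]; group
    intro y
    constructor
    · intro hy; rw [key y hy]; exact hy
    · intro hy
      have h4 := key _ hy
      have h5 : g * y * g⁻¹ = y := by
        have : g * (g * y * g⁻¹) * g⁻¹ = g * y * g⁻¹ := h4
        have h6 := congrArg (fun z => g⁻¹ * z * g) this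
        simp only [mul_assoc, inv_mul_cancel_left, inv_mul_cancel, mul_one] at h6
        simpa [mul_assoc] using h6
      rwa [h5] at hy

/-- if `T` is not normal some `O_r(X)` does not normalise it -/
theorem exists_r {q : ℕ} [Fact q.Prime] {X T : Subgroup G} (hc : CF X) (hT : MaxQ q X T)
    (hn : ¬ X ≤ normalizer (T : Set G)) :
    ∃ r : ℕ, r.Prime ∧ r ≠ q ∧ ¬ pCoreOf r X ≤ normalizer (T : Set G) := by
  by_contra hcon
  push Not at hcon
  apply hn
  refine fr hc hT inf_le_right ?_
  apply H23.fittingOf_le_of_forall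
  intro r hr
  have := Fact.mk hr
  by_cases hrq : r = q
  · subst hrq
    exact (pCoreOf_le_max hT).trans le_normalizer
  · exact hcon r hr hrq

end Cfsg.Agent.GWP
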