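import Cfsg.Agent.H40.EvenD

/-!
# An element centralizing a Sylow 2-subgroup of a normal `PSL(2, 2 ^ n)` acts like an element of it
-/

set_option autoImplicit false

namespace Cfsg.Agent.GWP

open Subgroup H40.EvenL

/-- (L'): an element centralizing a Sylow 2-subgroup of a normal `PSL(2, 2 ^ n)` -/
theorem lprime {Q : Type*} [Group Q] [Finite Q] {M : Subgroup Q} [M.Normal] {F : Type} [Field F] [Fintype F]
    [CharP F 2] (h4 : 4 ≤ Fintype.card F) (e : M ≃* Matrix.ProjectiveSpecialLinearGroup (Fin 2) F) (P : Sylow 2 M)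
    {x : Q} (hx : ∀ p ∈ (P : Subgroup M), x * (p : Q) = (p : Q) * x) :
    ∃ s ∈ (P : Subgroup M), ∀ m ∈ M, (x * (s : Q)⁻¹) * m = m * (x * (s : Q)⁻¹) := by
  obtain ⟨e0⟩ := BS.sl2_equiv_psl2 F
  have hE : ElC M := (elC_sl2 F).of_injective (e.trans e0.symm).toMonoidHom (e.trans e0.symm).injective
  obtain ⟨n, -, hn⟩ := FiniteField.card F 2
  have hn2 : 2 ≤ (n : ℕ) := by
    by_contra hlt
    have h1 : (n : ℕ) = 1 := by
      have := n.pos
      omega
    rw [h1] at hn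
    omega
  obtain ⟨h1, h2, h3⟩ := data_of hE.abC (⊤ : Subgroup M) (by simp) hn2 hn
    ((Subgroup.topEquiv).trans (e.trans e0.symm))
  obtain ⟨s, hs, hsm⟩ := aut_inner hE h1 (Nat.one_lt_two_pow (by omega)) h2 h3 P (MulAut.conjNormal x) (by
    intro p hp
    apply Subtype.ext
    rw [MulAut.conjNormal_apply, hx p hp, mul_inv_cancel_right])
  refine ⟨s, hs, fun m hm => ?_⟩
  have h5 := congrArg Subtype.val (hsm ⟨m, hm⟩)
  rw [MulAut.conjNormal_apply] at h5
  have h6 : x * m * x⁻¹ = s * m * (s : Q)⁻¹ := h5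
  have h7 : x * (s : Q)⁻¹ = (s : Q)⁻¹ * x := by
    have := hx s⁻¹ (inv_mem hs)
    simpa using this
  rw [h7]
  calc (s : Q)⁻¹ * x * m = (s : Q)⁻¹ * (x * m * x⁻¹) * x := by group
    _ = (s : Q)⁻¹ * (s * m * (s : Q)⁻¹) * x := by rw [h6]
    _ = m * ((s : Q)⁻¹ * x) := by group

end Cfsg.Agent.GWP
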