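import Cfsg.Agent.GWP.AsD
import Cfsg.Agent.DihSyl.Basic

set_option autoImplicit false
set_option linter.unusedSectionVars false
set_option linter.style.haveILetI false

/-! The noncentral case: the subgroup of index two. -/

namespace Cfsg.Agent.GWP
open Subgroup
open scoped Pointwise
universe u
variable {G : Type u} [Group G] [Finite G]

omit [Finite G] in
theorem Cen.change' {A : Subgroup G} {u v x : G} (H : Cen A u x) (v1 : v ≠ 1) (vv : v * v = 1) (vu : v ≠ u)
    (hc : v * u = u * v) : Cen A u v where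
  hab := H.hab
  tA := H.tA
  t1 := H.t1
  tt := H.tt
  uniq := H.uniq
  xA := by
    intro h
    rcases H.uniq v h vv with h1 | h1
    · exact v1 h1
    · exact vu h1
  xx := vv
  inv := fun a ha => H.inv_of vv v1 vu hc ha
  ct := by
    intro g hg
    obtain ⟨b, hb, hb'⟩ := H.outer vv v1 vu hc
    rcases H.mem_or g hg with h | ⟨a, ha, h⟩
    · exact Or.inl h
    · right
      have : g * v = a * b⁻¹ := by
        rw [h, hb']
        calc a * x * (b * x) = a * (x * b) * x := by group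
          _ = a * (b⁻¹ * x) * x := by rw [H.x_mul b hb]
          _ = a * b⁻¹ * (x * x) := by group
          _ = a * b⁻¹ := by rw [H.xx, mul_one]
      rw [this]
      exact A.mul_mem ha (A.inv_mem hb)

/-- normal subgroups meeting a Sylow 2-subgroup in a cyclic group are solvable -/
theorem solv_of_cyc (S : Sylow 2 G) (L : Subgroup G) [L.Normal] {c : G} (hL : (S : Subgroup G) ⊓ L ≤ zpowers c) :
    Group.IsSolvable L := by
  haveI : Fact (Nat.Prime 2) := ⟨Nat.prime_two⟩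
  obtain ⟨P, hP⟩ := ZJ.exists_sylow_map_eq_inf S L
  apply H31.CycInt.solvable_of_cyclic_sylow P
  haveI : IsCyclic ((S : Subgroup G) ⊓ L : Subgroup G) := isCyclic_of_le hL
  have h1 : IsCyclic ((P : Subgroup L).map L.subtype) := by rw [hP]; infer_instance
  have e : (P : Subgroup L) ≃* (P : Subgroup L).map L.subtype :=
    (P : Subgroup L).equivMapOfInjective _ L.subtype_injective
  exact isCyclic_of_surjective e.symm e.symm.surjective

theorem index_two_comm {M : Subgroup G} (hM : M.index = 2) (a b : G) : a * b * a⁻¹ * b⁻¹ ∈ M := by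
  rw [Subgroup.mul_mem_iff_of_index_two hM, Subgroup.mul_mem_iff_of_index_two hM,
    Subgroup.mul_mem_iff_of_index_two hM, inv_mem_iff, inv_mem_iff]
  tauto

/-- no subgroup `M` of index two in `G0` misses a reflection `t` of `T ∩ G0` -/
theorem no_refl {T : Sylow 2 G} {r s : G} {m : ℕ} (hT : DihSyl.DihData (T : Subgroup G) r s m) (G0 : Subgroup G)
    [hGn : G0.Normal] (hG0s : ¬ Group.IsSolvable G0) (hr2 : r ^ 2 ∈ G0)
    (hev : ∀ b ∈ zpowers r, b ∈ G0 → b ∈ zpowers (r ^ 2)) {t : G} (htT : t ∈ (T : Subgroup G)) (htG : t ∈ G0)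
    (htr : t ∉ zpowers r) (M : Subgroup G0) (hMn : M.Normal) (hMi : M.index = 2) : (⟨t, htG⟩ : G0) ∈ M := by
  haveI : Fact (Nat.Prime 2) := ⟨Nat.prime_two⟩
  by_contra htM
  obtain ⟨P, hP⟩ := ZJ.exists_sylow_map_eq_inf T G0
  let N2 : Subgroup G0 := M.comap (MulAut.conjNormal (H := G0) r⁻¹).toMonoidHom
  have hN2 : N2.Normal := hMn.comap _
  have memN2 : ∀ b : G0, b ∈ N2 → ∀ h : r⁻¹ * (b : G) * r ∈ G0, (⟨r⁻¹ * (b : G) * r, h⟩ : G0) ∈ M := by
    intro b hb h
    have h1 : MulAut.conjNormal (H := G0) r⁻¹ b ∈ M := hb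
    have h2 : MulAut.conjNormal (H := G0) r⁻¹ b = ⟨r⁻¹ * (b : G) * r, h⟩ := by
      apply Subtype.ext
      rw [MulAut.conjNormal_apply, inv_inv]
    rwa [h2] at h1
  have hDn : (M ⊓ N2).Normal := inferInstance
  have h2k : ∀ k : ℤ, (r ^ 2) ^ k ∈ G0 := fun k => zpow_mem hr2 k
  -- conjugates of `t` by elements of `G0`
  have hcM : ∀ g ∈ G0, ∀ h : g⁻¹ * t * g ∈ G0, (⟨g⁻¹ * t * g, h⟩ : G0) ∉ M := by
    intro g hg h h1
    apply htM
    have h2 := hMn.conj_mem _ h1 ⟨g, hg⟩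
    have h3 : (⟨g, hg⟩ : G0) * ⟨g⁻¹ * t * g, h⟩ * (⟨g, hg⟩ : G0)⁻¹ = ⟨t, htG⟩ := by
      apply Subtype.ext
      change g * (g⁻¹ * t * g) * g⁻¹ = t
      group
    rwa [h3] at h2
  have hcyc : (P : Subgroup G0) ⊓ (M ⊓ N2) ≤ zpowers (⟨r ^ 2, hr2⟩ : G0) := by
    rintro b ⟨hbP, hbM, hbN⟩
    have hbT : (b : G) ∈ (T : Subgroup G) := by
      have : (b : G) ∈ (T : Subgroup G) ⊓ G0 := by rw [← hP]; exact ⟨b, hbP, rfl⟩
      exact this.1
    by_cases hbr : (b : G) ∈ zpowers r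
    · obtain ⟨k, hk⟩ := hev b hbr b.2
      exact ⟨k, Subtype.ext hk⟩
    · exfalso
      have h1 : t * (b : G) ∈ zpowers (r ^ 2) := hev _ (hT.mul_mem_C htT htr hbT hbr) (mul_mem htG b.2)
      obtain ⟨l, hl⟩ := h1
      have hl' : (r ^ 2) ^ l = t * (b : G) := hl
      have htt : t * t = 1 := hT.sq_eq_one htT htr
      have hti : t⁻¹ = t := inv_eq_of_mul_eq_one_left htt
      -- `b = r^{-l} t r^l`
      have hb : (b : G) = (r ^ l)⁻¹ * t * r ^ l := by
        have h2 : t * (r ^ l)⁻¹ * t⁻¹ = r ^ l := by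
          rw [hT.conj_C htT htr (inv_mem (zpow_mem (mem_zpowers r) l)), inv_inv]
        have h3 : (b : G) = t * (r ^ 2) ^ l := by
          rw [hl', ← mul_assoc, htt, one_mul]
        have h4 : (r ^ l)⁻¹ * t = t * r ^ l := by
          calc (r ^ l)⁻¹ * t = t * (t * (r ^ l)⁻¹ * t) := by
                rw [← mul_assoc, ← mul_assoc, htt, one_mul]
            _ = t * (t * (r ^ l)⁻¹ * t⁻¹) := by rw [hti]
            _ = t * r ^ l := by rw [h2]
        rw [h4, h3, mul_assoc]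
        congr 1
        rw [← zpow_natCast r 2, ← zpow_mul, ← zpow_add]
        congr 1
        push_cast; ring
      obtain ⟨n, hn | hn⟩ := Int.even_or_odd' l
      · have h5 : r ^ l ∈ G0 := by
          rw [hn, zpow_mul, zpow_ofNat]; exact h2k n
        have h6 : (r ^ l)⁻¹ * t * r ^ l ∈ G0 := by rw [← hb]; exact b.2
        apply hcM _ h5 h6
        have : (⟨(r ^ l)⁻¹ * t * r ^ l, h6⟩ : G0) = b := Subtype.ext hb.symm
        rw [this]; exact hbM
      · have h5 : r ^ (l + 1) ∈ G0 := by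
          have : r ^ (l + 1) = (r ^ 2) ^ (n + 1) := by
            rw [← zpow_natCast r 2, ← zpow_mul]
            congr 1
            rw [hn]; push_cast; ring
          rw [this]; exact h2k _
        have h6 : (r ^ (l + 1))⁻¹ * t * r ^ (l + 1) = r⁻¹ * (b : G) * r := by
          rw [hb, zpow_add, zpow_one]; group
        have h7 : r⁻¹ * (b : G) * r ∈ G0 := by
          have := hGn.conj_mem _ b.2 r⁻¹
          rwa [inv_inv] at this
        have h8 : (r ^ (l + 1))⁻¹ * t * r ^ (l + 1) ∈ G0 := by rw [h6]; exact h7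
        apply hcM _ h5 h8
        have : (⟨(r ^ (l + 1))⁻¹ * t * r ^ (l + 1), h8⟩ : G0) = ⟨r⁻¹ * (b : G) * r, h7⟩ := Subtype.ext h6
        rw [this]; exact memN2 b hbN h7
  have h1 : Group.IsSolvable (M ⊓ N2 : Subgroup G0) := solv_of_cyc P (M ⊓ N2) hcyc
  apply hG0s
  apply solv_of_quot h1
  apply Group.isSolvable_of_comm
  intro a b
  obtain ⟨a, rfl⟩ := QuotientGroup.mk_surjective a
  obtain ⟨b, rfl⟩ := QuotientGroup.mk_surjective b
  have h2 : a * b * a⁻¹ * b⁻¹ ∈ M ⊓ N2 := by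
    refine ⟨index_two_comm hMi a b, ?_⟩
    let φ : G0 ≃* G0 := MulAut.conjNormal (H := G0) r⁻¹
    change φ (a * b * a⁻¹ * b⁻¹) ∈ M
    have h4 := index_two_comm hMi (φ a) (φ b)
    rwa [← map_inv φ, ← map_inv φ, ← map_mul, ← map_mul, ← map_mul] at h4
  have h3 := (QuotientGroup.eq_one_iff (N := M ⊓ N2) _).2 h2
  rw [QuotientGroup.mk_mul, QuotientGroup.mk_mul, QuotientGroup.mk_mul, QuotientGroup.mk_inv, QuotientGroup.mk_inv,
    mul_inv_eq_one, mul_inv_eq_iff_eq_mul] at h3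
  exact h3

theorem m0 (hns : ¬ Group.IsSolvable G) {A : Subgroup G} {j x : G} (H : Cen A j x) (T : Sylow 2 G) {r s : G} {m : ℕ}
    (hT : DihSyl.DihData (T : Subgroup G) r s m)
    (hS : ∀ S : Sylow 2 G, ¬ (S : Subgroup G) ≤ Subgroup.centralizer ({j} : Set G)) :
    ∃ (A' : Subgroup G) (j' z : G) (G0 : Subgroup G), Cen A' j' z ∧ DihSyl.DihData (T : Subgroup G) r j' m ∧ 4 ≤ m ∧
      z ∈ zpowers (r ^ 2) ∧ (∀ t ∈ (T : Subgroup G), t * z = z * t) ∧ z ≠ 1 ∧ z * z = 1 ∧ z ≠ j' ∧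
      (∀ y ∈ zpowers r, y * y = 1 → y = 1 ∨ y = z) ∧
      G0.Normal ∧ G0.index = 2 ∧ j' ∉ G0 ∧ r ∉ G0 ∧ r ^ 2 ∈ G0 ∧ r * j' ∈ G0 ∧
      (∀ t ∈ (T : Subgroup G), t ∈ G0 → t ∈ zpowers (r ^ 2) ∨ (r * j') * t ∈ zpowers (r ^ 2)) ∧
      (∀ t ∈ G0, t ≠ 1 → t * t = 1 → ∃ g ∈ G0, g * t * g⁻¹ = z) ∧
      (∀ M : Subgroup G0, M.index ≠ 2) ∧ ¬ Group.IsSolvable G0 := by
  haveI : Fact (Nat.Prime 2) := ⟨Nat.prime_two⟩
  obtain ⟨g, hg⟩ := H4.exists_conj_mem_sylow T (x := j) (k := 1) (by rw [pow_one, pow_two]; exact H.tt)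
  have hS2 : ∀ k : G, ¬ ∀ t ∈ (T : Subgroup G), t * (k * j * k⁻¹) = (k * j * k⁻¹) * t := by
    intro k hk
    apply hS (k⁻¹ • T)
    rw [Sylow.coe_subgroup_smul]
    rintro _ ⟨t, ht, rfl⟩
    rw [mem_centralizer_singleton_iff]
    change k⁻¹ * t * k⁻¹⁻¹ * j = j * (k⁻¹ * t * k⁻¹⁻¹)
    have h1 := hk t ht
    calc k⁻¹ * t * k⁻¹⁻¹ * j = k⁻¹ * (t * (k * j * k⁻¹)) * k := by group
      _ = k⁻¹ * ((k * j * k⁻¹) * t) * k := by rw [h1]
      _ = j * (k⁻¹ * t * k⁻¹⁻¹) := by group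
  have H' := H.conj g
  set j' := g * j * g⁻¹ with hj'
  set A' := A.map (MulAut.conj g).toMonoidHom
  obtain ⟨z, hzr, hz2, hzu, hzc⟩ := hT.exists_z
  have hz1 : z ≠ 1 := by rintro rfl; rw [orderOf_one] at hz2; omega
  have hzz : z * z = 1 := H4.mul_self_of_orderOf_two hz2
  have hj'r : j' ∉ zpowers r := by
    intro h
    rcases hzu j' h H'.tt with h1 | h1
    · exact H'.t1 h1
    · apply hS2 g
      rw [← hj', h1]; exact hzc
  have hD : DihSyl.DihData (T : Subgroup G) r j' m :=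
    ⟨hT.r_mem, hg, hT.orderOf_r, H'.tt, hT.conj_C hg hj'r (mem_zpowers r), hj'r, fun y hy => by
      by_cases hyr : y ∈ zpowers r
      · exact Or.inl hyr
      · exact Or.inr (hT.mul_mem_C hg hj'r hy hyr), hT.two_group, hT.two_le⟩
  have hzj : z ≠ j' := by rintro h; apply hj'r; rw [← h]; exact hzr
  have hC' : Cen A' j' z := H'.change' hz1 hzz hzj ((hzc j' hg).symm)
  have hm : ∃ n : ℕ, m = 4 * n ∧ 1 ≤ n := by
    obtain ⟨k, hk⟩ := hT.exists_pow
    rcases k with _ | k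
    · exfalso
      apply hS2 g
      rw [← hj']
      have hrr : r * r = 1 := by
        have := pow_orderOf_eq_one r
        rw [hT.orderOf_r, hk] at this
        rw [← pow_two]; simpa using this
      have hri : r⁻¹ = r := inv_eq_of_mul_eq_one_left hrr
      have hjr : j' * r = r * j' := by
        have := hD.conj
        rw [hri] at this
        exact mul_inv_eq_iff_eq_mul.1 this
      have hjz : ∀ i : ℤ, j' * r ^ i = r ^ i * j' := fun i =>
        ((show Commute j' r from hjr).zpow_right i)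
      intro t ht
      rcases hD.cases t ht with ⟨i, hi⟩ | ⟨i, hi⟩
      · have hi : r ^ i = t := hi
        rw [← hi]; exact (hjz i).symm
      · have hi : r ^ i = j' * t := hi
        have h1 : t = j' * r ^ i := by rw [hi, ← mul_assoc, hD.s_sq, one_mul]
        rw [h1, mul_assoc, ← hjz i]
    · refine ⟨2 ^ k, by rw [hk]; ring, Nat.one_le_two_pow⟩
  obtain ⟨n, hn, hn1⟩ := hm
  have hzr2 : z ∈ zpowers (r ^ 2) := by
    obtain ⟨i, hi⟩ := hzr
    have hi : r ^ i = z := hi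
    have h1 : r ^ (2 * i) = 1 := by
      rw [two_mul, zpow_add, hi, hzz]
    have h2 := orderOf_dvd_iff_zpow_eq_one.2 h1
    rw [hT.orderOf_r, hn] at h2
    have h3 : (2 : ℤ) ∣ i := by
      obtain ⟨c, hc⟩ := h2
      push_cast at hc
      exact ⟨n * c, by linarith⟩
    obtain ⟨i', rfl⟩ := h3
    refine ⟨i', ?_⟩
    change (r ^ 2) ^ i' = z
    rw [← hi, zpow_mul, zpow_ofNat]
  -- the subgroup of index two
  have hidx : (zpowers r).relIndex (T : Subgroup G) = 2 := by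
    rw [Subgroup.relIndex, Subgroup.index_eq_two_iff_exists_notMem_and']
    refine ⟨⟨j', hg⟩, fun hc => hj'r (mem_subgroupOf.1 hc), fun b => ?_⟩
    rcases hD.cases b b.2 with h | h
    · right; exact mem_subgroupOf.2 h
    · left; exact mem_subgroupOf.2 h
  have hj'2 : orderOf j' = 2 := orderOf_eq_prime (by rw [pow_two]; exact H'.tt) H'.t1
  have hfu : ∀ w ∈ zpowers r, orderOf w = 2 → w = z := by
    intro w hw hw2
    rcases hzu w hw (H4.mul_self_of_orderOf_two hw2) with h | h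
    · rw [h, orderOf_one] at hw2; omega
    · exact h
  rcases S0111.result T (zpowers r) hT.C_le hidx j' hj'2 hg hj'r with ⟨G0, hGn, hGi, hjG⟩ | ⟨k, hk⟩
  swap
  · exfalso
    have h1 : k * j' * k⁻¹ = z := hfu _ hk (by rw [H4.orderOf_conj', hj'2])
    apply hS2 (k * g)
    have h2 : k * g * j * (k * g)⁻¹ = z := by rw [← h1, hj']; group
    rw [h2]; exact hzc
  have hG0s : ¬ Group.IsSolvable G0 := fun h => hns (solv_of_index_two h hGi)
  have hrG : r ∉ G0 := by
    intro hrG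
    apply hG0s
    apply solv_of_cyc T G0 (c := r)
    rintro b ⟨hbT, hbG⟩
    rcases hD.cases b hbT with h | h
    · exact h
    · exfalso
      apply hjG
      have h1 : j' * b ∈ G0 := by
        obtain ⟨i, hi⟩ := h
        have hi : r ^ i = j' * b := hi
        rw [← hi]; exact zpow_mem hrG i
      have h2 : j' = (j' * b) * b⁻¹ := by group
      rw [h2]; exact mul_mem h1 (inv_mem hbG)
  have hr2 : r ^ 2 ∈ G0 := Subgroup.sq_mem_of_index_two hGi r
  have hrj : r * j' ∈ G0 := by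
    rw [Subgroup.mul_mem_iff_of_index_two hGi]
    exact ⟨fun h => absurd h hrG, fun h => absurd h hjG⟩
  have hev : ∀ b ∈ zpowers r, b ∈ G0 → b ∈ zpowers (r ^ 2) := by
    rintro b ⟨i, hi⟩ hb
    have hi : r ^ i = b := hi
    obtain ⟨l, hl | hl⟩ := Int.even_or_odd' i
    · refine ⟨l, ?_⟩
      change (r ^ 2) ^ l = b
      rw [← hi, hl, zpow_mul, zpow_ofNat]
    · exfalso
      apply hrG
      have h1 : r = ((r ^ 2) ^ l)⁻¹ * b := by
        rw [← hi, hl, zpow_add, zpow_mul, zpow_one, zpow_ofNat, inv_mul_cancel_left]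
      rw [h1]
      exact mul_mem (inv_mem (zpow_mem hr2 l)) hb
  have hu_r : r * j' ∉ zpowers r := fun h => hj'r (by
    have := mul_mem (inv_mem (mem_zpowers r)) h
    rwa [inv_mul_cancel_left] at this)
  have huT : r * j' ∈ (T : Subgroup G) := mul_mem hT.r_mem hg
  have hcase : ∀ t ∈ (T : Subgroup G), t ∈ G0 → t ∈ zpowers (r ^ 2) ∨ (r * j') * t ∈ zpowers (r ^ 2) := by
    intro t htT htG
    by_cases htr : t ∈ zpowers r
    · exact Or.inl (hev t htr htG)
    · exact Or.inr (hev _ (hT.mul_mem_C huT hu_r htT htr) (mul_mem hrj htG))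
  obtain ⟨P, hP⟩ := ZJ.exists_sylow_map_eq_inf T G0
  have hPmem : ∀ b : G0, b ∈ (P : Subgroup G0) ↔ (b : G) ∈ (T : Subgroup G) := by
    intro b
    constructor
    · intro hb
      have : (b : G) ∈ (T : Subgroup G) ⊓ G0 := by rw [← hP]; exact ⟨b, hb, rfl⟩
      exact this.1
    · intro hb
      have : (b : G) ∈ (P : Subgroup G0).map G0.subtype := by rw [hP]; exact ⟨hb, b.2⟩
      obtain ⟨b', hb', hbb⟩ := this
      have : b' = b := Subtype.ext hbb
      rwa [this] at hb'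
  have hfus : ∀ t ∈ G0, t ≠ 1 → t * t = 1 → ∃ g ∈ G0, g * t * g⁻¹ = z := by
    intro t htG t1 tt
    have ht2 : orderOf t = 2 := orderOf_eq_prime (by rw [pow_two]; exact tt) t1
    have htG2 : orderOf (⟨t, htG⟩ : G0) = 2 := by rw [Subgroup.orderOf_mk, ht2]
    obtain ⟨a, ha⟩ := H4.exists_conj_mem_sylow P (x := (⟨t, htG⟩ : G0)) (k := 1) (by
      rw [pow_one, pow_two]; exact Subtype.ext tt)
    set w : G0 := a * ⟨t, htG⟩ * a⁻¹ with hw
    have hw2 : orderOf w = 2 := by rw [hw, H4.orderOf_conj', htG2]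
    have hwT : (w : G) ∈ (T : Subgroup G) := (hPmem w).1 ha
    have hw2' : orderOf (w : G) = 2 := by rw [Subgroup.orderOf_coe, hw2]
    by_cases hwr : (w : G) ∈ zpowers r
    · exact ⟨a, a.2, hfu _ hwr hw2'⟩
    · have hidx2 : (zpowers (⟨r ^ 2, hr2⟩ : G0)).relIndex (P : Subgroup G0) = 2 := by
        rw [Subgroup.relIndex, Subgroup.index_eq_two_iff_exists_notMem_and']
        refine ⟨⟨w, ha⟩, fun hc => ?_, fun b => ?_⟩
        · obtain ⟨i, hi⟩ := mem_subgroupOf.1 hc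
          apply hwr
          have h1 : (r ^ 2) ^ i = (w : G) := congrArg Subtype.val hi
          rw [← h1]
          exact zpow_mem (pow_mem (mem_zpowers r) 2) i
        · have hbT : ((b : G0) : G) ∈ (T : Subgroup G) := (hPmem _).1 b.2
          by_cases hbr : ((b : G0) : G) ∈ zpowers r
          · right
            obtain ⟨i, hi⟩ := hev _ hbr (b : G0).2
            exact mem_subgroupOf.2 ⟨i, Subtype.ext hi⟩
          · left
            obtain ⟨i, hi⟩ := hev _ (hT.mul_mem_C hwT hwr hbT hbr) (mul_mem w.2 (b : G0).2)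
            exact mem_subgroupOf.2 ⟨i, Subtype.ext hi⟩
      have hQP : zpowers (⟨r ^ 2, hr2⟩ : G0) ≤ (P : Subgroup G0) := by
        rw [zpowers_le, hPmem]; exact pow_mem hT.r_mem 2
      have hwQ : w ∉ zpowers (⟨r ^ 2, hr2⟩ : G0) := by
        rintro ⟨i, hi⟩
        apply hwr
        have h1 : (r ^ 2) ^ i = (w : G) := congrArg Subtype.val hi
        rw [← h1]
        exact zpow_mem (pow_mem (mem_zpowers r) 2) i
      rcases S0111.result P _ hQP hidx2 w hw2 ha hwQ with ⟨M, hMn, hMi, hwM⟩ | ⟨k, i, hi⟩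
      · exact absurd (no_refl hT G0 hG0s hr2 hev hwT w.2 hwr M hMn hMi) hwM
      · have h1 : (r ^ 2) ^ i = ((k * w * k⁻¹ : G0) : G) := congrArg Subtype.val hi
        have h2 : ((k * w * k⁻¹ : G0) : G) = z := by
          apply hfu
          · rw [← h1]; exact zpow_mem (pow_mem (mem_zpowers r) 2) i
          · rw [Subgroup.orderOf_coe, H4.orderOf_conj', hw2]
        refine ⟨(k * a : G0), (k * a : G0).2, ?_⟩
        rw [← h2, hw]
        push_cast
        group
  refine ⟨A', j', z, G0, hC', hD, by omega, hzr2, hzc, hz1, hzz, hzj, hzu, hGn, hGi, hjG, hrG, hr2, hrj, hcase, hfus,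
    ?_, hG0s⟩
  intro M hMi
  have hMn : M.Normal := normal_of_index_eq_two hMi
  have hzG : z ∈ G0 := by
    obtain ⟨i, hi⟩ := hzr2
    rw [← hi]; exact zpow_mem hr2 i
  -- some involution lies in `M`
  have hu : (⟨r * j', hrj⟩ : G0) ∈ M := no_refl hT G0 hG0s hr2 hev huT hrj hu_r M hMn hMi
  have hu3 : r ^ 2 * (r * j') ∉ zpowers r := fun h => hu_r (by
    have := mul_mem (inv_mem (pow_mem (mem_zpowers r) 2)) h
    rwa [inv_mul_cancel_left] at this)
  have hu' : (⟨r ^ 2 * (r * j'), mul_mem hr2 hrj⟩ : G0) ∈ M :=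
    no_refl hT G0 hG0s hr2 hev (mul_mem (pow_mem hT.r_mem 2) huT) (mul_mem hr2 hrj) hu3 M hMn hMi
  have hr2M : (⟨r ^ 2, hr2⟩ : G0) ∈ M := by
    have h1 := mul_mem hu' (inv_mem hu)
    have h2 : (⟨r ^ 2 * (r * j'), mul_mem hr2 hrj⟩ : G0) * (⟨r * j', hrj⟩ : G0)⁻¹ = ⟨r ^ 2, hr2⟩ := by
      apply Subtype.ext
      change r ^ 2 * (r * j') * (r * j')⁻¹ = r ^ 2
      group
    rwa [h2] at h1
  have hz2M : ∀ b : G0, (b : G) ∈ zpowers (r ^ 2) → b ∈ M := by
    rintro b ⟨i, hi⟩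
    have : b = (⟨r ^ 2, hr2⟩ : G0) ^ i := Subtype.ext hi.symm
    rw [this]; exact zpow_mem hr2M i
  have hPM : (P : Subgroup G0) ≤ M := by
    intro b hb
    rcases hcase b ((hPmem b).1 hb) b.2 with h | h
    · exact hz2M b h
    · have h1 : (⟨r * j', hrj⟩ : G0) * b ∈ M := hz2M _ h
      have h2 := mul_mem (inv_mem hu) h1
      rwa [inv_mul_cancel_left] at h2
  have h1 := Subgroup.index_dvd_of_le hPM
  rw [hMi] at h1
  exact P.not_dvd_index h1

end Cfsg.Agent.GWP
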