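import Cfsg.Agent.GWP.Basic
import Cfsg.Agent.DihSyl.Basic
import Cfsg.Agent.S0111

set_option autoImplicit false
set_option linter.unusedSectionVars false
set_option linter.style.haveILetI false

/-!
# The case of a dihedral Sylow 2-subgroup whose centraliser of the centre is bigger than `C(j)` (helper22)
-/

namespace Cfsg.Agent.GWP

open Subgroup Cfsg.Agent.DihSyl

universe u
variable {G : Type u} [Group G] [Finite G]

namespace MD

/-- the set-up: `j` is a noncentral involution of the dihedral Sylow 2-subgroup `T = ⟨r, j⟩`, `z` is the central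
involution of `T`. -/
structure Set1 (A : Subgroup G) (j z r : G) (T : Sylow 2 G) (m : ℕ) : Prop where
  H : Cen A j z
  D : DihData (T : Subgroup G) r j m
  zr : z ∈ zpowers r
  z1 : z ≠ 1
  zz : z * z = 1
  hzu : ∀ y ∈ zpowers r, y * y = 1 → y = 1 ∨ y = z
  hzc : ∀ t ∈ (T : Subgroup G), t * z = z * t
  nz : ∀ g : G, g * j * g⁻¹ ≠ z
  rr : r * r ≠ 1

theorem dih_conj {T : Subgroup G} {r s : G} {m : ℕ} (h : DihData T r s m) (g : G) :
    DihData (T.map (MulAut.conj g).toMonoidHom) (g * r * g⁻¹) (g * s * g⁻¹) m where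
  r_mem := ⟨r, h.r_mem, rfl⟩
  s_mem := ⟨s, h.s_mem, rfl⟩
  orderOf_r := by
    have := orderOf_injective (MulAut.conj g).toMonoidHom (MulAut.conj g).injective r
    rw [← h.orderOf_r, ← this]; rfl
  s_sq := by
    calc g * s * g⁻¹ * (g * s * g⁻¹) = g * (s * s) * g⁻¹ := by group
      _ = 1 := by rw [h.s_sq]; group
  conj := by
    calc g * s * g⁻¹ * (g * r * g⁻¹) * (g * s * g⁻¹)⁻¹ = g * (s * r * s⁻¹) * g⁻¹ := by group
      _ = (g * r * g⁻¹)⁻¹ := by rw [h.conj]; group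
  s_notMem := by
    intro hc
    apply h.s_notMem
    obtain ⟨k, hk⟩ := hc
    refine ⟨k, ?_⟩
    have hk' : (g * r * g⁻¹) ^ k = g * s * g⁻¹ := hk
    rw [conj_zpow] at hk'
    exact mul_left_cancel (mul_right_cancel hk')
  cases := by
    rintro _ ⟨x, hx, rfl⟩
    rcases h.cases x hx with ⟨k, hk⟩ | ⟨k, hk⟩
    · left
      refine ⟨k, ?_⟩
      change (g * r * g⁻¹) ^ k = g * x * g⁻¹
      rw [conj_zpow]
      have hk' : r ^ k = x := hk
      rw [hk']
    · right
      refine ⟨k, ?_⟩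
      change (g * r * g⁻¹) ^ k = g * s * g⁻¹ * (g * x * g⁻¹)
      rw [conj_zpow]
      have hk' : r ^ k = s * x := hk
      rw [hk']; group
  two_group := h.two_group.map _
  two_le := h.two_le

/-- conjugating the set-up into the Sylow subgroup -/
theorem exists_set1 {A : Subgroup G} {j x : G} (H : Cen A j x) (T : Sylow 2 G) {r s : G} {m : ℕ}
    (hT : DihData (T : Subgroup G) r s m)
    (hS : ∀ S : Sylow 2 G, ¬ (S : Subgroup G) ≤ Subgroup.centralizer ({j} : Set G)) :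
    ∃ (z r' : G) (T' : Sylow 2 G) (m' : ℕ), Set1 A j z r' T' m' := by
  have : Fact (Nat.Prime 2) := ⟨Nat.prime_two⟩
  -- a conjugate of `T` contains `j`
  have hj2 : orderOf j = 2 := orderOf_eq_prime (by rw [pow_two, H.tt]) H.t1
  obtain ⟨g, hg⟩ := H4.exists_conj_mem_sylow T (x := j) (k := 1) (by rw [pow_one, pow_two, H.tt])
  have hD := dih_conj hT g⁻¹
  set T' : Sylow 2 G := g⁻¹ • T with hT'
  have hT'' : (T' : Subgroup G) = (T : Subgroup G).map (MulAut.conj g⁻¹).toMonoidHom := by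
    rw [hT', Sylow.coe_subgroup_smul]; rfl
  rw [← hT''] at hD
  have hjT : j ∈ (T' : Subgroup G) := by
    rw [hT'']
    refine ⟨g * j * g⁻¹, hg, ?_⟩
    change g⁻¹ * (g * j * g⁻¹) * g⁻¹⁻¹ = j
    group
  set r' := g⁻¹ * r * g⁻¹⁻¹ with hr'
  set s' := g⁻¹ * s * g⁻¹⁻¹ with hs'
  obtain ⟨z, hzr, hz2, hzu, hzc⟩ := hD.exists_z
  have z1 : z ≠ 1 := by intro h; rw [h, orderOf_one] at hz2; omega
  have zz : z * z = 1 := by rw [← pow_two, ← hz2, pow_orderOf_eq_one]
  have hjr : j ∉ zpowers r' := by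
    intro h
    rcases hzu j h H.tt with h1 | h1
    · exact H.t1 h1
    · apply hS T'
      intro t ht
      rw [mem_centralizer_singleton_iff, h1]
      exact hzc t ht
  have hzj : z ≠ j := by
    intro h; rw [h] at hzr; exact hjr hzr
  have hzj' : z * j = j * z := (hzc j hjT).symm
  have hzA : z ∉ A := by
    intro h
    rcases H.uniq z h zz with h1 | h1
    · exact z1 h1
    · exact hzj h1
  have H' : Cen A j z :=
    { hab := H.hab, tA := H.tA, t1 := H.t1, tt := H.tt, uniq := H.uniq, xA := hzA, xx := zz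
      inv := fun a ha => H.inv_of zz z1 hzj hzj' ha
      ct := by
        obtain ⟨b, hb, hb'⟩ := H.outer zz z1 hzj hzj'
        intro c hc
        rcases H.mem_or c hc with h1 | ⟨a, ha, h1⟩
        · exact Or.inl h1
        · right
          rw [h1, hb']
          have e : a * x * (b * x) = a * b⁻¹ := by
            calc a * x * (b * x) = a * (x * b) * x := by group
              _ = a * (b⁻¹ * x) * x := by rw [H.x_mul b hb]
              _ = a * b⁻¹ * (x * x) := by group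
              _ = a * b⁻¹ := by rw [H.xx, mul_one]
          rw [e]
          exact A.mul_mem ha (A.inv_mem hb) }
  have D' : DihData (T' : Subgroup G) r' j m :=
    { r_mem := hD.r_mem, s_mem := hjT, orderOf_r := hD.orderOf_r, s_sq := H.tt
      conj := hD.conj_C hjT hjr (mem_zpowers r')
      s_notMem := hjr
      cases := by
        intro x hx
        by_cases hxr : x ∈ zpowers r'
        · exact Or.inl hxr
        · exact Or.inr (hD.mul_mem_C hjT hjr hx hxr)
      two_group := hD.two_group, two_le := hD.two_le }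
  refine ⟨z, r', T', m, H', D', hzr, z1, zz, hzu, hzc, ?_, ?_⟩
  · intro c hc
    apply hS (c⁻¹ • T')
    intro t ht
    rw [Sylow.coe_subgroup_smul, Subgroup.mem_pointwise_smul_iff_inv_smul_mem] at ht
    have h2 : (MulAut.conj c⁻¹)⁻¹ • t = c * t * c⁻¹ := by
      rw [← map_inv, MulAut.smul_def, MulAut.conj_apply, inv_inv]
    rw [h2] at ht
    have h3 := hzc _ ht
    rw [← hc] at h3
    rw [mem_centralizer_singleton_iff]
    have e1 : c⁻¹ * (c * t * c⁻¹ * (c * j * c⁻¹)) * c = t * j := by group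
    have e2 : c⁻¹ * (c * j * c⁻¹ * (c * t * c⁻¹)) * c = j * t := by group
    rw [← e1, ← e2, h3]
  · intro hrr
    apply hS T'
    have hrj : r' * j = j * r' := by
      have h1 := D'.conj
      have h2 : r'⁻¹ = r' := inv_eq_of_mul_eq_one_left hrr
      rw [h2] at h1
      exact (mul_inv_eq_iff_eq_mul.1 h1).symm
    have hle : zpowers r' ≤ centralizer ({j} : Set G) := by
      rw [zpowers_le, mem_centralizer_singleton_iff]; exact hrj
    intro t ht
    rcases D'.cases t ht with h1 | h1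
    · exact hle h1
    · have h2 := hle h1
      rw [mem_centralizer_singleton_iff] at h2 ⊢
      have h3 : j * (t * j) = j * (j * t) := by rw [← mul_assoc, h2]
      exact mul_left_cancel h3


namespace Set1

variable {A : Subgroup G} {j z r : G} {T : Sylow 2 G} {m : ℕ} (S : Set1 A j z r T m)
include S

theorem jT : j ∈ (T : Subgroup G) := S.D.s_mem
theorem rT : r ∈ (T : Subgroup G) := S.D.r_mem
theorem zT : z ∈ (T : Subgroup G) := S.D.C_le S.zr
theorem j_inv : j⁻¹ = j := S.D.s_inv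
theorem jz : j * z = z * j := S.hzc j S.jT
theorem zj_ne : z ≠ j := fun h => S.D.s_notMem (h ▸ S.zr)
theorem jrj : j * r * j = r⁻¹ := by
  have := S.D.conj
  rwa [S.j_inv] at this
theorem u_mem : r * j ∈ (T : Subgroup G) := mul_mem S.rT S.jT
theorem u_not : r * j ∉ zpowers r := by
  intro h
  apply S.D.s_notMem
  have := mul_mem (inv_mem (mem_zpowers r)) h
  rwa [inv_mul_cancel_left] at this
theorem uu : r * j * (r * j) = 1 := S.D.sq_eq_one S.u_mem S.u_not
theorem u1 : r * j ≠ 1 := fun h => S.u_not (h ▸ one_mem _)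
theorem uz : r * j ≠ z := fun h => S.u_not (h ▸ S.zr)

/-- elements of `T` outside `⟨r⟩` -/
theorem out {t : G} (ht : t ∈ (T : Subgroup G)) (h : t ∉ zpowers r) : ∃ k : ℤ, t = r ^ k * j := by
  obtain ⟨c, ⟨k, hk⟩, rfl⟩ := S.D.exists_eq ht h
  have hk' : r ^ k = c := hk
  refine ⟨-k, ?_⟩
  have h1 := S.D.conj_zpow (y := r ^ k) ⟨k, rfl⟩
  rw [S.j_inv] at h1
  rw [← hk', zpow_neg, ← h1]
  calc j * r ^ k = j * r ^ k * (j * j) := by rw [S.H.tt, mul_one]
    _ = j * r ^ k * j * j := by group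

theorem conj_even (k : ℤ) : r ^ k * j * (r ^ k)⁻¹ = r ^ (2 * k) * j := by
  have h1 := S.D.conj_zpow (y := (r ^ k)⁻¹) ⟨-k, by simp⟩
  rw [S.j_inv, inv_inv] at h1
  calc r ^ k * j * (r ^ k)⁻¹ = r ^ k * (j * (r ^ k)⁻¹ * j) * j := by
        rw [mul_assoc (r ^ k) _ j, mul_assoc (j * (r ^ k)⁻¹) j j, S.H.tt, mul_one]; group
    _ = r ^ k * r ^ k * j := by rw [h1]
    _ = r ^ (2 * k) * j := by rw [← zpow_add, two_mul]

theorem conj_odd (k : ℤ) : r ^ k * (r * j) * (r ^ k)⁻¹ = r ^ (2 * k + 1) * j := by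
  calc r ^ k * (r * j) * (r ^ k)⁻¹ = r * (r ^ k * j * (r ^ k)⁻¹) := by
        rw [← mul_assoc, ← mul_assoc, ← mul_assoc, ← zpow_add_one, ← zpow_one_add, add_comm]
    _ = r ^ (2 * k + 1) * j := by
        rw [S.conj_even, ← mul_assoc, ← zpow_one_add, add_comm]

/-- the involutions of `T` -/
theorem inv_cases {t : G} (ht : t ∈ (T : Subgroup G)) (t1 : t ≠ 1) (tt : t * t = 1) :
    t = z ∨ (∃ k : ℤ, t = r ^ k * j * (r ^ k)⁻¹) ∨ ∃ k : ℤ, t = r ^ k * (r * j) * (r ^ k)⁻¹ := by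
  by_cases h : t ∈ zpowers r
  · rcases S.hzu t h tt with h1 | h1
    · exact absurd h1 t1
    · exact Or.inl h1
  · obtain ⟨k, hk⟩ := S.out ht h
    rcases Int.even_or_odd k with ⟨l, hl⟩ | ⟨l, hl⟩
    · right; left
      exact ⟨l, by rw [S.conj_even, hk, hl, two_mul]⟩
    · right; right
      exact ⟨l, by rw [S.conj_odd, hk, hl]⟩

end Set1

/-- a dihedral Sylow subgroup with an isolated central involution -/
theorem crit {X : Type u} [Group X] [Finite X] {P : Sylow 2 X} {r s z : X} {m : ℕ} (h : DihData (P : Subgroup X) r s m)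
    (hzu : ∀ y ∈ zpowers r, y * y = 1 → y = 1 ∨ y = z) (zz : z * z = 1)
    (hiso : ∀ g : X, g * z * g⁻¹ ∈ (P : Subgroup X) → g * z * g⁻¹ = z) : Cfsg.HasNormalPComplement 2 X := by
  refine hasNPC_of_four h ?_
  intro U hU hK g hg ho
  haveI := hK
  have hsq : ∀ y ∈ U, y * y = 1 := by
    intro y hy
    have := IsKleinFour.mul_self (⟨y, hy⟩ : U)
    exact congrArg Subtype.val this
  have hcard : Nat.card U = 4 := IsKleinFour.card_four
  -- `z ∈ U`
  have hex : ∃ y ∈ U, y ≠ 1 ∧ y ∈ zpowers r := by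
    by_contra hcon
    push Not at hcon
    have h1 : 1 < Nat.card U := by omega
    haveI : Nontrivial U := Finite.one_lt_card_iff_nontrivial.1 h1
    obtain ⟨a, ha⟩ := exists_ne (1 : U)
    have h2 : ∃ b : U, b ≠ 1 ∧ b ≠ a := by
      by_contra hc
      push Not at hc
      have h3 : Nat.card U ≤ 2 := by
        have hs : (Set.univ : Set U) ⊆ {1, a} := by
          intro b _
          by_cases hb : b = 1
          · exact Or.inl hb
          · exact Or.inr (hc b hb)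
        have h4 := Set.ncard_le_ncard hs (Set.toFinite _)
        rw [Set.ncard_univ] at h4
        exact h4.trans ((Set.ncard_insert_le _ _).trans (by rw [Set.ncard_singleton]))
      omega
    obtain ⟨b, hb, hba⟩ := h2
    have ha' : (a : X) ∉ zpowers r := hcon a a.2 (fun h => ha (Subtype.ext h))
    have hb' : (b : X) ∉ zpowers r := hcon b b.2 (fun h => hb (Subtype.ext h))
    refine hcon ((a : X) * b) (mul_mem a.2 b.2) ?_ (h.mul_mem_C (hU a.2) ha' (hU b.2) hb')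
    intro hab
    apply hba
    apply Subtype.ext
    have h5 : (a : X) * b = a * a := by rw [hab, hsq a a.2]
    exact mul_left_cancel h5
  obtain ⟨y, hyU, hy1, hyr⟩ := hex
  have hzU : z ∈ U := by
    rcases hzu y hyr (hsq y hyU) with h1 | h1
    · exact absurd h1 hy1
    · exact h1 ▸ hyU
  have hz1 : z ≠ 1 := by
    rcases hzu y hyr (hsq y hyU) with h1 | h1
    · exact absurd h1 hy1
    · exact h1 ▸ hy1
  have hgz : g * z * g⁻¹ = z := hiso g (hU ((mem_normalizer_iff.1 hg z).1 hzU))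
  rw [mem_centralizer_iff]
  intro y hy
  by_cases hy1 : y = 1
  · rw [hy1, one_mul, mul_one]
  by_cases hyz : y = z
  · rw [hyz]; exact (mul_inv_eq_iff_eq_mul.1 hgz).symm
  have hgy : g * y * g⁻¹ ∈ U := (mem_normalizer_iff.1 hg y).1 hy
  have hcases : g * y * g⁻¹ = y ∨ g * y * g⁻¹ = y * z := by
    by_cases h1 : g * y * g⁻¹ = y
    · exact Or.inl h1
    · right
      have h2 : g * y * g⁻¹ ≠ 1 := by rw [ne_eq, conj_eq_one_iff]; exact hy1
      have h3 : g * y * g⁻¹ ≠ z := by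
        intro h
        rw [← hgz] at h
        exact hyz (by simpa using h)
      have h4 := IsKleinFour.eq_mul_of_ne_all (x := (⟨y, hy⟩ : U)) (y := ⟨z, hzU⟩) (z := ⟨g * y * g⁻¹, hgy⟩)
        (fun h => hy1 (congrArg Subtype.val h)) (fun h => hz1 (congrArg Subtype.val h))
        (fun h => hyz (congrArg Subtype.val h))
        (fun h => h2 (congrArg Subtype.val h)) (fun h => h1 (congrArg Subtype.val h))
        (fun h => h3 (congrArg Subtype.val h))
      exact congrArg Subtype.val h4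
  have h2 : g ^ 2 * y = y * g ^ 2 := by
    rcases hcases with h1 | h1
    · have h3 : Commute g y := mul_inv_eq_iff_eq_mul.1 h1
      exact h3.pow_left 2
    · have h4 : g ^ 2 * y * (g ^ 2)⁻¹ = y := by
        calc g ^ 2 * y * (g ^ 2)⁻¹ = g * (g * y * g⁻¹) * g⁻¹ := by rw [pow_two]; group
          _ = g * (y * z) * g⁻¹ := by rw [h1]
          _ = (g * y * g⁻¹) * (g * z * g⁻¹) := by group
          _ = y := by rw [h1, hgz, mul_assoc, zz, mul_one]
      exact mul_inv_eq_iff_eq_mul.1 h4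
  obtain ⟨k, hk⟩ : ∃ k : ℕ, g = (g ^ 2) ^ k := by
    obtain ⟨n, hn⟩ := ho
    refine ⟨n + 1, ?_⟩
    rw [← pow_mul]
    have : 2 * (n + 1) = orderOf g + 1 := by omega
    rw [this, pow_succ, pow_orderOf_eq_one, one_mul]
  have h5 : Commute (g ^ 2) y := h2
  have h6 := h5.pow_left k
  rw [← hk] at h6
  exact h6.symm

namespace Set1
variable {A : Subgroup G} {j z r : G} {T : Sylow 2 G} {m : ℕ} (S : Set1 A j z r T m)
include S

/-- fusion: either there is a normal 2-complement or `u = r j` is conjugate to `z` -/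
theorem fuse : Cfsg.HasNormalPComplement 2 G ∨ ∃ g : G, g * (r * j) * g⁻¹ = z := by
  by_cases hu : ∃ g : G, g * (r * j) * g⁻¹ = z
  · exact Or.inr hu
  · left
    refine crit S.D S.hzu S.zz ?_
    intro g hg
    have t1 : g * z * g⁻¹ ≠ 1 := by rw [ne_eq, conj_eq_one_iff]; exact S.z1
    have tt : g * z * g⁻¹ * (g * z * g⁻¹) = 1 := by
      calc g * z * g⁻¹ * (g * z * g⁻¹) = g * (z * z) * g⁻¹ := by group
        _ = 1 := by rw [S.zz]; group
    rcases S.inv_cases hg t1 tt with h | ⟨k, h⟩ | ⟨k, h⟩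
    · exact h
    · exfalso
      apply S.nz (g⁻¹ * r ^ k)
      calc g⁻¹ * r ^ k * j * (g⁻¹ * r ^ k)⁻¹ = g⁻¹ * (r ^ k * j * (r ^ k)⁻¹) * g := by group
        _ = z := by rw [← h]; group
    · exfalso
      apply hu
      refine ⟨g⁻¹ * r ^ k, ?_⟩
      calc g⁻¹ * r ^ k * (r * j) * (g⁻¹ * r ^ k)⁻¹ = g⁻¹ * (r ^ k * (r * j) * (r ^ k)⁻¹) * g := by group
        _ = z := by rw [← h]; group

theorem jr_zpow (n : ℤ) : j * r ^ n = r ^ (-n) * j := by
  have h1 := S.D.conj_zpow (y := r ^ n) ⟨n, rfl⟩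
  rw [S.j_inv] at h1
  rw [zpow_neg, ← h1]
  calc j * r ^ n = j * r ^ n * (j * j) := by rw [S.H.tt, mul_one]
    _ = j * r ^ n * j * j := by group

/-- the dihedral maximal subgroup `⟨r², r j⟩` of `T` -/
def QQ : Subgroup G where
  carrier := {t | ∃ k : ℤ, t = r ^ (2 * k) ∨ t = r ^ (2 * k + 1) * j}
  one_mem' := ⟨0, Or.inl (by simp)⟩
  mul_mem' := by
    rintro a b ⟨k, rfl | rfl⟩ ⟨l, rfl | rfl⟩
    · exact ⟨k + l, Or.inl (by rw [← zpow_add]; congr 1; ring)⟩
    · exact ⟨k + l, Or.inr (by rw [← mul_assoc, ← zpow_add]; congr 2; ring)⟩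
    · refine ⟨k - l, Or.inr ?_⟩
      rw [mul_assoc, S.jr_zpow, ← mul_assoc, ← zpow_add]; congr 2; ring
    · refine ⟨k - l, Or.inl ?_⟩
      rw [mul_assoc, ← mul_assoc j, S.jr_zpow, mul_assoc, S.H.tt, mul_one, ← zpow_add]; congr 1; ring
  inv_mem' := by
    rintro a ⟨k, rfl | rfl⟩
    · exact ⟨-k, Or.inl (by rw [← zpow_neg]; congr 1; ring)⟩
    · refine ⟨k, Or.inr ?_⟩
      rw [mul_inv_rev, S.j_inv, ← zpow_neg, S.jr_zpow, neg_neg]

theorem mem_QQ {t : G} : t ∈ S.QQ ↔ ∃ k : ℤ, t = r ^ (2 * k) ∨ t = r ^ (2 * k + 1) * j := Iff.rfl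

theorem QQ_le : S.QQ ≤ (T : Subgroup G) := by
  rintro t ⟨k, rfl | rfl⟩
  · exact Subgroup.zpow_mem _ S.rT _
  · exact mul_mem (Subgroup.zpow_mem _ S.rT _) S.jT

theorem odd_ne (k : ℤ) : r ^ (2 * k + 1) ≠ 1 := by
  intro h
  have h1 := orderOf_dvd_iff_zpow_eq_one.2 h
  obtain ⟨n, hn⟩ := S.D.exists_pow
  rw [S.D.orderOf_r, hn] at h1
  have h2 : (2 : ℤ) ∣ ((2 ^ (n + 1) : ℕ) : ℤ) := by
    push_cast
    rw [pow_succ]
    exact Dvd.intro_left _ rfl
  have h3 := h2.trans h1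
  omega

theorem j_not_QQ : j ∉ S.QQ := by
  rintro ⟨k, h | h⟩
  · apply S.D.s_notMem
    rw [h]; exact Subgroup.zpow_mem _ (mem_zpowers r) _
  · apply S.odd_ne k
    have h1 : r ^ (2 * k + 1) * j = 1 * j := by rw [← h, one_mul]
    exact mul_right_cancel h1

theorem exists_rep {t : G} (ht : t ∈ (T : Subgroup G)) : ∃ k : ℤ, t = r ^ k ∨ t = r ^ k * j := by
  by_cases h : t ∈ zpowers r
  · obtain ⟨k, hk⟩ := h
    exact ⟨k, Or.inl hk.symm⟩
  · obtain ⟨k, hk⟩ := S.out ht h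
    exact ⟨k, Or.inr hk⟩

theorem QQ_index : S.QQ.relIndex (T : Subgroup G) = 2 := by
  rw [Subgroup.relIndex, Subgroup.index_eq_two_iff_exists_notMem_and]
  refine ⟨⟨j, S.jT⟩, fun h => S.j_not_QQ h, fun b => ?_⟩
  rw [mem_subgroupOf, mem_subgroupOf]
  obtain ⟨k, hk | hk⟩ := S.exists_rep b.2
  · rcases Int.even_or_odd k with ⟨l, hl⟩ | ⟨l, hl⟩
    · right
      exact ⟨l, Or.inl (by rw [hk, hl, two_mul])⟩
    · left
      exact ⟨l, Or.inr (by change (b : G) * j = _; rw [hk, hl])⟩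
  · rcases Int.even_or_odd k with ⟨l, hl⟩ | ⟨l, hl⟩
    · left
      exact ⟨l, Or.inl (by change (b : G) * j = _; rw [hk, mul_assoc, S.H.tt, mul_one, hl, two_mul])⟩
    · right
      exact ⟨l, Or.inr (by rw [hk, hl])⟩

/-- the index 2 subgroup -/
theorem exists_G0 (hf : ∃ g : G, g * (r * j) * g⁻¹ = z) :
    ∃ G0 : Subgroup G, G0.Normal ∧ G0.index = 2 ∧ j ∉ G0 := by
  obtain ⟨g, hg⟩ := hf
  rcases S0111.result T S.QQ S.QQ_le S.QQ_index j (orderOf_eq_prime (by rw [pow_two, S.H.tt]) S.H.t1) S.jT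
    S.j_not_QQ with ⟨M, h1, h2, h3⟩ | ⟨c, hc⟩
  · exact ⟨M, h1, h2, h3⟩
  · exfalso
    have t1 : c * j * c⁻¹ ≠ 1 := by rw [ne_eq, conj_eq_one_iff]; exact S.H.t1
    have tt : c * j * c⁻¹ * (c * j * c⁻¹) = 1 := by
      calc c * j * c⁻¹ * (c * j * c⁻¹) = c * (j * j) * c⁻¹ := by group
        _ = 1 := by rw [S.H.tt]; group
    rcases S.inv_cases (S.QQ_le hc) t1 tt with h | ⟨k, h⟩ | ⟨k, h⟩
    · exact S.nz c h
    · apply S.j_not_QQ
      rw [h, S.conj_even] at hc
      have h2 : r ^ (-(2 * k)) ∈ S.QQ := ⟨-k, Or.inl (by congr 1; ring)⟩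
      have h3 := mul_mem h2 hc
      rwa [← mul_assoc, ← zpow_add, neg_add_cancel, zpow_zero, one_mul] at h3
    · apply S.nz (g * (r ^ k)⁻¹ * c)
      calc g * (r ^ k)⁻¹ * c * j * (g * (r ^ k)⁻¹ * c)⁻¹ = g * (r ^ k)⁻¹ * (c * j * c⁻¹) * r ^ k * g⁻¹ := by group
        _ = g * (r * j) * g⁻¹ := by rw [h]; group
        _ = z := hg

end Set1

/-- the set-up with the subgroup of index two -/
structure Set2 (A : Subgroup G) (j z r : G) (T : Sylow 2 G) (m : ℕ) (G0 : Subgroup G) : Prop extends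
    Set1 A j z r T m where
  normal : G0.Normal
  index : G0.index = 2
  jG : j ∉ G0
  uz' : ∃ g : G, g * (r * j) * g⁻¹ = z

namespace Set2

variable {A : Subgroup G} {j z r : G} {T : Sylow 2 G} {m : ℕ} {G0 : Subgroup G} (S : Set2 A j z r T m G0)
include S

theorem mul_mem_iff {a b : G} : a * b ∈ G0 ↔ (a ∈ G0 ↔ b ∈ G0) := Subgroup.mul_mem_iff_of_index_two S.index

theorem conj_mem {a : G} (h : a ∈ G0) (g : G) : g * a * g⁻¹ ∈ G0 := S.normal.conj_mem a h g

theorem zG : z ∈ G0 := by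
  by_contra hz
  have hu : r * j ∉ G0 := by
    intro h
    obtain ⟨g, hg⟩ := S.uz'
    exact hz (hg ▸ S.conj_mem h g)
  have hr : r ∈ G0 := by
    by_contra hr
    apply hu
    rw [S.mul_mem_iff]
    exact ⟨fun h => absurd h hr, fun h => absurd h S.jG⟩
  exact hz ((zpowers_le.2 hr) S.zr)

theorem uG : r * j ∈ G0 := by
  obtain ⟨g, hg⟩ := S.uz'
  have h := S.conj_mem S.zG g⁻¹
  have e : g⁻¹ * z * g⁻¹⁻¹ = r * j := by rw [← hg]; group
  rwa [e] at h

theorem rG : r ∉ G0 := by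
  intro h
  apply S.jG
  have := mul_mem (inv_mem h) S.uG
  rwa [inv_mul_cancel_left] at this

theorem r2G : r * r ∈ G0 := S.mul_mem_iff.2 Iff.rfl

/-- `T ∩ G0 = ⟨r², r j⟩` -/
theorem T0 {t : G} (ht : t ∈ (T : Subgroup G)) (hG : t ∈ G0) : t ∈ zpowers (r * r) ∨ r * j * t ∈ zpowers (r * r) := by
  have hr2 : ∀ l : ℤ, r ^ (2 * l) = (r * r) ^ l := by
    intro l; rw [zpow_mul, zpow_ofNat, pow_two]
  have hr2' : ∀ l : ℤ, r ^ (2 * l) ∈ zpowers (r * r) := fun l => ⟨l, (hr2 l).symm⟩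
  have hev : ∀ l : ℤ, r ^ (2 * l) ∈ G0 := fun l => by rw [hr2]; exact Subgroup.zpow_mem _ S.r2G _
  obtain ⟨k, hk | hk⟩ := S.exists_rep ht
  · rcases Int.even_or_odd k with ⟨l, hl⟩ | ⟨l, hl⟩
    · left
      rw [hk, hl, ← two_mul]; exact hr2' l
    · exfalso
      apply S.rG
      rw [hk, hl, zpow_add_one] at hG
      have := mul_mem (inv_mem (hev l)) hG
      rwa [inv_mul_cancel_left] at this
  · rcases Int.even_or_odd k with ⟨l, hl⟩ | ⟨l, hl⟩
    · exfalso
      apply S.jG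
      rw [hk, hl, ← two_mul] at hG
      have := mul_mem (inv_mem (hev l)) hG
      rwa [inv_mul_cancel_left] at this
    · right
      rw [hk, hl]
      have e : r * j * (r ^ (2 * l + 1) * j) = r ^ (2 * (-l)) := by
        rw [mul_assoc, ← mul_assoc j, S.jr_zpow, mul_assoc, S.H.tt, mul_one, ← zpow_one_add]
        congr 1; ring
      rw [e]; exact hr2' (-l)

/-- all involutions of `G0` are conjugate in `G0` -/
theorem conj_z {t : G} (hG : t ∈ G0) (t1 : t ≠ 1) (tt : t * t = 1) : ∃ g ∈ G0, g * t * g⁻¹ = z := by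
  have : Fact (Nat.Prime 2) := ⟨Nat.prime_two⟩
  have hex : ∃ g : G, g * t * g⁻¹ = z := by
    obtain ⟨c, hc⟩ := H4.exists_conj_mem_sylow T (x := t) (k := 1) (by rw [pow_one, pow_two, tt])
    have t1' : c * t * c⁻¹ ≠ 1 := by rw [ne_eq, conj_eq_one_iff]; exact t1
    have tt' : c * t * c⁻¹ * (c * t * c⁻¹) = 1 := by
      calc c * t * c⁻¹ * (c * t * c⁻¹) = c * (t * t) * c⁻¹ := by group
        _ = 1 := by rw [tt]; group
    obtain ⟨g, hg⟩ := S.uz'
    rcases S.inv_cases hc t1' tt' with h | ⟨k, h⟩ | ⟨k, h⟩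
    · exact ⟨c, h⟩
    · exfalso
      apply S.jG
      have h1 := S.conj_mem hG ((r ^ k)⁻¹ * c)
      have e : (r ^ k)⁻¹ * c * t * ((r ^ k)⁻¹ * c)⁻¹ = (r ^ k)⁻¹ * (c * t * c⁻¹) * r ^ k := by group
      have e2 : (r ^ k)⁻¹ * (r ^ k * j * (r ^ k)⁻¹) * r ^ k = j := by group
      rwa [e, h, e2] at h1
    · refine ⟨g * (r ^ k)⁻¹ * c, ?_⟩
      calc g * (r ^ k)⁻¹ * c * t * (g * (r ^ k)⁻¹ * c)⁻¹ = g * (r ^ k)⁻¹ * (c * t * c⁻¹) * r ^ k * g⁻¹ := by group
        _ = g * (r * j) * g⁻¹ := by rw [h]; group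
        _ = z := hg
  obtain ⟨g, hg⟩ := hex
  by_cases hgG : g ∈ G0
  · exact ⟨g, hgG, hg⟩
  · refine ⟨j * g, S.mul_mem_iff.2 ⟨fun h => absurd h S.jG, fun h => absurd h hgG⟩, ?_⟩
    calc j * g * t * (j * g)⁻¹ = j * (g * t * g⁻¹) * j⁻¹ := by group
      _ = z := by rw [hg, S.jz, mul_inv_cancel_right]

end Set2

/-- everything: a dihedral Sylow subgroup bigger than `C(j)` -/
theorem exists_set2 {A : Subgroup G} {j x : G} (H : Cen A j x) (T : Sylow 2 G) {r s : G} {m : ℕ}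
    (hT : DihData (T : Subgroup G) r s m)
    (hS : ∀ S : Sylow 2 G, ¬ (S : Subgroup G) ≤ Subgroup.centralizer ({j} : Set G))
    (hn : ¬ Cfsg.HasNormalPComplement 2 G) :
    ∃ (z r' : G) (T' : Sylow 2 G) (m' : ℕ) (G0 : Subgroup G), Set2 A j z r' T' m' G0 := by
  obtain ⟨z, r', T', m', S⟩ := exists_set1 H T hT hS
  have hf := S.fuse.resolve_left hn
  obtain ⟨G0, h1, h2, h3⟩ := S.exists_G0 hf
  exact ⟨z, r', T', m', G0, ⟨S, h1, h2, h3, hf⟩⟩

end MD

end Cfsg.Agent.GWP
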