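import Cfsg.Agent.GWP.Basic
import Cfsg.Agent.H9.DihedralSylow
import Cfsg.Agent.H9.CyclicNormal
import Cfsg.Agent.DihSyl.Basic
import Cfsg.Agent.H52.Four

set_option autoImplicit false

/-! S3322 (M1): the centraliser of the central involution of a dihedral Sylow 2-subgroup (helper67) -/

namespace Cfsg.Agent.GWP

open Subgroup

namespace MO

/-- order of a dihedral group -/
theorem dih_card {G : Type*} [Group G] {T : Subgroup G} {r s : G} {m : ℕ} (h : DihSyl.DihData T r s m) :
    Nat.card T = 2 * m := by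
  have hm : 0 < m := by have := h.two_le; omega
  have hc : Nat.card (zpowers r) = m := by rw [Nat.card_zpowers, h.orderOf_r]
  haveI : Finite (zpowers r) := Nat.finite_of_card_ne_zero (by rw [hc]; omega)
  let f : zpowers r ⊕ zpowers r → T := fun w => match w with
    | Sum.inl c => ⟨c, h.C_le c.2⟩
    | Sum.inr c => ⟨s * c, mul_mem h.s_mem (h.C_le c.2)⟩
  have hf : Function.Bijective f := by
    constructor
    · rintro (a | a) (b | b) hab
      · have h0 : ((f (Sum.inl a) : T) : G) = (f (Sum.inl b) : T) := congrArg Subtype.val hab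
        have : (a : G) = b := h0
        rw [Subtype.ext this]
      · exfalso
        have : (a : G) = s * b := congrArg Subtype.val hab
        exact h.mul_notMem b.2 (by rw [← this]; exact a.2)
      · exfalso
        have : s * (a : G) = b := congrArg Subtype.val hab
        exact h.mul_notMem a.2 (by rw [this]; exact b.2)
      · have : s * (a : G) = s * b := congrArg Subtype.val hab
        rw [Subtype.ext (mul_left_cancel this)]
    · rintro ⟨t, ht⟩
      rcases h.cases t ht with h1 | h1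
      · exact ⟨Sum.inl ⟨t, h1⟩, rfl⟩
      · refine ⟨Sum.inr ⟨s * t, h1⟩, ?_⟩
        apply Subtype.ext
        show s * (s * t) = t
        rw [← mul_assoc, h.s_sq, one_mul]
  rw [← Nat.card_congr (Equiv.ofBijective f hf), Nat.card_sum, hc]
  ring

/-- the isomorphism with the standard dihedral group -/
theorem dih_equiv {G : Type*} [Group G] [Finite G] {T : Subgroup G} {r s : G} {m : ℕ} (h : DihSyl.DihData T r s m) :
    Nonempty (T ≃* DihedralGroup m) := by
  have hm : 0 < m := by have := h.two_le; omega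
  refine H9.nonempty_mulEquiv_dihedralGroup (a := (⟨r, h.r_mem⟩ : T)) (b := ⟨s, h.s_mem⟩) m hm ?_ ?_ ?_ ?_ (dih_card h)
  · rw [Subgroup.orderOf_mk]; exact h.orderOf_r
  · intro h1
    apply h.s_notMem
    obtain ⟨k, hk⟩ := mem_zpowers_iff.1 h1
    exact mem_zpowers_iff.2 ⟨k, congrArg Subtype.val hk⟩
  · ext
    rw [pow_two]; exact h.s_sq
  · ext; exact h.conj

end MO

/-- (M1) -/
theorem mone {G : Type*} [Group G] [Finite G] (T : Sylow 2 G) {r s : G} {m : ℕ}
    (hT : DihSyl.DihData (T : Subgroup G) r s m) {A : Subgroup G} {j x : G} (H : Cen A j x)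
    (hjT : j ∈ (T : Subgroup G)) {z : G} (z1 : z ≠ 1) (zz : z * z = 1) (hzT : z ∈ (T : Subgroup G))
    (hzc : ∀ t ∈ (T : Subgroup G), t * z = z * t) (hjz : j ≠ z) :
    ∃ K : Subgroup G, Odd (Nat.card K) ∧ (∀ k ∈ K, k * z = z * k) ∧
      (∀ g : G, g * z = z * g → ∀ k ∈ K, g * k * g⁻¹ ∈ K) ∧ (∀ k ∈ K, j * k * j⁻¹ = k⁻¹) ∧
      (∀ g : G, g * z = z * g → Odd (orderOf g) → g ∈ K) ∧
      ∀ g : G, g * z = z * g → ∃ k ∈ K, ∃ t ∈ (T : Subgroup G), g = k * t := by
  haveI : Fact (Nat.Prime 2) := ⟨Nat.prime_two⟩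
  have hz2 : orderOf z = 2 := orderOf_eq_prime (by rw [pow_two]; exact zz) z1
  have hm : m ≠ 0 := by have := hT.two_le; omega
  have hnpc := H9.hasNPC_centralizer_of_dihedral_sylow T m hm (MO.dih_equiv hT) z hz2
  set C := centralizer ({z} : Set G) with hC
  have hmC : ∀ g : G, g ∈ C ↔ g * z = z * g := fun g => mem_centralizer_singleton_iff
  obtain ⟨N, hN, hNc, k0, hk0⟩ := Transfer.hasNPC_iff_exists.1 hnpc
  have hNodd : Odd (Nat.card N) := Nat.coprime_two_right.1 hNc
  set K := N.map C.subtype with hK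
  have hKmem : ∀ k, k ∈ K ↔ ∃ h : k ∈ C, (⟨k, h⟩ : C) ∈ N := by
    intro k
    constructor
    · rintro ⟨y, hy, rfl⟩
      exact ⟨y.2, hy⟩
    · rintro ⟨h, h'⟩
      exact ⟨⟨k, h⟩, h', rfl⟩
  have hKodd : Odd (Nat.card K) := by
    rw [hK, Subgroup.card_map_of_injective C.subtype_injective]
    exact hNodd
  have hoddmem : ∀ g : G, g * z = z * g → Odd (orderOf g) → g ∈ K := by
    intro g hg ho
    rw [hKmem]
    refine ⟨(hmC g).2 hg, ?_⟩
    set c : C := ⟨g, (hmC g).2 hg⟩ with hc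
    -- in the quotient C / N of 2-power order
    have h1 : orderOf (QuotientGroup.mk' N c) ∣ 2 ^ k0 := by
      rw [← hk0]; exact orderOf_dvd_natCard _
    have h2 : orderOf (QuotientGroup.mk' N c) ∣ orderOf g := by
      have h3 : orderOf c = orderOf g := by rw [hc, Subgroup.orderOf_mk]
      rw [← h3]; exact orderOf_map_dvd _ _
    have h3 : Nat.Coprime (2 ^ k0) (orderOf g) := Nat.Coprime.pow_left k0 (Nat.coprime_two_left.2 ho)
    have h4 : orderOf (QuotientGroup.mk' N c) = 1 :=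
      Nat.Coprime.eq_one_of_dvd (Nat.Coprime.coprime_dvd_left h1 h3) h2
    exact (QuotientGroup.eq_one_iff c).1 (orderOf_eq_one_iff.1 h4)
  have hKC : ∀ k ∈ K, k * z = z * k := by
    intro k hk
    obtain ⟨h, -⟩ := (hKmem k).1 hk
    exact (hmC k).1 h
  have hKn : ∀ g : G, g * z = z * g → ∀ k ∈ K, g * k * g⁻¹ ∈ K := by
    intro g hg k hk
    obtain ⟨h, h'⟩ := (hKmem k).1 hk
    have hgC := (hmC g).2 hg
    exact ⟨⟨g, hgC⟩ * ⟨k, h⟩ * ⟨g, hgC⟩⁻¹, hN.conj_mem _ h' ⟨g, hgC⟩, rfl⟩
  refine ⟨K, hKodd, hKC, hKn, ?_, hoddmem, ?_⟩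
  · -- `j` acts fixed point freely
    have hfix : ∀ k ∈ K, j * k = k * j → k = 1 := by
      intro k hk hjk
      have hjz' : z * j = j * z := (hzc j hjT).symm
      rcases H.cent_four zz z1 hjz.symm hjz' hjk.symm (hKC k hk) with h | h | h | h
      · exact h
      · exact absurd (h ▸ odd_of_mem hKodd hk) (by
          rw [orderOf_eq_prime (p := 2) (by rw [pow_two]; exact H.tt) H.t1]; decide)
      · exact absurd (h ▸ odd_of_mem hKodd hk) (by rw [hz2]; decide)
      · exfalso
        have h2 : (j * z) * (j * z) = 1 := by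
          calc (j * z) * (j * z) = j * (z * j) * z := by group
            _ = j * (j * z) * z := by rw [hjz']
            _ = (j * j) * (z * z) := by group
            _ = 1 := by rw [H.tt, zz, one_mul]
        have h3 : k = 1 := eq_one_of_sq (odd_of_mem hKodd hk) (by rw [h]; exact h2)
        rw [h] at h3
        have h4 := eq_inv_of_mul_eq_one_left h3
        have h5 : z⁻¹ = z := inv_eq_of_mul_eq_one_left zz
        rw [h5] at h4
        exact hjz h4
    have hjK : ∀ k ∈ K, j * k * j⁻¹ ∈ K := hKn j (hzc j hjT)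
    have hji : j⁻¹ = j := inv_eq_of_mul_eq_one_left H.tt
    -- the map k ↦ k⁻¹ j k j⁻¹ is injective on K
    intro k hk
    let f : K → K := fun y => ⟨(y : G)⁻¹ * (j * y * j⁻¹), mul_mem (inv_mem y.2) (hjK y y.2)⟩
    have hf : Function.Injective f := by
      intro a b hab
      have h1 : (a : G)⁻¹ * (j * a * j⁻¹) = (b : G)⁻¹ * (j * b * j⁻¹) := congrArg Subtype.val hab
      have h2 : (b : G) * (a : G)⁻¹ ∈ K := mul_mem b.2 (inv_mem a.2)
      have h3 : j * ((b : G) * (a : G)⁻¹) * j⁻¹ = (b : G) * (a : G)⁻¹ := by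
        calc j * ((b : G) * (a : G)⁻¹) * j⁻¹ = (j * b * j⁻¹) * (j * a * j⁻¹)⁻¹ := by group
          _ = b * ((b : G)⁻¹ * (j * b * j⁻¹)) * (j * a * j⁻¹)⁻¹ := by group
          _ = b * ((a : G)⁻¹ * (j * a * j⁻¹)) * (j * a * j⁻¹)⁻¹ := by rw [h1]
          _ = (b : G) * (a : G)⁻¹ := by group
      have h4 := hfix _ h2 (mul_inv_eq_iff_eq_mul.1 h3)
      exact (Subtype.ext (mul_inv_eq_one.1 h4)).symm
    have hfs : Function.Surjective f := Finite.surjective_of_injective hf
    obtain ⟨y, hy⟩ := hfs ⟨k, hk⟩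
    have h1 : k = (y : G)⁻¹ * (j * y * j⁻¹) := (congrArg Subtype.val hy).symm
    rw [h1, hji]
    calc j * ((y : G)⁻¹ * (j * y * j)) * j = (j * (y : G)⁻¹ * j) * y * (j * j) := by group
      _ = (j * (y : G)⁻¹ * j) * y := by rw [H.tt, mul_one]
      _ = ((y : G)⁻¹ * (j⁻¹ * y * j⁻¹))⁻¹ := by group
      _ = ((y : G)⁻¹ * (j * y * j))⁻¹ := by rw [hji]
  · -- factorisation: count
    intro g hg
    have hTC : (T : Subgroup G) ≤ C := fun t ht => (hmC t).2 (hzc t ht)
    set T1 : Sylow 2 C := T.subtype hTC with hT1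
    have hcompl := Transfer.isComplement'_of_card_of_index hNc hk0 T1
    obtain ⟨⟨n, t⟩, hnt⟩ := hcompl.2 ⟨g, (hmC g).2 hg⟩
    refine ⟨(n : C), ⟨(n : C), n.2, rfl⟩, ((t : C) : G), ?_, (congrArg Subtype.val hnt).symm⟩
    have := t.2
    exact this

end Cfsg.Agent.GWP
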