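import Cfsg.Agent.GWP.M1
import Cfsg.Agent.GWP.MOne
import Cfsg.Agent.Transfer.Fusion

set_option autoImplicit false
set_option linter.unusedSectionVars false
set_option linter.style.haveILetI false

/-!
# The subgroup of index two in the dihedral case: data for `w_le_core` and `m3` (helper22)
-/

namespace Cfsg.Agent.GWP

open Subgroup Cfsg.Agent.DihSyl

universe u
variable {G : Type u} [Group G] [Finite G]

namespace MD

/-- the facts about `C(z)`, `K = O(C(z))` -/
structure KF (A : Subgroup G) (j z r : G) (T : Sylow 2 G) (m : ℕ) (G0 K : Subgroup G) : Prop extends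
    Set2 A j z r T m G0 where
  Ko : Odd (Nat.card K)
  Kz : ∀ k ∈ K, k * z = z * k
  Kn : ∀ g : G, g * z = z * g → ∀ k ∈ K, g * k * g⁻¹ ∈ K
  Kj : ∀ k ∈ K, j * k * j⁻¹ = k⁻¹
  Kodd : ∀ g : G, g * z = z * g → Odd (orderOf g) → g ∈ K
  Kf : ∀ g : G, g * z = z * g → ∃ k ∈ K, ∃ t ∈ (T : Subgroup G), g = k * t

theorem Set2.exists_KF {A : Subgroup G} {j z r : G} {T : Sylow 2 G} {m : ℕ} {G0 : Subgroup G}
    (S : Set2 A j z r T m G0) : ∃ K : Subgroup G, KF A j z r T m G0 K := by
  obtain ⟨K, h1, h2, h3, h4, h5, h6⟩ := mone T S.D S.H S.jT S.z1 S.zz S.zT S.hzc S.zj_ne.symm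
  exact ⟨K, ⟨S, h1, h2, h3, h4, h5, h6⟩⟩

namespace KF

variable {A : Subgroup G} {j z r : G} {T : Sylow 2 G} {m : ℕ} {G0 K : Subgroup G} (S : KF A j z r T m G0 K)
include S

theorem K_comm {a b : G} (ha : a ∈ K) (hb : b ∈ K) : a * b = b * a := by
  have h1 := S.Kj _ (mul_mem ha hb)
  have h2 : j * (a * b) * j⁻¹ = (j * a * j⁻¹) * (j * b * j⁻¹) := by group
  rw [h2, S.Kj a ha, S.Kj b hb, mul_inv_rev] at h1
  have h3 := congrArg (fun w => w⁻¹) h1
  simp only [mul_inv_rev, inv_inv] at h3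
  exact h3.symm

theorem K_ord {k : G} (hk : k ∈ K) : Odd (orderOf k) := odd_of_mem S.Ko hk

theorem K_le : K ≤ G0 := by
  intro k hk
  obtain ⟨n, hn⟩ := S.K_ord hk
  have h1 : k = (k * k) ^ (n + 1) := by
    rw [← pow_two, ← pow_mul]
    have : 2 * (n + 1) = orderOf k + 1 := by omega
    rw [this, pow_succ, pow_orderOf_eq_one, one_mul]
  rw [h1]
  exact Subgroup.pow_mem _ (S.mul_mem_iff.2 Iff.rfl) _

theorem rz : r * z = z * r := S.hzc r S.rT

/-- `r²` centralises `K` -/
theorem Kr {k : G} (hk : k ∈ K) : r * r * k = k * (r * r) := by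
  have h1 : r⁻¹ * k * r⁻¹⁻¹ ∈ K := by
    apply S.Kn _ _ k hk
    have := S.rz
    rw [inv_mul_eq_iff_eq_mul, ← mul_assoc, this, mul_inv_cancel_right]
  rw [inv_inv] at h1
  have h2 := S.Kj _ h1
  have h3 := S.Kj _ (inv_mem hk)
  have hj := S.jrj
  have h4 : r * r = (r * j * r⁻¹) * j := by
    have : j * r⁻¹ * j = r := by
      have h5 := S.D.conj_zpow (y := r⁻¹) ⟨-1, by simp⟩
      rwa [S.j_inv, inv_inv] at h5
    calc r * r = r * (j * r⁻¹ * j) := by rw [this]
      _ = r * j * r⁻¹ * j := by group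
  have h5 : r * r * k * (r * r)⁻¹ = k := by
    rw [h4]
    calc r * j * r⁻¹ * j * k * (r * j * r⁻¹ * j)⁻¹
        = r * (j * (r⁻¹ * (j * k * j⁻¹) * r) * j⁻¹) * r⁻¹ := by group
      _ = r * (j * (r⁻¹ * k⁻¹ * r) * j⁻¹) * r⁻¹ := by rw [S.Kj k hk]
      _ = r * ((j * (r⁻¹ * k * r) * j⁻¹)⁻¹) * r⁻¹ := by group
      _ = r * ((r⁻¹ * k * r)⁻¹)⁻¹ * r⁻¹ := by rw [h2]
      _ = k := by group
  exact mul_inv_eq_iff_eq_mul.1 h5

theorem Kr_mem {c k : G} (hc : c ∈ zpowers (r * r)) (hk : k ∈ K) : c * k = k * c := by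
  obtain ⟨n, rfl⟩ := hc
  have h1 : Commute (r * r) k := S.Kr hk
  exact (h1.zpow_left n)

theorem rr_le : zpowers (r * r) ≤ zpowers r := by
  rw [zpowers_le]; exact mul_mem (mem_zpowers r) (mem_zpowers r)

theorem u_inv : (r * j)⁻¹ = r * j := inv_eq_of_mul_eq_one_left S.uu

/-- elements of `T` commuting with `u` -/
theorem four {g : G} (hg : g ∈ (T : Subgroup G)) (h : g * (r * j) = r * j * g) :
    g = 1 ∨ g = z ∨ g = r * j ∨ g = z * (r * j) := by
  have key : ∀ c ∈ zpowers r, c * (r * j) = r * j * c → c = 1 ∨ c = z := by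
    intro c hc hcu
    have h1 := S.D.conj_C S.u_mem S.u_not hc
    rw [← hcu, mul_inv_cancel_right] at h1
    apply S.hzu c hc
    nth_rw 1 [h1]
    exact inv_mul_cancel c
  by_cases hgr : g ∈ zpowers r
  · rcases key g hgr h with h1 | h1
    · exact Or.inl h1
    · exact Or.inr (Or.inl h1)
  · have h1 := S.D.mul_mem_C hg hgr S.u_mem S.u_not
    have h2 : g * (r * j) * (r * j) = r * j * (g * (r * j)) := by rw [← mul_assoc (r * j) g (r * j), ← h]
    rcases key _ h1 h2 with h3 | h3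
    · right; right; left
      have h4 := eq_inv_of_mul_eq_one_left h3
      rw [h4, S.u_inv]
    · right; right; right
      have h4 : g * (r * j) * (r * j) = z * (r * j) := by rw [h3]
      rwa [mul_assoc g, S.uu, mul_one] at h4

/-- `C_{G0}(z) = K T0` -/
theorem fact {g : G} (hg : g ∈ G0) (h : g * z = z * g) :
    ∃ k ∈ K, ∃ t ∈ (T : Subgroup G), t ∈ G0 ∧ g = k * t := by
  obtain ⟨k, hk, t, ht, hkt⟩ := S.Kf g h
  refine ⟨k, hk, t, ht, ?_, hkt⟩
  have : t = k⁻¹ * g := by rw [hkt]; group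
  rw [this]
  exact mul_mem (inv_mem (S.K_le hk)) hg

theorem KT {k : G} (hk : k ∈ K) (hkT : k ∈ (T : Subgroup G)) : k = 1 := by
  have ho := S.K_ord hk
  obtain ⟨n, hn⟩ := IsPGroup.iff_orderOf.1 T.isPGroup' ⟨k, hkT⟩
  rw [Subgroup.orderOf_mk] at hn
  rcases n with _ | n
  · rw [pow_zero] at hn; exact orderOf_eq_one_iff.1 hn
  · exfalso
    rw [hn, pow_succ, Nat.odd_mul] at ho
    exact absurd ho.2 (by decide)

/-- the elements of `C_K(u)` are centralised by `C_{G0}(z)` -/
theorem Wc {w : G} (hw : w ∈ K) (hwu : w * (r * j) = r * j * w) {g : G} (hg : g ∈ G0) (h : g * z = z * g) :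
    g * w = w * g := by
  obtain ⟨k, hk, t, ht, htG, rfl⟩ := S.fact hg h
  have h1 : t * w = w * t := by
    rcases S.T0 ht htG with h1 | h1
    · exact S.Kr_mem h1 hw
    · have h2 := S.Kr_mem h1 hw
      have h3 : t = r * j * (r * j * t) := by rw [← mul_assoc, S.uu, one_mul]
      rw [h3]
      calc r * j * (r * j * t) * w = r * j * (r * j * t * w) := by group
        _ = r * j * (w * (r * j * t)) := by rw [h2]
        _ = (r * j * w) * (r * j * t) := by group
        _ = w * (r * j) * (r * j * t) := by rw [hwu]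
        _ = w * (r * j * (r * j * t)) := by group
  calc k * t * w = k * (t * w) := by group
    _ = (k * w) * t := by rw [h1]; group
    _ = w * (k * t) := by rw [S.K_comm hk hw]; group

/-- the involutions `t ≠ z` of `C_{G0}(z)` : `C_K(t) = C_K(u)` -/
theorem W3 {t : G} (htG : t ∈ G0) (t1 : t ≠ 1) (tt : t * t = 1) (tz : t ≠ z) (h : t * z = z * t) {g : G}
    (hgz : g * z = z * g) (hgt : g * t = t * g) (ho : Odd (orderOf g)) : g ∈ K ∧ g * (r * j) = r * j * g := by
  have hgK := S.Kodd g hgz ho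
  refine ⟨hgK, ?_⟩
  obtain ⟨k, hk, t', ht', htG', rfl⟩ := S.fact htG h
  rcases S.T0 ht' htG' with h1 | h1
  · exfalso
    have h2 := S.Kr_mem h1 hk
    have h3 : k * k * (t' * t') = 1 := by
      calc k * k * (t' * t') = k * (k * t') * t' := by group
        _ = k * (t' * k) * t' := by rw [h2]
        _ = k * t' * (k * t') := by group
        _ = 1 := tt
    have h4 : k * k = (t' * t')⁻¹ := eq_inv_of_mul_eq_one_left h3
    have h5 : k * k = 1 := S.KT (mul_mem hk hk) (by rw [h4]; exact inv_mem (mul_mem ht' ht'))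
    have h6 : k = 1 := eq_one_of_sq (S.K_ord hk) h5
    rw [h6, one_mul] at t1 tz tt
    rcases S.hzu t' (S.rr_le h1) tt with h7 | h7
    · exact t1 h7
    · exact tz h7
  · have h2 := S.Kr_mem h1 hgK
    set c := r * j * t' with hc
    have h3 : t' = r * j * c := by rw [hc, ← mul_assoc, S.uu, one_mul]
    rw [h3] at hgt
    have h4 : k * (g * (r * j)) * c = k * (r * j * g) * c := by
      calc k * (g * (r * j)) * c = (k * g) * (r * j) * c := by group
        _ = g * (k * (r * j * c)) := by rw [S.K_comm hk hgK]; group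
        _ = k * (r * j * c) * g := hgt
        _ = k * (r * j) * (c * g) := by group
        _ = k * (r * j) * (g * c) := by rw [h2]
        _ = k * (r * j * g) * c := by group
    exact mul_left_cancel (mul_right_cancel h4)

/-- central elements of `T` lie in `G0` -/
theorem center_le {t : G} (ht : t ∈ (T : Subgroup G)) (h : ∀ s ∈ (T : Subgroup G), t * s = s * t) : t ∈ G0 := by
  by_cases htr : t ∈ zpowers r
  · have h1 := S.D.conj_zpow htr
    have h2 := h j S.jT
    rw [← h2, mul_inv_cancel_right] at h1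
    have h3 : t * t = 1 := by
      nth_rw 1 [h1]
      exact inv_mul_cancel t
    rcases S.hzu t htr h3 with h4 | h4
    · rw [h4]; exact one_mem _
    · rw [h4]; exact S.zG
  · exfalso
    have h1 := S.D.conj_C ht htr (mem_zpowers r)
    rw [h r S.rT, mul_inv_cancel_right] at h1
    apply S.rr
    nth_rw 1 [h1]
    exact inv_mul_cancel r

theorem z_mem_rr : z ∈ zpowers (r * r) := by
  rcases S.T0 S.zT S.zG with h | h
  · exact h
  · exfalso
    apply S.u_not
    have h1 := mul_mem (S.rr_le h) (inv_mem S.zr)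
    rwa [mul_inv_cancel_right] at h1

end KF

end MD

end Cfsg.Agent.GWP
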