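import Cfsg.Agent.GWP.Basic

set_option autoImplicit false

namespace Cfsg.Agent.GWP
universe u
variable {G : Type u} [Group G] [Finite G]

namespace NYs

omit [Finite G] in
/-- an element of `C(u) ∩ C(Y)` lies in `A` -/
theorem cent_mem_A {A : Subgroup G} {u x : G} (H : Cen A u x) {Y : Subgroup G} (hY : Y ≤ K u) (hY1 : Y ≠ ⊥)
    {g : G} (hg : g * u = u * g) (hgY : ∀ y ∈ Y, g * y = y * g) : g ∈ A := by
  rcases H.mem_or g hg with h | ⟨a, ha, h⟩
  · exact h
  · exfalso
    apply hY1
    rw [Subgroup.eq_bot_iff_forall]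
    intro y hy
    have h1 := H.ax_conj a y ha (H.K_le (hY hy))
    rw [← h, hgY y hy, mul_inv_cancel_right] at h1
    exact eq_one_of_inv (H.mem_K.1 (hY hy)).2 h1

/-- a 2-subgroup of `C(Y)` containing `u` lies in `A` -/
theorem two_le_A {A : Subgroup G} {u x : G} (H : Cen A u x) {Y : Subgroup G} (hY : Y ≤ K u) (hY1 : Y ≠ ⊥)
    {R : Subgroup G} (hR : IsPGroup 2 R) (hRY : ∀ r ∈ R, ∀ y ∈ Y, r * y = y * r) (hu : u ∈ R) : R ≤ A := by
  haveI : Fact (Nat.Prime 2) := ⟨Nat.prime_two⟩
  haveI : Nontrivial R := ⟨⟨⟨u, hu⟩, 1, fun h => H.t1 (congrArg Subtype.val h)⟩⟩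
  haveI := hR.center_nontrivial
  have h2 : 2 ∣ Nat.card (Subgroup.center R) := by
    rcases (hR.to_subgroup (Subgroup.center R)).card_eq_or_dvd with h | h
    · have := Finite.one_lt_card (α := Subgroup.center R)
      omega
    · exact h
  obtain ⟨z, hz⟩ := exists_prime_orderOf_dvd_card' 2 h2
  have hz1 : ((z : R) : G) ≠ 1 := by
    intro h
    have : z = 1 := by
      apply Subtype.ext; apply Subtype.ext; exact h
    rw [this, orderOf_one] at hz
    exact absurd hz (by decide)
  have hz2 : ((z : R) : G) * ((z : R) : G) = 1 := by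
    have h1 : z ^ 2 = 1 := by rw [← hz]; exact pow_orderOf_eq_one z
    rw [pow_two] at h1
    exact congrArg (fun w : Subgroup.center R => ((w : R) : G)) h1
  have hzc : ∀ r ∈ R, ((z : R) : G) * r = r * ((z : R) : G) := by
    intro r hr
    have h1 := Subgroup.mem_center_iff.1 z.2 ⟨r, hr⟩
    exact (congrArg Subtype.val h1).symm
  have hzu : ((z : R) : G) = u := by
    by_contra hne
    apply hY1
    rw [Subgroup.eq_bot_iff_forall]
    intro y hy
    have h1 := H.inv_of hz2 hz1 hne (hzc u hu) (H.K_le (hY hy))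
    rw [hRY _ (z : R).2 y hy, mul_inv_cancel_right] at h1
    exact eq_one_of_inv (H.mem_K.1 (hY hy)).2 h1
  intro r hr
  apply cent_mem_A H hY hY1 _ (hRY r hr)
  have := hzc r hr
  rw [hzu] at this
  exact this.symm

/-- the structure of `N(Y)` -/
theorem struct {A : Subgroup G} {u x : G} (H : Cen A u x) {Y : Subgroup G} (hY : Y ≤ K u) (hY1 : Y ≠ ⊥) :
    (∃ X : Subgroup (Subgroup.centralizer (Y : Set G)), X.Normal ∧ ¬ 2 ∣ Nat.card X ∧
      ∀ c : Subgroup.centralizer (Y : Set G), ∃ n ∈ X, ∃ a : Subgroup.centralizer (Y : Set G), c = n * a ∧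
        (a : G) ∈ A ∧ ∃ k : ℕ, (a : G) ^ 2 ^ k = 1) ∧
    ∀ g ∈ Subgroup.normalizer (Y : Set G), g * g ∈ Subgroup.centralizer (Y : Set G) := by
  haveI : Fact (Nat.Prime 2) := ⟨Nat.prime_two⟩
  set C := Subgroup.centralizer (Y : Set G) with hC
  have hAC : ∀ a ∈ A, a ∈ C := by
    intro a ha
    rw [hC, Subgroup.mem_centralizer_iff]
    intro y hy
    exact H.hab y (H.K_le (hY hy)) a ha
  have hcomm : ∀ c ∈ C, ∀ y ∈ Y, c * y = y * c := by
    intro c hc y hy
    exact (Subgroup.mem_centralizer_iff.1 hc y hy).symm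
  have huC : u ∈ C := hAC u H.tA
  -- a Sylow subgroup containing u
  have hz : IsPGroup 2 (Subgroup.zpowers (⟨u, huC⟩ : C)) := by
    rw [IsPGroup.iff_card]
    refine ⟨1, ?_⟩
    rw [Nat.card_zpowers, pow_one]
    apply orderOf_eq_prime
    · ext; simp [pow_two, H.tt]
    · intro h; exact H.t1 (congrArg Subtype.val h)
  obtain ⟨P, hP⟩ := hz.exists_le_sylow
  have huP : (⟨u, huC⟩ : C) ∈ P := hP (Subgroup.mem_zpowers _)
  have hPA : ∀ c : C, c ∈ P → (c : G) ∈ A := by
    intro c hc
    have h1 : (P : Subgroup C).map C.subtype ≤ A := by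
      apply two_le_A H hY hY1 (P.isPGroup'.map _)
      · rintro _ ⟨r, _, rfl⟩ y hy
        exact hcomm r r.2 y hy
      · exact ⟨_, huP, rfl⟩
    exact h1 ⟨c, hc, rfl⟩
  -- an element normalising P centralises u
  have hfix : ∀ g : G, (∀ c : C, c ∈ P → ∃ d : C, d ∈ P ∧ g * c * g⁻¹ = d) → g * u = u * g := by
    intro g hg
    obtain ⟨d, hd, hd'⟩ := hg _ huP
    have h1 := H.uniq (d : G) (hPA d hd) (by
      rw [← hd']
      calc g * u * g⁻¹ * (g * u * g⁻¹) = g * (u * u) * g⁻¹ := by group
        _ = 1 := by rw [H.tt]; group)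
    rw [← hd'] at h1
    rcases h1 with h1 | h1
    · exfalso; apply H.t1
      simpa using h1
    · exact mul_inv_eq_iff_eq_mul.1 h1
  have hburn : (Subgroup.normalizer (P : Set C)) ≤ Subgroup.centralizer (P : Set C) := by
    intro n hn
    have h1 : (n : G) * u = u * n := by
      apply hfix
      intro c hc
      exact ⟨n * c * n⁻¹, (Subgroup.mem_normalizer_iff.1 hn c).1 hc, rfl⟩
    have h2 : (n : G) ∈ A := cent_mem_A H hY hY1 h1 (hcomm n n.2)
    rw [Subgroup.mem_centralizer_iff]
    intro c hc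
    ext
    exact H.hab c (hPA c hc) n h2
  have hcompl := MonoidHom.ker_transferSylow_isComplement' P hburn
  have hnd := MonoidHom.not_dvd_card_ker_transferSylow P hburn
  refine ⟨⟨(MonoidHom.transferSylow P hburn).ker, inferInstance, hnd, ?_⟩, ?_⟩
  · intro c
    obtain ⟨⟨n, a⟩, hna⟩ := hcompl.2 c
    refine ⟨n, n.2, a, hna.symm, hPA a a.2, ?_⟩
    obtain ⟨k, hk⟩ := P.isPGroup' a
    exact ⟨k, by
      have := congrArg (fun w : P => (((w : C)) : G)) hk
      simpa using this⟩
  · intro g hg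
    -- C is normalised by g
    have hCg : ∀ g ∈ Subgroup.normalizer (Y : Set G), ∀ c ∈ C, g * c * g⁻¹ ∈ C := by
      intro g hg c hc
      rw [hC, Subgroup.mem_centralizer_iff]
      intro y hy
      have h1 : g⁻¹ * y * g ∈ Y := (Subgroup.mem_normalizer_iff''.1 hg y).1 hy
      have h2 := hcomm c hc _ h1
      calc y * (g * c * g⁻¹) = g * ((g⁻¹ * y * g) * c) * g⁻¹ := by group
        _ = g * (c * (g⁻¹ * y * g)) * g⁻¹ := by rw [h2]
        _ = g * c * g⁻¹ * y := by group
    -- the conjugate Sylow subgroup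
    let φ : C ≃* C :=
      { toFun := fun c => ⟨g * c * g⁻¹, hCg g hg c c.2⟩
        invFun := fun c => ⟨g⁻¹ * c * g, by
          have := hCg g⁻¹ (inv_mem hg) c c.2
          simpa using this⟩
        left_inv := by intro c; ext; simp [mul_assoc]
        right_inv := by intro c; ext; simp [mul_assoc]
        map_mul' := by intro a b; ext; simp [mul_assoc] }
    have hcard : Nat.card ((P : Subgroup C).map φ.toMonoidHom) = 2 ^ (Nat.card C).factorization 2 := by
      rw [Subgroup.card_map_of_injective φ.injective, P.card_eq_multiplicity]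
    obtain ⟨c, hc⟩ := MulAction.exists_smul_eq C P (Sylow.ofCard _ hcard)
    -- c⁻¹ g normalises P
    have h1 : (c : G)⁻¹ * g * u = u * ((c : G)⁻¹ * g) := by
      apply hfix
      intro d hd
      have h2 : φ d ∈ (c • P : Sylow 2 C) := by
        rw [hc]
        exact ⟨d, hd, rfl⟩
      rw [← SetLike.mem_coe, Sylow.coe_smul, Set.mem_smul_set] at h2
      obtain ⟨e, he, he'⟩ := h2
      refine ⟨e, he, ?_⟩
      have h3 : (φ d : G) = (c : G) * (e : G) * (c : G)⁻¹ := by
        rw [← he']; rfl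
      have h4 : (φ d : G) = g * d * g⁻¹ := rfl
      rw [h4] at h3
      calc (c : G)⁻¹ * g * d * ((c : G)⁻¹ * g)⁻¹ = (c : G)⁻¹ * (g * d * g⁻¹) * c := by group
        _ = (c : G)⁻¹ * ((c : G) * (e : G) * (c : G)⁻¹) * c := by rw [h3]
        _ = e := by group
    set n := (c : G)⁻¹ * g with hn
    have hg' : g = c * n := by rw [hn]; group
    have hnN : n ∈ Subgroup.normalizer (Y : Set G) := by
      rw [hn]
      refine mul_mem (inv_mem ?_) hg
      have : C ≤ Subgroup.normalizer (Y : Set G) := by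
        intro d hd
        rw [Subgroup.mem_normalizer_iff]
        intro y
        constructor
        · intro hy
          rw [hcomm d hd y hy, mul_inv_cancel_right]; exact hy
        · intro hy
          have h5 := hcomm d hd _ hy
          have h6 : d * y * d⁻¹ = y := by
            have h7 : d * (d * y * d⁻¹) = d * y := by
              rw [h5]; group
            exact mul_left_cancel h7
          rw [h6] at hy; exact hy
      exact this c.2
    have hn2 : n * n ∈ C := by
      rcases H.mem_or n h1 with h | ⟨a, ha, h⟩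
      · exact C.mul_mem (hAC n h) (hAC n h)
      · rw [h, H.ax_sq a ha]; exact C.one_mem
    rw [hg']
    have h8 : (c : G) * n * (c * n) = c * (n * c * n⁻¹) * (n * n) := by group
    rw [h8]
    exact C.mul_mem (C.mul_mem c.2 (hCg n hnN c c.2)) hn2

end NYs

/-- `1 ≠ Y ≤ K t`: the normaliser has a normal 2-complement, which centralises `Y`. -/
theorem ny (hP : PP G) {u v : G} (F : Four u v) {Y : Subgroup G} (hY : Y ≤ K u) (hY1 : Y ≠ ⊥) :
    OddNil (Subgroup.normalizer (Y : Set G)) ∧
      ∀ g ∈ Subgroup.normalizer (Y : Set G), Odd (orderOf g) → ∀ y ∈ Y, g * y = y * g := by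
  obtain ⟨A, x, H⟩ := hP u F.u1 F.uu
  obtain ⟨⟨X, hXn, hX2, hX⟩, hsq⟩ := NYs.struct H hY hY1
  have hodd : ∀ g ∈ Subgroup.normalizer (Y : Set G), Odd (orderOf g) → g ∈ Subgroup.centralizer (Y : Set G) := by
    intro g hg ho
    have h1 := hsq g hg
    rw [← pow_two] at h1
    have hcop : Nat.Coprime (orderOf g) 2 := (Nat.coprime_two_right).2 ho
    obtain ⟨m, hm⟩ := exists_pow_eq_self_of_coprime hcop.symm
    rw [← hm]
    exact Subgroup.pow_mem _ h1 m
  -- elements of odd order of the centraliser lie in X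
  have hoX : ∀ c : Subgroup.centralizer (Y : Set G), Odd (orderOf (c : G)) ↔ c ∈ X := by
    intro c
    constructor
    · intro ho
      obtain ⟨n, hn, a, hc, haA, k, hk⟩ := hX c
      -- in the quotient by X
      have h1 : (QuotientGroup.mk' X c) = QuotientGroup.mk' X a := by
        rw [hc, map_mul, (QuotientGroup.eq_one_iff n).2 hn |> (fun h => (h : QuotientGroup.mk' X n = 1)), one_mul]
      have h2 : (QuotientGroup.mk' X c) ^ 2 ^ k = 1 := by
        rw [h1, ← map_pow]
        have : a ^ 2 ^ k = 1 := by ext; simpa using hk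
        rw [this, map_one]
      have h3 : (QuotientGroup.mk' X c) ^ orderOf (c : G) = 1 := by
        rw [← map_pow]
        have : c ^ orderOf (c : G) = 1 := by ext; simpa using pow_orderOf_eq_one (c : G)
        rw [this, map_one]
      have h4 := orderOf_dvd_of_pow_eq_one h2
      have h5 := orderOf_dvd_of_pow_eq_one h3
      have h6 : Nat.Coprime (2 ^ k) (orderOf (c : G)) := Nat.Coprime.pow_left k (Nat.coprime_two_left.2 ho)
      have h7 : orderOf (QuotientGroup.mk' X c) = 1 := Nat.Coprime.eq_one_of_dvd (Nat.Coprime.coprime_dvd_left h4 h6) h5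
      exact (QuotientGroup.eq_one_iff c).1 (orderOf_eq_one_iff.1 h7)
    · intro hc
      have h1 : orderOf (⟨c, hc⟩ : X) ∣ Nat.card X := orderOf_dvd_natCard _
      rw [Subgroup.orderOf_mk, ← Subgroup.orderOf_coe] at h1
      refine Odd.of_dvd_nat ?_ h1
      rw [← Nat.not_even_iff_odd, even_iff_two_dvd]
      exact hX2
  refine ⟨?_, ?_⟩
  · intro a ha b hb hao hbo
    have ha' := hodd a ha hao
    have hb' := hodd b hb hbo
    have h1 := (hoX ⟨a, ha'⟩).1 hao
    have h2 := (hoX ⟨b, hb'⟩).1 hbo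
    exact (hoX (⟨a, ha'⟩ * ⟨b, hb'⟩)).2 (X.mul_mem h1 h2)
  · intro g hg ho y hy
    exact (Subgroup.mem_centralizer_iff.1 (hodd g hg ho) y hy).symm

/-- if the odd part of `N(⟨y⟩)` is `K u` for the element `y` of odd order, then `C(y) ≤ A` -/
theorem cy (hP : PP G) {A : Subgroup G} {u v : G} (H : Cen A u v) (F : Four u v) {y : G} (hy : y ∈ K u)
    (hy1 : y ≠ 1) (hO : OO (Subgroup.normalizer (Subgroup.zpowers y : Set G)) ≤ K u) {g : G} (hg : g * y = y * g) :
    g ∈ A := by
  have hY : Subgroup.zpowers y ≤ K u := by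
    rw [Subgroup.zpowers_le]; exact hy
  have hY1 : Subgroup.zpowers y ≠ ⊥ := by
    rw [ne_eq, Subgroup.zpowers_eq_bot]; exact hy1
  obtain ⟨⟨X, hXn, hX2, hX⟩, -⟩ := NYs.struct H hY hY1
  have hgC : g ∈ Subgroup.centralizer (Subgroup.zpowers y : Set G) := by
    rw [Subgroup.mem_centralizer_iff]
    intro z hz
    obtain ⟨m, rfl⟩ := Subgroup.mem_zpowers_iff.1 hz
    have h1 : Commute g y := hg
    exact (h1.zpow_right m).symm
  obtain ⟨n, hn, a, hc, haA, -⟩ := hX ⟨g, hgC⟩
  have h1 : g = (n : G) * a := congrArg Subtype.val hc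
  rw [h1]
  refine A.mul_mem ?_ haA
  apply H.K_le
  apply hO
  apply Subgroup.subset_closure
  refine ⟨?_, ?_⟩
  · rw [Subgroup.mem_normalizer_iff]
    intro z
    have h3 := fun w (hw : w ∈ (Subgroup.zpowers y : Set G)) => Subgroup.mem_centralizer_iff.1 n.2 w hw
    constructor
    · intro hz
      rw [← h3 z hz, mul_inv_cancel_right]; exact hz
    · intro hz
      have h5 := h3 _ hz
      have h6 : (n : G) * z * (n : G)⁻¹ = z := by
        have h7 : (n : G) * ((n : G) * z * (n : G)⁻¹) = n * z := by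
          rw [← h5]; group
        exact mul_left_cancel h7
      rw [h6] at hz; exact hz
  · have h2 : orderOf (⟨n, hn⟩ : X) ∣ Nat.card X := orderOf_dvd_natCard _
    rw [Subgroup.orderOf_mk, ← Subgroup.orderOf_coe] at h2
    refine Odd.of_dvd_nat ?_ h2
    rw [← Nat.not_even_iff_odd, even_iff_two_dvd]
    exact hX2

end Cfsg.Agent.GWP
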