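import Cfsg.Agent.GWP.QG

set_option autoImplicit false

namespace Cfsg.Agent.GWP
universe u
variable {G : Type u} [Group G] [Finite G]

theorem oddNil_normalizer (hP : PP G) {u v : G} (F : Four u v) {D : Subgroup G} (hD : Odd (Nat.card D))
    (hI : Inv u v D) (h1 : D ≠ ⊥) (hb : ∀ x ∈ D, x ∈ K u → x = 1) :
    OddNil (Subgroup.normalizer (D : Set G)) := by
  by_contra hL
  obtain ⟨e1, e2⟩ := QG.eqfix_sub hP F hL (Inv.mem_normalizer F.uu hI.1) (Inv.mem_normalizer F.vv hI.2)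
    (D := D) Subgroup.le_normalizer le_rfl hD
  have h2 : D ⊓ K u = ⊥ := by
    rw [eq_bot_iff]
    rintro x ⟨hx, hx'⟩
    rw [hb x hx hx']; exact one_mem _
  rw [h2, Subgroup.card_bot] at e1 e2
  have h3 : D ⊓ K v = ⊥ := Subgroup.card_eq_one.1 e1.symm
  have h4 : D ⊓ K (u * v) = ⊥ := Subgroup.card_eq_one.1 e2.symm
  exact h1 (le_bot_iff.1 (le_of_parts hP F hD hI h2.le h3.le h4.le))

end Cfsg.Agent.GWP
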