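import Cfsg.Agent.AutPSL.Lang
import Cfsg.Agent.AutLie.FixField
import Cfsg.Agent.H14.SubField
import Cfsg.Agent.JY.List

/-!
Identification of `PGL₂(q)` among the extensions of `PSL₂(q)` of degree two (used for S3322).
-/

set_option autoImplicit false

namespace Cfsg.Agent.GWP

open Matrix Cfsg.Agent.AutPSL

section act

variable {G : Type*} [Group G] {P : Type*} [Group P] (M : Subgroup G) [M.Normal] (e : M ≃* P)

/-- the action of `G` by conjugation on a normal subgroup, transported -/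
noncomputable def actHom : G →* MulAut P :=
  (MulAut.congr e).toMonoidHom.comp MulAut.conjNormal

theorem actHom_apply (g : G) (m : M) (hm : g * m * g⁻¹ ∈ M) : actHom M e g (e m) = e ⟨g * m * g⁻¹, hm⟩ := by
  change e (MulAut.conjNormal g (e.symm (e m))) = _
  rw [MulEquiv.symm_apply_apply]
  refine congrArg e (Subtype.ext ?_)
  rw [MulAut.conjNormal_apply]

theorem actHom_coe (m : M) : actHom M e (m : G) = MulAut.conj (e m) := by
  apply MulEquiv.ext
  intro x
  obtain ⟨n, rfl⟩ := e.surjective x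
  rw [actHom_apply M e _ n (M.mul_mem (M.mul_mem m.2 n.2) (M.inv_mem m.2)), MulAut.conj_apply, ← map_mul, ← map_inv,
    ← map_mul]
  rfl

theorem actHom_eq_one (g : G) (h : actHom M e g = 1) : g ∈ Subgroup.centralizer (M : Set G) := by
  rw [Subgroup.mem_centralizer_iff]
  intro m hm
  have h1 := actHom_apply M e g ⟨m, hm⟩ ((inferInstance : M.Normal).conj_mem m hm g)
  rw [h, MulAut.one_apply] at h1
  have h2 := congrArg Subtype.val (e.injective h1)
  change m = g * m * g⁻¹ at h2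
  rw [eq_mul_inv_iff_mul_eq] at h2
  exact h2

theorem actHom_injective (hC : Subgroup.centralizer (M : Set G) = ⊥) : Function.Injective (actHom M e) := by
  rw [injective_iff_map_eq_one]
  intro g hg
  have h := actHom_eq_one M e g hg
  rw [hC] at h
  exact Subgroup.mem_bot.1 h

theorem actHom_trans (g : G) (f : MulAut P) : actHom M (e.trans f) g = f * actHom M e g * f⁻¹ := rfl

end act

variable {F : Type*} [Field F]

theorem card_range_diagHom [Fintype F] (hodd : Odd (Fintype.card F)) :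
    Nat.card (diagHom 2 F).range = 2 * Nat.card (Matrix.ProjectiveSpecialLinearGroup (Fin 2) F) := by
  rw [Nat.card_congr (rangeDiagHomEquiv (F := F) (n := 2) le_rfl).toEquiv, H14.SubField.card_PGL2,
    H14.SubField.card_PSL2_odd hodd]

theorem pgl_of_field_trivial {G : Type*} [Group G] [Finite G] [Fintype F] (hodd : Odd (Fintype.card F)) (M : Subgroup G)
    [M.Normal] (hM : M.index = 2) (e : M ≃* Matrix.ProjectiveSpecialLinearGroup (Fin 2) F)
    (hC : Subgroup.centralizer (M : Set G) = ⊥) (h : ∀ g, ∃ B, actHom M e g = diagHom 2 F B) :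
    Nonempty (G ≃* Matrix.ProjGenLinGroup (Fin 2) F) := by
  have h1 : (actHom M e).range ≤ (diagHom 2 F).range := by
    rintro _ ⟨g, rfl⟩
    obtain ⟨B, hB⟩ := h g
    exact ⟨B, hB.symm⟩
  have h2 : Nat.card (actHom M e).range = Nat.card G :=
    (Nat.card_congr (MonoidHom.ofInjective (actHom_injective M e hC)).toEquiv).symm
  have h3 : Nat.card (diagHom 2 F).range = Nat.card G := by
    rw [card_range_diagHom hodd, ← Nat.card_congr e.toEquiv, ← hM, mul_comm]
    exact M.card_mul_index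
  have : Finite (diagHom 2 F).range := Nat.finite_of_card_ne_zero (by rw [h3]; exact Nat.card_pos.ne')
  have h4 : (actHom M e).range = (diagHom 2 F).range := Subgroup.eq_of_le_of_card_ge h1 (by rw [h2, h3])
  exact ⟨((MonoidHom.ofInjective (actHom_injective M e hC)).trans (MulEquiv.subgroupCongr h4)).trans
    (rangeDiagHomEquiv le_rfl)⟩

/-- `diag(a, a⁻¹)` -/
def dSL (a : Fˣ) : Matrix.SpecialLinearGroup (Fin 2) F :=
  ⟨!![(a : F), 0; 0, ((a⁻¹ : Fˣ) : F)], by rw [Matrix.det_fin_two_of, mul_zero, sub_zero, Units.mul_inv]⟩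

/-- the Weyl element -/
def wSL (F : Type*) [Field F] : Matrix.SpecialLinearGroup (Fin 2) F :=
  ⟨!![0, 1; -1, 0], by rw [Matrix.det_fin_two_of]; ring⟩

/-- the image of `diag(a, a⁻¹)` -/
def dP (a : Fˣ) : Matrix.ProjectiveSpecialLinearGroup (Fin 2) F := toPSL (dSL a)

/-- the image of the Weyl element -/
def wP (F : Type*) [Field F] : Matrix.ProjectiveSpecialLinearGroup (Fin 2) F := toPSL (wSL F)

theorem coe_dSL (a : Fˣ) : (dSL a : Matrix (Fin 2) (Fin 2) F) = !![(a : F), 0; 0, ((a⁻¹ : Fˣ) : F)] := rfl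
theorem coe_wSL : (wSL F : Matrix (Fin 2) (Fin 2) F) = !![0, 1; -1, 0] := rfl

theorem dSL_mul (a b : Fˣ) : dSL (a * b) = dSL a * dSL b := by
  apply Subtype.ext
  rw [Matrix.SpecialLinearGroup.coe_mul]
  change !![((a * b : Fˣ) : F), 0; 0, (((a * b)⁻¹ : Fˣ) : F)] = !![(a : F), 0; 0, ((a⁻¹ : Fˣ) : F)] * !![(b : F), 0; 0, ((b⁻¹ : Fˣ) : F)]
  rw [Matrix.mul_fin_two]
  simp [mul_comm]

theorem dP_mul (a b : Fˣ) : dP (a * b) = dP a * dP b := by
  unfold dP; rw [dSL_mul, map_mul]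

theorem dP_one : dP (1 : Fˣ) = 1 := by
  have h := dP_mul (1 : Fˣ) 1
  rw [mul_one] at h
  exact (left_eq_mul.1 h)

theorem dP_eq_iff (a b : Fˣ) : dP a = dP b ↔ (b = a ∨ b = -a) := by
  unfold dP
  rw [toPSL_eq_iff]
  constructor
  · rintro ⟨z, hz⟩
    have h0 := congrFun (congrFun hz 0) 0
    have h1 := congrFun (congrFun hz 1) 1
    have h0' : (b : F) = z * a := h0
    have h1' : ((b⁻¹ : Fˣ) : F) = z * ((a⁻¹ : Fˣ) : F) := h1
    have h2 : z * z = 1 := by
      have : (b : F) * ((b⁻¹ : Fˣ) : F) = (z * a) * (z * ((a⁻¹ : Fˣ) : F)) := by rw [← h0', ← h1']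
      rw [Units.mul_inv] at this
      calc z * z = (z * a) * (z * ((a⁻¹ : Fˣ) : F)) := by
            rw [mul_mul_mul_comm, Units.mul_inv, mul_one]
        _ = 1 := this.symm
    rcases mul_self_eq_one_iff.1 h2 with rfl | rfl
    · left; apply Units.ext; rw [h0', one_mul]
    · right; apply Units.ext; rw [h0']; simp
  · rintro (rfl | rfl)
    · exact ⟨1, by rw [one_smul]⟩
    · refine ⟨-1, ?_⟩
      rw [coe_dSL, coe_dSL]
      ext i j
      fin_cases i <;> fin_cases j <;> simp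

theorem wP_sq : wP F * wP F = 1 := by
  unfold wP
  rw [← map_mul, ← map_one (toPSL : Matrix.SpecialLinearGroup (Fin 2) F →* _), toPSL_eq_iff]
  refine ⟨-1, ?_⟩
  rw [Matrix.SpecialLinearGroup.coe_mul, coe_wSL, Matrix.mul_fin_two]
  ext i j
  fin_cases i <;> fin_cases j <;> simp

theorem wP_dP (a : Fˣ) : wP F * dP a = dP a⁻¹ * wP F := by
  unfold wP dP
  rw [← map_mul, ← map_mul]
  refine congrArg toPSL (Subtype.ext ?_)
  rw [Matrix.SpecialLinearGroup.coe_mul, Matrix.SpecialLinearGroup.coe_mul, coe_wSL, coe_dSL, coe_dSL,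
    Matrix.mul_fin_two, Matrix.mul_fin_two]
  simp

theorem wP_ne_dP (a : Fˣ) : wP F ≠ dP a := by
  unfold wP dP
  intro h
  obtain ⟨z, hz⟩ := toPSL_eq_iff.1 h
  have h0 := congrFun (congrFun hz 0) 0
  have h0' : (a : F) = z * 0 := h0
  rw [mul_zero] at h0'
  exact a.ne_zero h0'

theorem cAut_one_wP (σ : F ≃+* F) : cAut 1 σ (wP F) = wP F := by
  unfold wP
  rw [cAut_toPSL]
  refine congrArg toPSL (Subtype.ext ?_)
  rw [coe_conjSL, coe_mapSL, coe_wSL]
  ext i j
  fin_cases i <;> fin_cases j <;> simp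

/-- `diag(1, δ)` -/
def eGL (δ : Fˣ) : GL (Fin 2) F :=
  ⟨!![1, 0; 0, (δ : F)], !![1, 0; 0, ((δ⁻¹ : Fˣ) : F)], by
    rw [Matrix.mul_fin_two, Matrix.one_fin_two]; simp, by
    rw [Matrix.mul_fin_two, Matrix.one_fin_two]; simp⟩

theorem coe_eGL (δ : Fˣ) : (eGL δ : Matrix (Fin 2) (Fin 2) F) = !![1, 0; 0, (δ : F)] := rfl
theorem coe_eGL_inv (δ : Fˣ) : (((eGL δ)⁻¹ : GL (Fin 2) F) : Matrix (Fin 2) (Fin 2) F) = !![1, 0; 0, ((δ⁻¹ : Fˣ) : F)] := rfl

theorem map_two (σ : F ≃+* F) (a b c d : F) : (!![a, b; c, d]).map σ = !![σ a, σ b; σ c, σ d] := by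
  ext i j
  fin_cases i <;> fin_cases j <;> rfl

theorem cAut_eGL_dP (δ : Fˣ) (σ : F ≃+* F) (a : Fˣ) : cAut (eGL δ) σ (dP a) = dP (AutLie.uMap σ a) := by
  unfold dP
  rw [cAut_toPSL]
  refine congrArg toPSL (Subtype.ext ?_)
  rw [coe_conjSL, coe_mapSL, coe_dSL, coe_dSL, coe_eGL, coe_eGL_inv, map_two, Matrix.mul_fin_two, Matrix.mul_fin_two]
  simp [mul_comm]

theorem eGL_one : eGL (1 : Fˣ) = 1 := by
  apply Units.ext
  rw [coe_eGL]
  change _ = (1 : Matrix (Fin 2) (Fin 2) F)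
  rw [Matrix.one_fin_two]
  rfl

theorem cAut_one_dP (σ : F ≃+* F) (a : Fˣ) : cAut 1 σ (dP a) = dP (AutLie.uMap σ a) := by
  rw [← cAut_eGL_dP 1 σ a, eGL_one]

section actfix

variable {G : Type*} [Group G] {P : Type*} [Group P] (M : Subgroup G) [M.Normal] (e : M ≃* P)

theorem comm_of_act {g : G} {m : M} (h : actHom M e g (e m) = e m) : g * m = m * g := by
  rw [actHom_apply M e g m ((inferInstance : M.Normal).conj_mem m m.2 g)] at h
  have h1 : g * m * g⁻¹ = m := congrArg Subtype.val (e.injective h)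
  rwa [mul_inv_eq_iff_eq_mul] at h1

theorem act_of_comm {g : G} {m : M} (h : g * m = m * g) : actHom M e g (e m) = e m := by
  rw [actHom_apply M e g m ((inferInstance : M.Normal).conj_mem m m.2 g)]
  refine congrArg e (Subtype.ext ?_)
  change g * m * g⁻¹ = m
  rw [h, mul_inv_cancel_right]

end actfix

section field

variable {G : Type*} [Group G] [Fintype F] (M : Subgroup G) [M.Normal]

omit [Fintype F] in
theorem act_out (hM : M.index = 2) (e : M ≃* Matrix.ProjectiveSpecialLinearGroup (Fin 2) F) {h₀ : G} (h₀M : h₀ ∉ M)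
    {B : GL (Fin 2) F} {σ : F ≃+* F} (hB : actHom M e h₀ = cAut B σ) {y : G} (hy : y ∉ M) :
    ∃ B', actHom M e y = cAut B' σ := by
  have h1 : y * h₀⁻¹ ∈ M := by
    rw [Subgroup.mul_mem_iff_of_index_two hM, inv_mem_iff]
    exact iff_of_false hy h₀M
  obtain ⟨s, hs⟩ := toPSL_surjective (e ⟨y * h₀⁻¹, h1⟩)
  have h2 : actHom M e y = actHom M e ((⟨y * h₀⁻¹, h1⟩ : M) : G) * actHom M e h₀ := by
    rw [← map_mul]
    congr 1
    change y = y * h₀⁻¹ * h₀
    rw [inv_mul_cancel_right]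
  rw [actHom_coe, ← hs, conj_toPSL, hB, cAut_mul] at h2
  exact ⟨_, h2⟩

omit [Fintype F] in
theorem sigma_sq (hM : M.index = 2) (e : M ≃* Matrix.ProjectiveSpecialLinearGroup (Fin 2) F) {h₀ : G}
    {B : GL (Fin 2) F} {σ : RingAut F} (hB : actHom M e h₀ = cAut B σ) : σ * σ = 1 := by
  have h1 : h₀ * h₀ ∈ M := Subgroup.mul_self_mem_of_index_two hM h₀
  obtain ⟨s, hs⟩ := toPSL_surjective (e ⟨h₀ * h₀, h1⟩)
  have h2 : actHom M e ((⟨h₀ * h₀, h1⟩ : M) : G) = actHom M e h₀ * actHom M e h₀ := by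
    rw [← map_mul]
  rw [actHom_coe, ← hs, conj_toPSL, hB, cAut_mul, cAut_eq_iff (by rw [Fintype.card_fin])] at h2
  exact h2.1.symm

theorem card_sq {σ : RingAut F} (h1 : σ ≠ 1) (h2 : σ * σ = 1) : ∃ n, Fintype.card F = n ^ 2 := by
  obtain ⟨p, _, f, hp, hF⟩ := FiniteField.card' F
  have : Fact p.Prime := ⟨hp⟩
  have h3 : orderOf σ = 2 := orderOf_eq_prime (by rw [pow_two, h2]) h1
  have h4 := AutLie.orderOf_ringAut_dvd hF σ
  rw [h3] at h4
  obtain ⟨k, hk⟩ := h4
  exact ⟨p ^ k, by rw [hF, hk, mul_comm 2, pow_mul]⟩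

theorem exists_i {σ : RingAut F} (h1 : σ ≠ 1) (h2 : σ * σ = 1) : ∃ i : Fˣ, i * i = -1 := by
  obtain ⟨n, hn⟩ := card_sq h1 h2
  have h3 : IsSquare (-1 : F) := by
    rw [FiniteField.isSquare_neg_one_iff, hn, pow_two, Nat.mul_mod]
    have : n % 4 < 4 := Nat.mod_lt _ (by norm_num)
    interval_cases (n % 4) <;> simp
  obtain ⟨r, hr⟩ := h3
  have hr0 : r ≠ 0 := by rintro rfl; simp at hr
  exact ⟨Units.mk0 r hr0, by apply Units.ext; simp [← hr]⟩

omit [Fintype F] in
theorem dP_i_sq {i : Fˣ} (hi : i * i = -1) : dP i * dP i = 1 := by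
  rw [← dP_mul, hi, ← dP_one, dP_eq_iff]
  right; rw [neg_neg]

omit [Fintype F] in
theorem dP_i_inv {i : Fˣ} (hi : i * i = -1) : dP i⁻¹ = dP i := by
  rw [dP_eq_iff]
  right
  rw [← mul_left_inj i, hi, neg_mul, inv_mul_cancel]

omit [Fintype F] in
theorem dP_i_ne (h2 : (2 : F) ≠ 0) {i : Fˣ} (hi : i * i = -1) : dP i ≠ 1 := by
  rw [← dP_one]
  intro h
  rw [dP_eq_iff] at h
  have h3 : (i : F) * i = 1 := by
    rcases h with h | h
    · rw [← h]; simp
    · have : i = -1 := by rw [h, neg_neg]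
      rw [this]; simp
  have h4 : (i : F) * i = -1 := by
    have := congrArg Units.val hi
    simpa using this
  apply h2
  rw [h3] at h4
  linear_combination h4

theorem two_ne_zero_of_odd (hodd : Odd (Fintype.card F)) : (2 : F) ≠ 0 := by
  intro h
  have h1 : ringChar F = 2 := by
    have h3 : (((2 : ℕ) : F)) = 0 := by exact_mod_cast h
    have h4 := ringChar.dvd h3
    rcases (Nat.dvd_prime Nat.prime_two).1 h4 with h5 | h5
    · exact absurd h5 (CharP.ringChar_ne_one)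
    · exact h5
  have h2 := (FiniteField.even_card_iff_char_two (F := F)).1 h1
  rw [Nat.odd_iff] at hodd
  omega

/-- an involution outside `M` inducing a field automorphism centralises a four-group of `M` -/
theorem exists_four (hodd : Odd (Fintype.card F)) (hM : M.index = 2)
    (e : M ≃* Matrix.ProjectiveSpecialLinearGroup (Fin 2) F) {h₀ : G} (h₀M : h₀ ∉ M)
    {B : GL (Fin 2) F} {σ : RingAut F} (hB : actHom M e h₀ = cAut B σ) (hσ : σ ≠ 1)
    {j : G} (hjM : j ∉ M) (hj2 : j * j = 1) :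
    ∃ z ∈ M, ∃ w ∈ M, z ≠ 1 ∧ w ≠ 1 ∧ z ≠ w ∧ z * z = 1 ∧ w * w = 1 ∧ z * w = w * z ∧ j * z = z * j ∧ j * w = w * j := by
  have hσ2 := sigma_sq M hM e hB
  have hord : orderOf σ = 2 := orderOf_eq_prime (by rw [pow_two, hσ2]) hσ
  obtain ⟨B', hB'⟩ := act_out M hM e h₀M hB hjM
  obtain ⟨C, hCC⟩ := field_lang le_rfl σ B' (by
    rw [diagHom_apply, ← cAut_eq, ← hB', hord, ← map_pow, pow_two, hj2, map_one])
  rw [diagHom_apply B', ← cAut_eq, ← hB'] at hCC
  have h1 : actHom M (e.trans (diagHom 2 F C)⁻¹) j = cAut 1 σ := by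
    rw [actHom_trans, hCC]; group
  obtain ⟨i, hi⟩ := exists_i hσ hσ2
  have hσi : AutLie.uMap σ i = i ∨ AutLie.uMap σ i = -i := by
    have : AutLie.uMap σ i * AutLie.uMap σ i = i * i := by
      rw [← map_mul, hi]
      apply Units.ext
      simp
    have h3 : (AutLie.uMap σ i : F) * (AutLie.uMap σ i : F) = (i : F) * i := congrArg Units.val this
    rcases mul_self_eq_mul_self_iff.1 h3 with h3 | h3
    · left; exact Units.ext h3
    · right; exact Units.ext h3
  set e' := e.trans (diagHom 2 F C)⁻¹ with he'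
  have hz : j * (e'.symm (dP i) : M) = (e'.symm (dP i) : M) * j := by
    apply comm_of_act M e'
    rw [h1, MulEquiv.apply_symm_apply, cAut_one_dP, dP_eq_iff]
    rcases hσi with h | h
    · left; exact h.symm
    · right; rw [h, neg_neg]
  have hw : j * (e'.symm (wP F) : M) = (e'.symm (wP F) : M) * j := by
    apply comm_of_act M e'
    rw [h1, MulEquiv.apply_symm_apply, cAut_one_wP]
  have h20 : (2 : F) ≠ 0 := two_ne_zero_of_odd hodd
  set z := e'.symm (dP i) with hzd
  set w := e'.symm (wP F) with hwd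
  have hzz : (z : G) * z = 1 := by
    have h4 : z * z = 1 := by
      rw [hzd, ← map_mul, dP_i_sq hi, map_one]
    exact congrArg Subtype.val h4
  have hww : (w : G) * w = 1 := by
    have h4 : w * w = 1 := by
      rw [hwd, ← map_mul, wP_sq, map_one]
    exact congrArg Subtype.val h4
  have hwz : (w : G) * z = z * w := by
    have h4 : w * z = z * w := by
      rw [hwd, hzd, ← map_mul, ← map_mul, wP_dP, dP_i_inv hi]
    exact congrArg Subtype.val h4
  have hz1 : (z : G) ≠ 1 := by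
    intro h4
    have h5 : z = 1 := Subtype.ext h4
    rw [hzd, MulEquiv.map_eq_one_iff] at h5
    exact dP_i_ne h20 hi h5
  have hzw1 : (z : G) ≠ w := by
    intro h4
    have h5 : z = w := Subtype.ext h4
    rw [hzd, hwd] at h5
    exact wP_ne_dP i (e'.symm.injective h5).symm
  have hw1 : (w : G) ≠ 1 := by
    intro h4
    have h5 : w = 1 := Subtype.ext h4
    rw [hwd, MulEquiv.map_eq_one_iff, ← dP_one] at h5
    exact wP_ne_dP _ h5
  exact ⟨z, z.2, w, w.2, hz1, hw1, hzw1, hzz, hww, hwz.symm, hz, hw⟩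

/-- no involution outside `M` -/
theorem no_field_out (hodd : Odd (Fintype.card F)) (hM : M.index = 2)
    (e : M ≃* Matrix.ProjectiveSpecialLinearGroup (Fin 2) F) {h₀ : G} (h₀M : h₀ ∉ M)
    {B : GL (Fin 2) F} {σ : RingAut F} (hB : actHom M e h₀ = cAut B σ) (hσ : σ ≠ 1)
    {A : Subgroup G} {j x : G} (hjM : j ∉ M)
    (hj2 : j * j = 1) (huniq : ∀ y ∈ A, y ≠ 1 → y * y = 1 → y = j)
    (hC : ∀ y : G, y * j = j * y → y ∈ A ∨ y * x ∈ A) : False := by
  obtain ⟨z, hzM, w, hwM, hz1, hw1, hzw1, hzz, hww, hwz, hz, hw⟩ := exists_four M hodd hM e h₀M hB hσ hjM hj2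
  have hzA : z * x ∈ A := (hC z hz.symm).resolve_left fun h4 => hjM (huniq _ h4 hz1 hzz ▸ hzM)
  have hwA : w * x ∈ A := (hC w hw.symm).resolve_left fun h4 => hjM (huniq _ h4 hw1 hww ▸ hwM)
  have hzwA : z * w ∈ A := by
    have h5 := A.mul_mem hzA (A.inv_mem hwA)
    rwa [_root_.mul_inv_rev, mul_assoc, mul_inv_cancel_left, inv_eq_of_mul_eq_one_right hww] at h5
  have h6 := huniq _ hzwA (fun h => hzw1 (by rw [eq_inv_of_mul_eq_one_left h, inv_eq_of_mul_eq_one_right hww]))
    (by rw [mul_assoc, ← mul_assoc w, ← hwz, mul_assoc z, hww, mul_one, hzz])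
  exact hjM (h6 ▸ M.mul_mem hzM hwM)

theorem exists_gen : ∃ ζ : Fˣ, ∀ c : Fˣ, ∃ k : ℕ, ζ ^ k = c := by
  obtain ⟨ζ, hζ⟩ := IsCyclic.exists_generator (α := Fˣ)
  refine ⟨ζ, fun c => ?_⟩
  obtain ⟨k, hk⟩ := mem_powers_iff_mem_zpowers.2 (hζ c)
  exact ⟨k, hk⟩

/-- the generator does not have order dividing four -/
theorem gen_pow_four (hodd : Odd (Fintype.card F)) (h3 : 3 < Fintype.card F) {σ : RingAut F} (h1 : σ ≠ 1)
    (h2 : σ * σ = 1) {ζ : Fˣ} (hζ : ∀ c : Fˣ, ∃ k : ℕ, ζ ^ k = c) : ζ ^ 4 ≠ 1 := by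
  intro h
  obtain ⟨n, hn⟩ := card_sq h1 h2
  have h4 : Nat.card Fˣ ≤ 4 := by
    have h5 : orderOf ζ = Nat.card Fˣ := orderOf_eq_card_of_forall_mem_zpowers (fun c => by
      obtain ⟨k, hk⟩ := hζ c
      exact ⟨k, by simpa using hk⟩)
    have h6 : orderOf ζ ≤ 4 := Nat.le_of_dvd (by norm_num) (orderOf_dvd_of_pow_eq_one h)
    rwa [h5] at h6
  rw [Nat.card_units, Nat.card_eq_fintype_card] at h4
  have h7 : n ≤ 2 := by
    by_contra h8
    have : 3 ^ 2 ≤ n ^ 2 := Nat.pow_le_pow_left (by omega) 2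
    omega
  rw [hn] at hodd h3
  interval_cases n
  · omega
  · omega
  · exact absurd hodd (by decide)

omit [Fintype F] in
/-- squares fixed implies trivial -/
theorem sigma_eq_one_of_sq (h2 : (2 : F) ≠ 0) {σ : RingAut F} (h : ∀ c : Fˣ, AutLie.uMap σ (c * c) = c * c) : σ = 1 := by
  have h1 : ∀ c : F, σ (c * c) = c * c := by
    intro c
    by_cases hc : c = 0
    · rw [hc, mul_zero, map_zero]
    · have := congrArg Units.val (h (Units.mk0 c hc))
      simpa using this
  have h3 : ∀ a : F, σ (4 * a) = 4 * a := by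
    intro a
    have e1 : (4 : F) * a = (a + 1) * (a + 1) - (a - 1) * (a - 1) := by ring
    rw [e1, map_sub, h1, h1]
  have h4 : σ (4 : F) = 4 := by
    have := h3 1
    rwa [mul_one] at this
  apply RingEquiv.ext
  intro a
  have h5 := h3 a
  rw [map_mul, h4] at h5
  have h40 : (4 : F) ≠ 0 := by
    have : (4 : F) = 2 * 2 := by norm_num
    rw [this]; exact mul_ne_zero h2 h2
  exact mul_left_cancel₀ h40 h5

/-- not all norms are trivial -/
theorem not_norm_one (h2 : (2 : F) ≠ 0) (h3 : 3 < Fintype.card F) {σ : RingAut F}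
    (h : ∀ c : Fˣ, c * AutLie.uMap σ c = 1) : False := by
  have h1 : ∀ c : F, c ≠ 0 → c * σ c = 1 := by
    intro c hc
    have := congrArg Units.val (h (Units.mk0 c hc))
    simpa using this
  have key : ∀ c : F, c ≠ 0 → c + 1 ≠ 0 → c * c + c + 1 = 0 := by
    intro c hc hc1
    have e1 := h1 c hc
    have e2 := h1 (c + 1) hc1
    rw [map_add, map_one] at e2
    have e3 : c + σ c + 1 = 0 := by linear_combination e2 - e1
    linear_combination c * e3 - e1
  have k1 := key 1 one_ne_zero (by rw [one_add_one_eq_two]; exact h2)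
  classical
  have : ∃ c : F, c ∉ ({0, -1, 1} : Finset F) := by
    by_contra hcon
    push Not at hcon
    have hle : Fintype.card F ≤ ({0, -1, 1} : Finset F).card := by
      rw [← Finset.card_univ]
      exact Finset.card_le_card fun c _ => hcon c
    have := Finset.card_le_three (a := (0 : F)) (b := -1) (c := 1)
    omega
  obtain ⟨c, hc⟩ := this
  simp only [Finset.mem_insert, Finset.mem_singleton, not_or] at hc
  have k2 := key c hc.1 (fun h4 => hc.2.1 (eq_neg_of_add_eq_zero_left h4))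
  have k3 : (c - 1) * (c - 1) = 0 := by linear_combination k2 - c * k1
  have k4 := mul_self_eq_zero.1 k3
  exact hc.2.2 (sub_eq_zero.1 k4)

omit [Fintype F] in
theorem conj_cAut (C B : GL (Fin 2) F) (σ : RingAut F) :
    ∃ B', diagHom 2 F C * cAut B σ * (diagHom 2 F C)⁻¹ = cAut B' σ := by
  rw [← map_inv, diagHom_apply, diagHom_apply, cAut_mul, cAut_mul]
  exact ⟨_, rfl⟩

omit [Fintype F] in
theorem exists_diag (e : M ≃* Matrix.ProjectiveSpecialLinearGroup (Fin 2) F) {h₀ : G} (h₀M : h₀ ∉ M)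
    {B : GL (Fin 2) F} {σ : RingAut F} (hB : actHom M e h₀ = cAut B σ) :
    ∃ g : G, g ∉ M ∧ ∃ δ : Fˣ, actHom M e g = cAut (eGL δ) σ := by
  have hdet : ((eGL (Matrix.GeneralLinearGroup.det B) * B⁻¹ : GL (Fin 2) F) : Matrix (Fin 2) (Fin 2) F).det = 1 := by
    have h1 : Matrix.GeneralLinearGroup.det (eGL (Matrix.GeneralLinearGroup.det B)) = Matrix.GeneralLinearGroup.det B := by
      apply Units.ext
      rw [Matrix.GeneralLinearGroup.val_det_apply, coe_eGL, Matrix.det_fin_two_of]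
      simp
    have h2 : Matrix.GeneralLinearGroup.det (eGL (Matrix.GeneralLinearGroup.det B) * B⁻¹) = 1 := by
      rw [map_mul, h1, map_inv, mul_inv_cancel]
    exact congrArg Units.val h2
  let s : Matrix.SpecialLinearGroup (Fin 2) F := ⟨_, hdet⟩
  have hs : Matrix.SpecialLinearGroup.toGL s = eGL (Matrix.GeneralLinearGroup.det B) * B⁻¹ := by
    apply Units.ext; rfl
  refine ⟨(e.symm (toPSL s) : G) * h₀, fun h => h₀M ?_, Matrix.GeneralLinearGroup.det B, ?_⟩
  · exact (M.mul_mem_cancel_left (e.symm (toPSL s)).2).1 h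
  · rw [map_mul, actHom_coe, MulEquiv.apply_symm_apply, conj_toPSL, hs, hB, cAut_mul]
    have h3 : mapGL (RingEquiv.refl F) B = B := by apply Units.ext; ext i j; rfl
    rw [h3, inv_mul_cancel_right]
    rfl

/-- the extension by field type element: centraliser of an involution of `M` -/
theorem no_field_in (hodd : Odd (Fintype.card F)) (h3 : 3 < Fintype.card F) (hM : M.index = 2)
    (e₀ : M ≃* Matrix.ProjectiveSpecialLinearGroup (Fin 2) F) {h₀ : G} (h₀M : h₀ ∉ M)
    {B : GL (Fin 2) F} {σ : RingAut F} (hB : actHom M e₀ h₀ = cAut B σ) (hσ : σ ≠ 1)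
    {A : Subgroup G} {j x : G} (hab : ∀ a ∈ A, ∀ b ∈ A, a * b = b * a) (hjM : j ∈ M) (hj1 : j ≠ 1)
    (hj2 : j * j = 1) (huniq : ∀ y ∈ A, y ≠ 1 → y * y = 1 → y = j)
    (hx2 : x * x = 1) (hinv : ∀ a ∈ A, x * a * x = a⁻¹)
    (hC : ∀ y : G, y * j = j * y → y ∈ A ∨ y * x ∈ A) : False := by
  have hσ2 := sigma_sq M hM e₀ hB
  obtain ⟨i, hi⟩ := exists_i hσ hσ2
  have h20 : (2 : F) ≠ 0 := two_ne_zero_of_odd hodd
  have hσi : AutLie.uMap σ i = i ∨ AutLie.uMap σ i = -i := by
    have : AutLie.uMap σ i * AutLie.uMap σ i = i * i := by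
      rw [← map_mul, hi]
      apply Units.ext
      simp
    have h3 : (AutLie.uMap σ i : F) * (AutLie.uMap σ i : F) = (i : F) * i := congrArg Units.val this
    rcases mul_self_eq_mul_self_iff.1 h3 with h3 | h3
    · left; exact Units.ext h3
    · right; exact Units.ext h3
  -- choose coordinates with `j = diag(i, -i)`
  obtain ⟨e, B₁, hej, hB₁⟩ : ∃ (e : M ≃* Matrix.ProjectiveSpecialLinearGroup (Fin 2) F) (B₁ : GL (Fin 2) F),
      e ⟨j, hjM⟩ = dP i ∧ actHom M e h₀ = cAut B₁ σ := by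
    have o1 : orderOf (e₀ ⟨j, hjM⟩) = 2 := by
      apply orderOf_eq_prime
      · rw [pow_two, ← map_mul]
        have : (⟨j, hjM⟩ : M) * ⟨j, hjM⟩ = 1 := Subtype.ext hj2
        rw [this, map_one]
      · intro h
        rw [MulEquiv.map_eq_one_iff] at h
        exact hj1 (congrArg Subtype.val h)
    have o2 : orderOf (dP i : Matrix.ProjectiveSpecialLinearGroup (Fin 2) F) = 2 := by
      apply orderOf_eq_prime
      · rw [pow_two, dP_i_sq hi]
      · exact dP_i_ne h20 hi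
    obtain ⟨g, hg⟩ := JY.psl2_one_class _ _ o1 o2
    obtain ⟨s, rfl⟩ := toPSL_surjective g
    obtain ⟨B₁, hB₁⟩ := conj_cAut (Matrix.SpecialLinearGroup.toGL s) B σ
    refine ⟨e₀.trans (MulAut.conj (toPSL s)), B₁, hg, ?_⟩
    rw [actHom_trans, conj_toPSL, hB]
    exact hB₁
  obtain ⟨g, hgM, δ, hδ⟩ := exists_diag M e h₀M hB₁
  have hjt : ((e.symm (dP i) : M) : G) = j := by
    rw [← hej, MulEquiv.symm_apply_apply]
  obtain ⟨t, ht⟩ : ∃ t : Fˣ →* G, ∀ a, t a = (e.symm (dP a) : M) := by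
    refine ⟨MonoidHom.mk' (fun a => ((e.symm (dP a) : M) : G)) ?_, fun _ => rfl⟩
    intro a b
    rw [dP_mul, map_mul]; rfl
  have htM : ∀ a, t a ∈ M := fun a => by rw [ht]; exact (e.symm (dP a)).2
  have hti : t i = j := by rw [ht, hjt]
  have htj : ∀ a, t a * j = j * t a := by
    intro a
    rw [← hti, ← map_mul, ← map_mul, mul_comm]
  have ht_eq : ∀ a b, t a = t b → (b = a ∨ b = -a) := by
    intro a b h
    rw [ht, ht] at h
    exact (dP_eq_iff a b).1 (e.symm.injective (Subtype.ext h))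
  obtain ⟨w, hw⟩ : ∃ w : G, w = (e.symm (wP F) : M) := ⟨_, rfl⟩
  have hww : w * w = 1 := by
    have : (e.symm (wP F)) * (e.symm (wP F)) = 1 := by rw [← map_mul, wP_sq, map_one]
    rw [hw]; exact congrArg Subtype.val this
  have hwt : ∀ a, w * t a = (t a)⁻¹ * w := by
    intro a
    have : (e.symm (wP F)) * (e.symm (dP a)) = (e.symm (dP a⁻¹)) * (e.symm (wP F)) := by
      rw [← map_mul, ← map_mul, wP_dP]
    have h4 := congrArg Subtype.val this
    rw [← map_inv, ht a, ht a⁻¹, hw]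
    exact h4
  have hwj : w * j = j * w := by
    rw [← hti, hwt, ← map_inv]
    congr 1
    rw [ht, ht, dP_i_inv hi]
  have hgt : ∀ a, g * t a = t (AutLie.uMap σ a) * g := by
    intro a
    have h4 := actHom_apply M e g (e.symm (dP a)) ((inferInstance : M.Normal).conj_mem _ (e.symm (dP a)).2 g)
    rw [MulEquiv.apply_symm_apply, hδ, cAut_eGL_dP] at h4
    have h5 := congrArg Subtype.val ((MulEquiv.symm_apply_eq e).2 h4)
    change ((e.symm (dP (AutLie.uMap σ a)) : M) : G) = g * (e.symm (dP a) : M) * g⁻¹ at h5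
    rw [ht, ht, h5, inv_mul_cancel_right]
  have hgj : g * j = j * g := by
    rw [← hti, hgt]
    congr 1
    rcases hσi with h | h
    · rw [h]
    · rw [h, ht, ht]
      have : dP (-i) = dP i := (dP_eq_iff _ _).2 (Or.inr (neg_neg i).symm)
      rw [this]
  obtain ⟨ζ, hζ⟩ := exists_gen (F := F)
  have hζ4 := gen_pow_four hodd h3 hσ hσ2 hζ
  have hout : ∀ y, y * x ∈ A → y * y = 1 := by
    intro y hy
    have h4 := hinv _ hy
    have hxi : x⁻¹ = x := inv_eq_of_mul_eq_one_right hx2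
    rw [_root_.mul_inv_rev, hxi, ← mul_assoc, mul_assoc (x * y), hx2, mul_one, mul_left_cancel_iff] at h4
    nth_rw 2 [h4]
    rw [mul_inv_cancel]
  have htζ : t ζ ≠ (t ζ)⁻¹ := by
    intro h
    rw [← map_inv] at h
    apply hζ4
    rcases ht_eq _ _ h with h4 | h4
    · have : ζ ^ 2 = 1 := by rw [pow_two]; nth_rw 1 [← h4]; rw [inv_mul_cancel]
      calc ζ ^ 4 = (ζ ^ 2) ^ 2 := by rw [← pow_mul]
        _ = 1 := by rw [this, one_pow]
    · have : ζ ^ 2 = -1 := by
        rw [pow_two]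
        have h5 : ζ = -ζ⁻¹ := by rw [h4, neg_neg]
        nth_rw 1 [h5]
        rw [neg_mul, inv_mul_cancel]
      calc ζ ^ 4 = (ζ ^ 2) ^ 2 := by rw [← pow_mul]
        _ = 1 := by rw [this]; simp
  have htζA : t ζ ∈ A := by
    refine (hC _ (htj ζ)).resolve_right fun h4 => htζ ?_
    exact eq_inv_of_mul_eq_one_left (hout _ h4)
  have htA : ∀ a, t a ∈ A := by
    intro a
    obtain ⟨k, rfl⟩ := hζ a
    rw [map_pow]; exact A.pow_mem htζA k
  have hwA : w * x ∈ A := by
    refine (hC _ hwj).resolve_left fun h4 => htζ ?_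
    have h5 := hab _ h4 _ htζA
    rw [hwt] at h5
    exact (mul_right_cancel h5).symm
  have hgA : g * x ∈ A := by
    refine (hC _ hgj).resolve_left fun h4 => hσ ?_
    have h5 := hab _ h4 _ htζA
    rw [hgt] at h5
    have h6 := mul_right_cancel h5
    have h7 : AutLie.uMap σ (ζ * ζ) = ζ * ζ := by
      rw [map_mul]
      rcases ht_eq _ _ h6 with h8 | h8
      · rw [← h8]
      · nth_rw 3 4 [h8]; rw [neg_mul_neg]
    apply sigma_eq_one_of_sq h20
    intro c
    obtain ⟨k, rfl⟩ := hζ c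
    rw [← mul_pow, map_pow, h7]
  have hgg : g * g = 1 := hout _ hgA
  have hta2 : ∀ a, (t a * g) * (t a * g) = 1 := by
    intro a
    apply hout
    rw [mul_assoc]
    exact A.mul_mem (htA a) hgA
  have hN2 : ∀ a : Fˣ, (a * AutLie.uMap σ a) ^ 2 = 1 := by
    intro a
    have h4 := hta2 a
    rw [mul_assoc, ← mul_assoc g, hgt, mul_assoc, hgg, mul_one, ← map_mul] at h4
    rw [← map_one t] at h4
    rcases ht_eq _ _ h4 with h5 | h5
    · rw [← h5]; simp
    · have : a * AutLie.uMap σ a = -1 := by rw [h5, neg_neg]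
      rw [this]; simp
  have hNδ : δ * AutLie.uMap σ δ = 1 := by
    have h4 : actHom M e (g * g) = 1 := by rw [hgg, map_one]
    rw [map_mul, hδ, cAut_mul, cAut_eq_one_iff (by rw [Fintype.card_fin])] at h4
    obtain ⟨_, c, hc⟩ := h4
    have h5 := congrArg (fun y : GL (Fin 2) F => (y : Matrix (Fin 2) (Fin 2) F)) hc
    simp only [Units.val_mul, coe_mapGL, coe_eGL, map_two, Matrix.mul_fin_two, Matrix.GeneralLinearGroup.coe_scalar,
      Matrix.scalar_apply] at h5
    have h6 := congrFun (congrFun h5 0) 0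
    have h7 := congrFun (congrFun h5 1) 1
    simp at h6 h7
    apply Units.ext
    rw [Units.val_mul, AutLie.coe_uMap, h7, ← h6, Units.val_one]
  obtain ⟨k, hk⟩ := hζ δ
  rcases Nat.even_or_odd k with ⟨m, rfl⟩ | ⟨m, rfl⟩
  · -- `δ` is a square
    have hb : (ζ ^ m) * (ζ ^ m) = δ := by rw [← pow_add, hk]
    obtain ⟨v, hv⟩ : ∃ v, v = t (ζ ^ m) * g := ⟨_, rfl⟩
    have hvact : actHom M e v = cAut 1 σ := by
      rw [hv, map_mul, hδ, ht, actHom_coe, MulEquiv.apply_symm_apply]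
      unfold dP
      rw [conj_toPSL, cAut_mul, cAut_eq_iff (by rw [Fintype.card_fin])]
      refine ⟨rfl, ζ ^ m, ?_⟩
      apply Units.ext
      rw [one_mul, Units.val_mul, Matrix.GeneralLinearGroup.coe_scalar, Matrix.scalar_apply]
      change (dSL (ζ ^ m) : Matrix (Fin 2) (Fin 2) F) * (eGL δ : Matrix (Fin 2) (Fin 2) F).map (RingEquiv.refl F) = _
      rw [coe_dSL, coe_eGL, map_two, Matrix.mul_fin_two, ← hb]
      ext i j
      fin_cases i <;> fin_cases j <;> simp
    have hvw : v * w = w * v := by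
      rw [hw]
      apply comm_of_act M e
      rw [MulEquiv.apply_symm_apply, hvact, cAut_one_wP]
    have hvv : v * v = 1 := by rw [hv]; exact hta2 _
    have hwvM : w * v ∉ M := by
      intro h
      have h1 : v ∈ M := (M.mul_mem_cancel_left (by rw [hw]; exact (e.symm (wP F)).2)).1 h
      rw [hv, M.mul_mem_cancel_left (htM _)] at h1
      exact hgM h1
    have hwvA : w * v ∈ A := by
      have h4 : v * x ∈ A := by
        rw [hv, mul_assoc]; exact A.mul_mem (htA _) hgA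
      have h5 := A.mul_mem hwA (A.inv_mem h4)
      rwa [_root_.mul_inv_rev, mul_assoc, mul_inv_cancel_left, inv_eq_of_mul_eq_one_right hvv] at h5
    have h6 := huniq _ hwvA (fun h => hwvM (h ▸ M.one_mem))
      (by rw [mul_assoc, ← mul_assoc v, hvw, mul_assoc w v, hvv, mul_one, hww])
    exact hwvM (h6 ▸ hjM)
  · -- `δ` is not a square
    have hN : ∀ a : Fˣ, ∀ l : ℕ, (a ^ l) * AutLie.uMap σ (a ^ l) = (a * AutLie.uMap σ a) ^ l := by
      intro a l
      rw [map_pow, mul_pow]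
    have h4 := hN ζ (2 * m + 1)
    rw [hk, hNδ, pow_succ, pow_mul, hN2, one_pow, one_mul] at h4
    apply not_norm_one h20 h3 (σ := σ)
    intro c
    obtain ⟨l, rfl⟩ := hζ c
    rw [hN, ← h4, one_pow]

end field

/-- If the field part is trivial we get `PGL₂`, otherwise there is a suitable element. -/
theorem pgl_or_field {G : Type*} [Group G] [Finite G] [Fintype F] (hodd : Odd (Fintype.card F)) (M : Subgroup G)
    [M.Normal] (hM : M.index = 2) (e : M ≃* Matrix.ProjectiveSpecialLinearGroup (Fin 2) F)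
    (hC : Subgroup.centralizer (M : Set G) = ⊥) :
    Nonempty (G ≃* Matrix.ProjGenLinGroup (Fin 2) F) ∨
      ∃ h₀ ∉ M, ∃ (B : GL (Fin 2) F) (σ : RingAut F), σ ≠ 1 ∧ actHom M e h₀ = cAut B σ := by
  by_cases h : ∀ g, ∃ B, actHom M e g = diagHom 2 F B
  · left; exact pgl_of_field_trivial hodd M hM e hC h
  · right
    push Not at h
    obtain ⟨h₀, hh⟩ := h
    obtain ⟨B, σ, h2 | ⟨h4, -⟩⟩ := aut_classify le_rfl (actHom M e h₀)
    · refine ⟨h₀, fun h₀M => ?_, B, σ, ?_, h2⟩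
      · obtain ⟨s, hs⟩ := toPSL_surjective (e ⟨h₀, h₀M⟩)
        apply hh (Matrix.SpecialLinearGroup.toGL s)
        have := actHom_coe M e ⟨h₀, h₀M⟩
        rw [← hs, conj_toPSL] at this
        exact this
      · rintro rfl
        exact hh B h2
    · omega

/-- **Identification of `PGL₂(q)`**, first form. -/
theorem pgl_of_index_two {G : Type*} [Group G] [Finite G] (M : Subgroup G) (hM : M.index = 2)
    {F : Type*} [Field F] [Fintype F] (hq : 3 < Fintype.card F) (hodd : Odd (Fintype.card F))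
    (e : M ≃* Matrix.ProjectiveSpecialLinearGroup (Fin 2) F)
    (hCM : Subgroup.centralizer (M : Set G) = ⊥) {A : Subgroup G} {j x : G}
    (hab : ∀ a ∈ A, ∀ b ∈ A, a * b = b * a) (hj1 : j ≠ 1) (hj2 : j * j = 1)
    (huniq : ∀ y ∈ A, y ≠ 1 → y * y = 1 → y = j) (hx2 : x * x = 1) (hinv : ∀ a ∈ A, x * a * x = a⁻¹)
    (hC : ∀ y : G, y * j = j * y → y ∈ A ∨ y * x ∈ A) :
    Nonempty (G ≃* Matrix.ProjGenLinGroup (Fin 2) F) := by
  have hMn : M.Normal := Subgroup.normal_of_index_eq_two hM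
  rcases pgl_or_field hodd M hM e hCM with h | ⟨h₀, h₀M, B, σ, hσ, hB⟩
  · exact h
  · exfalso
    by_cases hjM : j ∈ M
    · exact no_field_in M hodd hq hM e h₀M hB hσ hab hjM hj1 hj2 huniq hx2 hinv hC
    · exact no_field_out M hodd hM e h₀M hB hσ hjM hj2 huniq hC

/-- **Identification of `PGL₂(q)`**, second form. -/
theorem pgl_of {G : Type*} [Group G] [Finite G] (M : Subgroup G) (hi : M.index = 2)
    {F : Type*} [Field F] [Fintype F] (hF : Odd (Fintype.card F))
    (e : M ≃* Matrix.ProjectiveSpecialLinearGroup (Fin 2) F)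
    (hC : ∀ g : G, (∀ m ∈ M, g * m = m * g) → g = 1) {y : G} (hy : y ∉ M) (hyy : y * y = 1)
    (hE : ∀ a ∈ M, ∀ b ∈ M, a ≠ 1 → b ≠ 1 → a ≠ b → a * a = 1 → b * b = 1 → a * b = b * a →
      y * a = a * y → y * b = b * y → False) :
    Nonempty (G ≃* Matrix.ProjGenLinGroup (Fin 2) F) := by
  have hMn : M.Normal := Subgroup.normal_of_index_eq_two hi
  have hCM : Subgroup.centralizer (M : Set G) = ⊥ := by
    rw [eq_bot_iff]
    intro g hg
    rw [Subgroup.mem_bot]
    exact hC g fun m hm => ((Subgroup.mem_centralizer_iff.1 hg) m hm).symm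
  rcases pgl_or_field hF M hi e hCM with h | ⟨h₀, h₀M, B, σ, hσ, hB⟩
  · exact h
  · exfalso
    obtain ⟨z, hzM, w, hwM, hz1, hw1, hzw1, hzz, hww, hwz, hz, hw⟩ := exists_four M hF hi e h₀M hB hσ hy hyy
    exact hE z hzM w hwM hz1 hw1 hzw1 hzz hww hwz hz hw

end Cfsg.Agent.GWP
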