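import Cfsg.Agent.GWP.Rho
import Cfsg.Agent.GWP.Join

set_option autoImplicit false

namespace Cfsg.Agent.GWP
universe u
variable {G : Type u} [Group G] [Finite G]

theorem TI.T_norm_of_le {X : Subgroup G} {g : G} (h : ∀ x ∈ X, g * x * g⁻¹ ∈ X) :
    g ∈ Subgroup.normalizer (X : Set G) := by
  have h1 : X.map (MulAut.conj g).toMonoidHom ≤ X := by
    rintro _ ⟨x, hx, rfl⟩
    exact h x hx
  have h2 : X.map (MulAut.conj g).toMonoidHom = X := by
    apply Subgroup.eq_of_le_of_card_ge h1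
    rw [Nat.card_congr (X.equivMapOfInjective _ (MulAut.conj g).injective).toEquiv.symm]
  rw [Subgroup.mem_normalizer_iff]
  refine fun x => ⟨h x, fun hx => ?_⟩
  have h3 : g * x * g⁻¹ ∈ X.map (MulAut.conj g).toMonoidHom := by rw [h2]; exact hx
  obtain ⟨y, hy, hyx⟩ := h3
  have h4 : g * y * g⁻¹ = g * x * g⁻¹ := hyx
  have h5 : y = x := by simpa using h4
  rw [← h5]; exact hy

theorem TI.Kq_le_T1 (q : ℕ) (u v : G) : Kq q u ≤ T q u v := le_sup_left.trans le_sup_left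
theorem TI.Kq_le_T2 (q : ℕ) (u v : G) : Kq q v ≤ T q u v := le_sup_right.trans le_sup_left
theorem TI.Kq_le_T3 (q : ℕ) (u v : G) : Kq q (u * v) ≤ T q u v := le_sup_right

/-- conjugates of `T` -/
theorem TI.T_conj_le (hP : PP G) {q : ℕ} {u v : G} (F : Four u v) (g : G) {L : Subgroup G}
    (h1 : Kq q (g * u * g⁻¹) ≤ L) (h2 : Kq q (g * v * g⁻¹) ≤ L) (h3 : Kq q (g * (u * v) * g⁻¹) ≤ L) :
    ∀ x ∈ T q u v, g * x * g⁻¹ ∈ L := by
  have h : T q u v ≤ L.comap (MulAut.conj g).toMonoidHom := by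
    refine sup_le (sup_le ?_ ?_) ?_
    · intro x hx
      exact h1 (Kq_conj hP g u F.u1 F.uu hx)
    · intro x hx
      exact h2 (Kq_conj hP g v F.v1 F.vv hx)
    · intro x hx
      exact h3 (Kq_conj hP g (u * v) F.w1 F.ww hx)
  exact fun x hx => h hx

/-- `T` is invariant under conjugation by elements normalising the four-group -/
theorem T_conj (hP : PP G) {q : ℕ} {u v : G} (F : Four u v) {g : G}
    (hu : g * u * g⁻¹ = u ∨ g * u * g⁻¹ = v ∨ g * u * g⁻¹ = u * v)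
    (hv : g * v * g⁻¹ = u ∨ g * v * g⁻¹ = v ∨ g * v * g⁻¹ = u * v) :
    g ∈ Subgroup.normalizer (T q u v : Set G) := by
  have hne : g * u * g⁻¹ ≠ g * v * g⁻¹ := (F.conj g).ne
  have e : g * (u * v) * g⁻¹ = (g * u * g⁻¹) * (g * v * g⁻¹) := by group
  have hw : g * (u * v) * g⁻¹ = u ∨ g * (u * v) * g⁻¹ = v ∨ g * (u * v) * g⁻¹ = u * v := by
    rw [e]
    rcases hu with hu | hu | hu <;> rcases hv with hv | hv | hv <;> rw [hu, hv] at hne ⊢
    · exact absurd rfl hne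
    · exact Or.inr (Or.inr rfl)
    · exact Or.inr (Or.inl F.uw)
    · exact Or.inr (Or.inr F.comm.symm)
    · exact absurd rfl hne
    · exact Or.inl F.vw
    · exact Or.inr (Or.inl F.wu)
    · exact Or.inl F.wv
    · exact absurd rfl hne
  have key : ∀ t : G, t = u ∨ t = v ∨ t = u * v → Kq q t ≤ T q u v := by
    rintro t (rfl | rfl | rfl)
    · exact TI.Kq_le_T1 q _ _
    · exact TI.Kq_le_T2 q _ _
    · exact TI.Kq_le_T3 q _ _
  exact TI.T_norm_of_le (TI.T_conj_le hP F g (key _ hu) (key _ hv) (key _ hw))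

theorem TI.odd_of_q {q : ℕ} [Fact q.Prime] (hq : q ≠ 2) {P : Subgroup G} (hPq : IsPGroup q P) : Odd (Nat.card P) := by
  obtain ⟨n, hn⟩ := IsPGroup.iff_card.1 hPq
  rw [hn]
  exact ((Fact.out : q.Prime).odd_of_ne_two hq).pow

theorem TI.inf_K_le_Kq (t : G) {q : ℕ} {P : Subgroup G}
    (hPq : IsPGroup q P) : P ⊓ K t ≤ Kq q t := by
  rintro x ⟨hx, hxK⟩
  obtain ⟨k, hk⟩ := hPq ⟨x, hx⟩
  exact Subgroup.subset_closure ⟨hxK, k, by simpa using congrArg Subtype.val hk⟩

/-- every `V`-invariant `q`-subgroup lies in `T` -/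
theorem le_T (hP : PP G) {q : ℕ} [Fact q.Prime] (hq : q ≠ 2) {u v : G} (F : Four u v) {P : Subgroup G}
    (hPq : IsPGroup q P) (hI : Inv u v P) : P ≤ T q u v :=
  le_of_parts hP F (TI.odd_of_q hq hPq) hI ((TI.inf_K_le_Kq u hPq).trans (TI.Kq_le_T1 q u v))
    ((TI.inf_K_le_Kq v hPq).trans (TI.Kq_le_T2 q u v)) ((TI.inf_K_le_Kq (u * v) hPq).trans (TI.Kq_le_T3 q u v))

theorem TI.u_mem_norm (hP : PP G) {q : ℕ} {u v : G} (F : Four u v) : u ∈ Subgroup.normalizer (T q u v : Set G) := by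
  apply T_conj hP F
  · left; rw [F.uinv, F.uu, one_mul]
  · right; left; rw [F.comm, mul_inv_cancel_right]

theorem TI.v_mem_norm (hP : PP G) {q : ℕ} {u v : G} (F : Four u v) : v ∈ Subgroup.normalizer (T q u v : Set G) := by
  apply T_conj hP F
  · left; rw [← F.comm, mul_inv_cancel_right]
  · right; left; rw [F.vinv, F.vv, one_mul]

theorem TI.Inv_of_norm {X : Subgroup G} {a b : G} (ha : a ∈ Subgroup.normalizer (X : Set G))
    (hb : b ∈ Subgroup.normalizer (X : Set G)) : Inv a b X :=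
  ⟨fun x hx => (Subgroup.mem_normalizer_iff.1 ha x).1 hx, fun x hx => (Subgroup.mem_normalizer_iff.1 hb x).1 hx⟩

/-- every 2-subgroup containing `V` normalises `T` -/
theorem two_le (hG : Core G) {q : ℕ} [Fact q.Prime] (hq : q ≠ 2) {u v : G} (F : Four u v)
    (hT : IsPGroup q (T q u v)) {S : Subgroup G} (hS : IsPGroup 2 S) (hu : u ∈ S) (hv : v ∈ S) :
    S ≤ Subgroup.normalizer (T q u v : Set G) := by
  have hP := hG.pp
  by_contra hcon
  set D := S ⊓ Subgroup.normalizer (T q u v : Set G) with hD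
  have hDS : D < S := lt_of_le_of_ne inf_le_left (fun h => hcon (by rw [← h]; exact inf_le_right))
  -- normalizers grow
  have : Fact (Nat.Prime 2) := ⟨Nat.prime_two⟩
  have hnil : Group.IsNilpotent S := hS.isNilpotent
  have hlt : D.subgroupOf S < Subgroup.normalizer ((D.subgroupOf S : Subgroup S) : Set S) := by
    apply Group.normalizerCondition_of_isNilpotent
    rw [lt_top_iff_ne_top]
    intro h
    rw [Subgroup.subgroupOf_eq_top] at h
    exact hDS.not_ge h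
  obtain ⟨s, hs1, hs2⟩ := SetLike.exists_of_lt hlt
  have hsD : (s : G) ∉ D := fun h => hs2 h
  have hsn : ∀ d ∈ D, (s : G) * d * (s : G)⁻¹ ∈ D := by
    intro d hd
    have h1 := (Subgroup.mem_normalizer_iff.1 hs1 ⟨d, hDS.le hd⟩).1 hd
    exact h1
  have huD : u ∈ D := ⟨hu, TI.u_mem_norm hP F⟩
  have hvD : v ∈ D := ⟨hv, TI.v_mem_norm hP F⟩
  have F' := F.conj (s : G)
  have hle := le_T hP hq F' hT (TI.Inv_of_norm (hsn u huD).2 (hsn v hvD).2)
  -- hence `T` is normalised by `s⁻¹`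
  have h1 : (s : G)⁻¹ ∈ Subgroup.normalizer (T q u v : Set G) := by
    apply TI.T_norm_of_le
    intro x hx
    refine TI.T_conj_le hP F' (s : G)⁻¹ ?_ ?_ ?_ x (hle hx)
    · have : (s : G)⁻¹ * ((s : G) * u * (s : G)⁻¹) * (s : G)⁻¹⁻¹ = u := by group
      rw [this]; exact TI.Kq_le_T1 q u v
    · have : (s : G)⁻¹ * ((s : G) * v * (s : G)⁻¹) * (s : G)⁻¹⁻¹ = v := by group
      rw [this]; exact TI.Kq_le_T2 q u v
    · have : (s : G)⁻¹ * ((s : G) * u * (s : G)⁻¹ * ((s : G) * v * (s : G)⁻¹)) * (s : G)⁻¹⁻¹ = u * v := by group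
      rw [this]; exact TI.Kq_le_T3 q u v
  have h2 := Subgroup.inv_mem _ h1
  rw [inv_inv] at h2
  exact hsD ⟨s.2, h2⟩

theorem TI.card_Kq_conj (hP : PP G) {q : ℕ} {s t g : G} (s1 : s ≠ 1) (ss : s * s = 1) (h : g * s * g⁻¹ = t) :
    Nat.card (Kq q s) ≤ Nat.card (Kq q t) := by
  have h1 : (Kq q s).map (MulAut.conj g).toMonoidHom ≤ Kq q t := by
    rintro _ ⟨x, hx, rfl⟩
    rw [← h]
    exact Kq_conj hP g s s1 ss hx
  rw [Nat.card_congr ((Kq q s).equivMapOfInjective (MulAut.conj g).toMonoidHom (MulAut.conj g).injective).toEquiv]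
  exact Subgroup.card_le_of_le h1

theorem TI.card_Kq_eq (hG : Core G) (q : ℕ) {s t : G} (s1 : s ≠ 1) (ss : s * s = 1) (t1 : t ≠ 1) (tt : t * t = 1) :
    Nat.card (Kq q s) = Nat.card (Kq q t) := by
  obtain ⟨g, hg⟩ := hG.conj s t s1 ss t1 tt
  obtain ⟨h, hh⟩ := hG.conj t s t1 tt s1 ss
  exact le_antisymm (TI.card_Kq_conj hG.pp s1 ss hg) (TI.card_Kq_conj hG.pp t1 tt hh)

theorem TI.T_card_le (hG : Core G) {q : ℕ} [Fact q.Prime] (hq : q ≠ 2) {u v : G} (F : Four u v)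
    (hT : IsPGroup q (T q u v)) : Nat.card (T q u v) = Nat.card (Kq q u) ^ 3 := by
  have hP := hG.pp
  have h := card_eq hP F (TI.odd_of_q hq hT) (TI.Inv_of_norm (TI.u_mem_norm hP F) (TI.v_mem_norm hP F))
  have h1 : T q u v ⊓ K u = Kq q u := le_antisymm (TI.inf_K_le_Kq u hT) (le_inf (TI.Kq_le_T1 q u v) (Kq_le hP F.u1 F.uu))
  have h2 : T q u v ⊓ K v = Kq q v := le_antisymm (TI.inf_K_le_Kq v hT) (le_inf (TI.Kq_le_T2 q u v) (Kq_le hP F.v1 F.vv))
  have h3 : T q u v ⊓ K (u * v) = Kq q (u * v) :=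
    le_antisymm (TI.inf_K_le_Kq (u * v) hT) (le_inf (TI.Kq_le_T3 q u v) (Kq_le hP F.w1 F.ww))
  rw [h1, h2, h3, ← TI.card_Kq_eq hG q F.u1 F.uu F.v1 F.vv, ← TI.card_Kq_eq hG q F.u1 F.uu F.w1 F.ww] at h
  rw [h]; ring

/-- `T` is the same for all four-groups of a 2-subgroup -/
theorem T_eq (hG : Core G) {q : ℕ} [Fact q.Prime] (hq : q ≠ 2) {u v : G} (F : Four u v)
    (hT : IsPGroup q (T q u v)) {S : Subgroup G} (hS : IsPGroup 2 S) (hu : u ∈ S) (hv : v ∈ S)
    {a b : G} (F' : Four a b) (ha : a ∈ S) (hb : b ∈ S) : T q a b = T q u v := by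
  have hP := hG.pp
  have hN := two_le hG hq F hT hS hu hv
  have hI : Inv a b (T q u v) := TI.Inv_of_norm (hN ha) (hN hb)
  have hle := le_T hP hq F' hT hI
  have hodd := TI.odd_of_q hq hT
  have h := card_eq hP F' hodd hI
  have hc := TI.T_card_le hG hq F hT
  have ka := TI.card_Kq_eq hG q F.u1 F.uu F'.u1 F'.uu
  have kb := TI.card_Kq_eq hG q F.u1 F.uu F'.v1 F'.vv
  have kw := TI.card_Kq_eq hG q F.u1 F.uu F'.w1 F'.ww
  set k := Nat.card (Kq q u) with hk
  have hkpos : 0 < k := Nat.card_pos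
  have la : Nat.card (T q u v ⊓ K a : Subgroup G) ≤ k := by
    rw [ka]; exact Subgroup.card_le_of_le (TI.inf_K_le_Kq a hT)
  have lb : Nat.card (T q u v ⊓ K b : Subgroup G) ≤ k := by
    rw [kb]; exact Subgroup.card_le_of_le (TI.inf_K_le_Kq b hT)
  have lw : Nat.card (T q u v ⊓ K (a * b) : Subgroup G) ≤ k := by
    rw [kw]; exact Subgroup.card_le_of_le (TI.inf_K_le_Kq (a * b) hT)
  set x := Nat.card (T q u v ⊓ K a : Subgroup G) with hx
  set y := Nat.card (T q u v ⊓ K b : Subgroup G) with hy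
  set z := Nat.card (T q u v ⊓ K (a * b) : Subgroup G) with hz
  have hmul : x * y * z = k * k * k := by rw [← h, hc]; ring
  have hxk : x = k := by
    by_contra hne
    have hlt : x < k := lt_of_le_of_ne la hne
    have : x * y * z < k * k * k := by
      calc x * y * z ≤ x * k * k := Nat.mul_le_mul (Nat.mul_le_mul le_rfl lb) lw
        _ < k * k * k := by
          apply Nat.mul_lt_mul_of_pos_right _ hkpos
          exact Nat.mul_lt_mul_of_pos_right hlt hkpos
    omega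
  have hyk : y = k := by
    by_contra hne
    have hlt : y < k := lt_of_le_of_ne lb hne
    have : x * y * z < k * k * k := by
      calc x * y * z ≤ k * y * k := Nat.mul_le_mul (Nat.mul_le_mul la le_rfl) lw
        _ < k * k * k := by
          apply Nat.mul_lt_mul_of_pos_right _ hkpos
          exact Nat.mul_lt_mul_of_pos_left hlt hkpos
    omega
  have hzk : z = k := by
    by_contra hne
    have hlt : z < k := lt_of_le_of_ne lw hne
    have : x * y * z < k * k * k := by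
      calc x * y * z ≤ k * k * z := Nat.mul_le_mul (Nat.mul_le_mul la lb) le_rfl
        _ < k * k * k := Nat.mul_lt_mul_of_pos_left hlt (Nat.mul_pos hkpos hkpos)
    omega
  have ea : T q u v ⊓ K a = Kq q a := Subgroup.eq_of_le_of_card_ge (TI.inf_K_le_Kq a hT) (by rw [← ka, ← hxk])
  have eb : T q u v ⊓ K b = Kq q b := Subgroup.eq_of_le_of_card_ge (TI.inf_K_le_Kq b hT) (by rw [← kb, ← hyk])
  have ew : T q u v ⊓ K (a * b) = Kq q (a * b) :=
    Subgroup.eq_of_le_of_card_ge (TI.inf_K_le_Kq (a * b) hT) (by rw [← kw, ← hzk])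
  refine le_antisymm (sup_le (sup_le ?_ ?_) ?_) hle
  · rw [← ea]; exact inf_le_left
  · rw [← eb]; exact inf_le_left
  · rw [← ew]; exact inf_le_left

end Cfsg.Agent.GWP
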