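import Cfsg.Agent.GWP.Rho
import Cfsg.Agent.GWP.NY
import Cfsg.Agent.GWP.Join
import Cfsg.Agent.GWP.TInv
import Cfsg.Agent.H10.Eqf

set_option autoImplicit false
set_option linter.style.haveILetI false

namespace Cfsg.Agent.GWP
universe u
variable {G : Type u} [Group G] [Finite G]

/-! ### normal 2-complements -/

/-- if products of elements of odd order have odd order then there is a normal 2-complement -/
theorem QG.npc_of_odd {H : Type u} [Group H] [Finite H]
    (h : ∀ x y : H, Odd (orderOf x) → Odd (orderOf y) → Odd (orderOf (x * y))) :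
    Cfsg.HasNormalPComplement 2 H := by
  classical
  haveI : Fact (Nat.Prime 2) := ⟨Nat.prime_two⟩
  let N : Subgroup H :=
    { carrier := {x | Odd (orderOf x)}
      one_mem' := by
        change Odd (orderOf (1 : H))
        rw [orderOf_one]; exact odd_one
      mul_mem' := fun {a b} ha hb => h a b ha hb
      inv_mem' := by
        intro x hx
        change Odd (orderOf x⁻¹)
        rw [orderOf_inv]; exact hx }
  have hmem : ∀ x : H, x ∈ N ↔ Odd (orderOf x) := fun _ => Iff.rfl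
  have hNn : N.Normal := by
    constructor
    intro x hx g
    rw [hmem] at hx ⊢
    have : orderOf (g * x * g⁻¹) = orderOf x := by
      have := orderOf_injective (MulAut.conj g).toMonoidHom (MulAut.conj g).injective x
      simpa using this
    rw [this]; exact hx
  have hNodd : Odd (Nat.card N) := by
    rw [← Nat.not_even_iff_odd, even_iff_two_dvd]
    intro h2
    obtain ⟨g, hg⟩ := exists_prime_orderOf_dvd_card' 2 h2
    have h1 := (hmem _).1 g.2
    rw [Subgroup.orderOf_coe, hg] at h1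
    exact absurd h1 (by decide)
  have hquot : IsPGroup 2 (H ⧸ N) := by
    intro x
    obtain ⟨x, rfl⟩ := QuotientGroup.mk'_surjective N x
    obtain ⟨k, m, hm, hkm⟩ := Nat.exists_eq_two_pow_mul_odd (orderOf_pos x).ne'
    refine ⟨k, ?_⟩
    rw [← map_pow]
    have h3 : x ^ 2 ^ k ∈ N := by
      rw [hmem, orderOf_pow, hkm]
      have : Nat.gcd (2 ^ k * m) (2 ^ k) = 2 ^ k := by
        rw [Nat.gcd_comm]; exact Nat.gcd_eq_left (Dvd.intro _ rfl)
      rw [this, Nat.mul_div_cancel_left _ (pow_pos (by norm_num) k)]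
      exact hm
    exact (QuotientGroup.eq_one_iff _).2 h3
  obtain ⟨k, hk⟩ := IsPGroup.iff_card.1 hquot
  obtain ⟨P⟩ : Nonempty (Sylow 2 H) := inferInstance
  refine ⟨P, N, hNn, ?_⟩
  have hidx : N.index = 2 ^ k := hk
  have hcard : Nat.card N * 2 ^ k = Nat.card H := by rw [← hidx]; exact N.card_mul_index
  have hPc : Nat.card (P : Subgroup H) = 2 ^ k := by
    rw [P.card_eq_multiplicity, ← hcard]
    congr 1
    rw [Nat.factorization_mul (Nat.card_pos).ne' (by positivity), Finsupp.add_apply,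
      Nat.Prime.factorization_pow Nat.prime_two, Finsupp.single_eq_same,
      Nat.factorization_eq_zero_of_not_dvd (by
        intro h4; exact (Nat.not_even_iff_odd.2 hNodd) (even_iff_two_dvd.2 h4)), zero_add]
  apply Subgroup.isComplement'_of_coprime
  · rw [hPc, hcard]
  · rw [hPc]
    exact Nat.Coprime.pow_right _ (Nat.coprime_two_right.2 hNodd)

theorem QG.odd_of_npc {H : Type u} [Group H] [Finite H] (h : Cfsg.HasNormalPComplement 2 H) (x y : H)
    (hx : Odd (orderOf x)) (hy : Odd (orderOf y)) : Odd (orderOf (x * y)) := by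
  classical
  haveI : Fact (Nat.Prime 2) := ⟨Nat.prime_two⟩
  obtain ⟨P, N, hN, hc⟩ := h
  haveI := hN
  have hcard : Nat.card N * Nat.card (P : Subgroup H) = Nat.card H := hc.card_mul_card
  obtain ⟨k, hk⟩ := IsPGroup.iff_card.1 P.isPGroup'
  have hidx : N.index = 2 ^ k := by
    have h1 := N.card_mul_index
    rw [← hcard, hk] at h1
    exact Nat.eq_of_mul_eq_mul_left Nat.card_pos h1
  have hPi : (P : Subgroup H).index = Nat.card N := by
    have h1 := (P : Subgroup H).card_mul_index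
    rw [← hcard, mul_comm (Nat.card N)] at h1
    exact Nat.eq_of_mul_eq_mul_left Nat.card_pos h1
  have hNodd : Odd (Nat.card N) := by
    rw [← hPi, ← Nat.not_even_iff_odd, even_iff_two_dvd]
    exact P.not_dvd_index
  have key : ∀ z : H, Odd (orderOf z) → z ∈ N := by
    intro z hz
    have h1 : orderOf (z : H ⧸ N) ∣ orderOf z := orderOf_map_dvd (QuotientGroup.mk' N) z
    have h2 : orderOf (z : H ⧸ N) ∣ 2 ^ k := by
      rw [← hidx]; exact orderOf_dvd_natCard _
    have h3 : orderOf (z : H ⧸ N) = 1 := by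
      apply Nat.eq_one_of_dvd_coprimes _ h1 h2
      exact Nat.Coprime.pow_right _ (Nat.coprime_two_right.2 hz)
    exact (QuotientGroup.eq_one_iff z).1 (orderOf_eq_one_iff.1 h3)
  exact odd_of_mem hNodd (N.mul_mem (key x hx) (key y hy))

/-- centralizers of involutions (in a subgroup) -/
theorem QG.npc_cent (hP : PP G) (L : Subgroup G) (z : L) (z1 : z ≠ 1) (zz : z * z = 1) :
    Cfsg.HasNormalPComplement 2 (Subgroup.centralizer ({z} : Set L)) := by
  apply QG.npc_of_odd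
  have z1' : (z : G) ≠ 1 := fun h => z1 (Subtype.ext h)
  have zz' : (z : G) * z = 1 := congrArg Subtype.val zz
  have key : ∀ x : Subgroup.centralizer ({z} : Set L), Odd (orderOf x) → ((x : L) : G) ∈ K (z : G) := by
    intro x hx
    rw [mem_K hP z1' zz']
    refine ⟨?_, ?_⟩
    · have h1 := Subgroup.mem_centralizer_iff.1 x.2 z (Set.mem_singleton z)
      exact (congrArg Subtype.val h1).symm
    · rw [Subgroup.orderOf_coe, Subgroup.orderOf_coe]; exact hx
  intro x y hx hy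
  have h3 := ((mem_K hP z1' zz').1 ((K (z : G)).mul_mem (key x hx) (key y hy))).2
  have h4 : (((x * y : Subgroup.centralizer ({z} : Set L)) : L) : G) = ((x : L) : G) * ((y : L) : G) := rfl
  rw [← h4, Subgroup.orderOf_coe, Subgroup.orderOf_coe] at h3
  exact h3

/-- if `L` has no normal 2-complement, the fixed points on a normal odd order subgroup have equal orders -/
theorem QG.eqfix_sub (hP : PP G) {u v : G} (F : Four u v) {L : Subgroup G} (hL : ¬ OddNil L) (hu : u ∈ L) (hv : v ∈ L)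
    {D : Subgroup G} (hDL : D ≤ L) (hn : L ≤ Subgroup.normalizer (D : Set G)) (hD : Odd (Nat.card D)) :
    Nat.card ↥(D ⊓ K u) = Nat.card ↥(D ⊓ K v) ∧ Nat.card ↥(D ⊓ K u) = Nat.card ↥(D ⊓ K (u * v)) := by
  haveI : (D.subgroupOf L).Normal := (Subgroup.normal_subgroupOf_iff_le_normalizer hDL).2 hn
  have hD' : Odd (Nat.card (D.subgroupOf L)) := by
    rw [Nat.card_congr (Subgroup.subgroupOfEquivOfLe hDL).toEquiv]; exact hD
  have h1 := H10.eqfix (G := L) (by
      intro a b a1 aa b1 bb hab hc g hga hgb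
      have F' : Four (a : G) (b : G) :=
        ⟨fun h => a1 (Subtype.ext h), fun h => b1 (Subtype.ext h), fun h => hab (Subtype.ext h),
          congrArg Subtype.val aa, congrArg Subtype.val bb, congrArg Subtype.val hc⟩
      rcases cent_four hP F' (congrArg Subtype.val hga) (congrArg Subtype.val hgb) with h | h | h | h
      · exact Or.inl (Subtype.ext h)
      · exact Or.inr (Or.inl (Subtype.ext h))
      · exact Or.inr (Or.inr (Or.inl (Subtype.ext h)))
      · exact Or.inr (Or.inr (Or.inr (Subtype.ext h))))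
    (fun z z1 zz => QG.npc_cent hP L z z1 zz)
    (u := ⟨u, hu⟩) (v := ⟨v, hv⟩) (fun h => F.u1 (congrArg Subtype.val h)) (Subtype.ext F.uu)
    (fun h => F.v1 (congrArg Subtype.val h)) (Subtype.ext F.vv) (fun h => F.ne (congrArg Subtype.val h))
    (Subtype.ext F.comm) (by
      intro h
      apply hL
      intro x hx y hy hxo hyo
      have h2 := QG.odd_of_npc h ⟨x, hx⟩ ⟨y, hy⟩ (by rw [Subgroup.orderOf_mk]; exact hxo)
        (by rw [Subgroup.orderOf_mk]; exact hyo)
      have h3 : orderOf ((⟨x, hx⟩ : L) * ⟨y, hy⟩) = orderOf (x * y) := by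
        rw [← Subgroup.orderOf_coe]; rfl
      rwa [h3] at h2)
    (D.subgroupOf L) hD'
  have key : ∀ (t : G) (ht : t ∈ L), t ≠ 1 → t * t = 1 →
      Nat.card ↥(D.subgroupOf L ⊓ Subgroup.centralizer ({(⟨t, ht⟩ : L)} : Set L)) = Nat.card ↥(D ⊓ K t) := by
    intro t ht t1 tt
    apply Nat.card_congr
    refine ⟨fun x => ⟨((x : L) : G), ?_⟩, fun x => ⟨⟨(x : G), hDL x.2.1⟩, ?_⟩, fun x => rfl, fun x => rfl⟩
    · refine Subgroup.mem_inf.2 ⟨x.2.1, (mem_K hP t1 tt).2 ⟨?_, odd_of_mem hD x.2.1⟩⟩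
      have h2 := Subgroup.mem_centralizer_iff.1 x.2.2 _ (Set.mem_singleton _)
      exact (congrArg Subtype.val h2).symm
    · refine Subgroup.mem_inf.2 ⟨x.2.1, Subgroup.mem_centralizer_iff.2 ?_⟩
      rintro _ rfl
      apply Subtype.ext
      exact ((mem_K hP t1 tt).1 x.2.2).1.symm
  rw [key u hu F.u1 F.uu, key v hv F.v1 F.vv] at h1
  have h2 : (⟨u, hu⟩ : L) * ⟨v, hv⟩ = ⟨u * v, L.mul_mem hu hv⟩ := rfl
  rw [h2, key (u * v) (L.mul_mem hu hv) F.w1 F.ww] at h1
  exact h1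

/-! ### maximal invariant `q`-subgroups -/

/-- maximal `V`-invariant `q`-subgroup -/
def Mx (q : ℕ) (u v : G) (P : Subgroup G) : Prop :=
  IsPGroup q P ∧ Inv u v P ∧ ∀ Q : Subgroup G, IsPGroup q Q → Inv u v Q → P ≤ Q → Q = P

theorem QG.exists_Mx {q : ℕ} {u v : G} {P : Subgroup G} (hP : IsPGroup q P) (hI : Inv u v P) :
    ∃ M, Mx q u v M ∧ P ≤ M := by
  obtain ⟨M, hPM, hM⟩ := (Set.toFinite {Q : Subgroup G | IsPGroup q Q ∧ Inv u v Q}).exists_le_maximal
    (show P ∈ {Q : Subgroup G | IsPGroup q Q ∧ Inv u v Q} from ⟨hP, hI⟩)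
  exact ⟨M, ⟨hM.prop.1, hM.prop.2, fun Q h1 h2 h3 => le_antisymm (hM.2 ⟨h1, h2⟩ h3) h3⟩, hPM⟩

theorem QG.lt_norm {q : ℕ} [Fact q.Prime] {D P : Subgroup G} (hP : IsPGroup q P) (hDP : D < P) :
    D < P ⊓ Subgroup.normalizer (D : Set G) := by
  have hnil : Group.IsNilpotent P := hP.isNilpotent
  have hlt : D.subgroupOf P < Subgroup.normalizer ((D.subgroupOf P : Subgroup P) : Set P) := by
    apply Group.normalizerCondition_of_isNilpotent
    rw [lt_top_iff_ne_top]
    intro h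
    rw [Subgroup.subgroupOf_eq_top] at h
    exact hDP.not_ge h
  obtain ⟨s, hs1, hs2⟩ := SetLike.exists_of_lt hlt
  refine lt_of_le_of_ne (le_inf hDP.le Subgroup.le_normalizer) ?_
  intro h
  apply hs2
  rw [Subgroup.mem_subgroupOf, h]
  refine ⟨s.2, TI.T_norm_of_le (fun d hd => ?_)⟩
  exact (Subgroup.mem_normalizer_iff.1 hs1 ⟨d, hDP.le hd⟩).1 hd

omit [Finite G] in
theorem QG.inv_inf {u v : G} {X Y : Subgroup G} (hX : Inv u v X) (hY : Inv u v Y) : Inv u v (X ⊓ Y) :=
  ⟨fun x hx => ⟨hX.1 x hx.1, hY.1 x hx.2⟩, fun x hx => ⟨hX.2 x hx.1, hY.2 x hx.2⟩⟩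

theorem QG.inv_norm {u v : G} {X : Subgroup G} (hu : u ∈ Subgroup.normalizer (X : Set G))
    (hv : v ∈ Subgroup.normalizer (X : Set G)) : Inv u v (Subgroup.normalizer (X : Set G)) :=
  TI.Inv_of_norm (Subgroup.le_normalizer hu) (Subgroup.le_normalizer hv)

/-- maximal invariant `q`-subgroups sharing some `Kq q s` are equal -/
theorem QG.uniq (hG : Core G) {u v : G} (F : Four u v) {q : ℕ} [Fact q.Prime] (hq : q ≠ 2) :
    ∀ (n : ℕ) (P R : Subgroup G), Mx q u v P → Mx q u v R →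
      (∃ s, (s = u ∨ s = v ∨ s = u * v) ∧ Kq q s ≤ P ⊓ R) → Nat.card G - Nat.card ↥(P ⊓ R) = n → P = R := by
  have hP := hG.pp
  intro n
  induction n using Nat.strong_induction_on with
  | _ n ih =>
  intro P R hMP hMR hs hn
  obtain ⟨s, hs, hsD⟩ := hs
  set D := P ⊓ R with hD
  by_contra hne
  have hDP : D < P := by
    refine lt_of_le_of_ne inf_le_left (fun h => hne ?_)
    have h1 : P ≤ R := by rw [← h]; exact inf_le_right
    exact (hMP.2.2 R hMR.1 hMR.2.1 h1).symm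
  have hDR : D < R := by
    refine lt_of_le_of_ne inf_le_right (fun h => hne ?_)
    have h1 : R ≤ P := by rw [← h]; exact inf_le_left
    exact hMR.2.2 P hMP.1 hMP.2.1 h1
  have hDq : IsPGroup q D := hMP.1.to_le inf_le_left
  have hDI : Inv u v D := QG.inv_inf hMP.2.1 hMR.2.1
  have hDodd : Odd (Nat.card D) := TI.odd_of_q hq hDq
  set L := Subgroup.normalizer (D : Set G) with hL
  have huL : u ∈ L := Inv.mem_normalizer F.uu hDI.1
  have hvL : v ∈ L := Inv.mem_normalizer F.vv hDI.2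
  have hLI : Inv u v L := QG.inv_norm huL hvL
  by_cases hodd : OddNil L
  · obtain ⟨S, hSL, hSq, hSI, h1, h2⟩ := join hP F hodd huL hvL hq (P := P ⊓ L) (R := R ⊓ L) inf_le_right inf_le_right
      (hMP.1.to_le inf_le_left) (hMR.1.to_le inf_le_left) (QG.inv_inf hMP.2.1 hLI) (QG.inv_inf hMR.2.1 hLI)
    obtain ⟨M, hM, hSM⟩ := QG.exists_Mx hSq hSI
    have hgrow : ∀ P' : Subgroup G, Mx q u v P' → D < P' → P' ⊓ L ≤ S → P' = M := by
      intro P' hMP' hDP' h3
      have h4 : D < P' ⊓ M := lt_of_lt_of_le (QG.lt_norm hMP'.1 hDP') (le_inf inf_le_left (h3.trans hSM))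
      have h5 : Nat.card D < Nat.card ↥(P' ⊓ M) := by
        exact Set.Finite.card_lt_card (Set.toFinite _) (show ((D : Subgroup G) : Set G) ⊂ ((P' ⊓ M : Subgroup G) : Set G) from h4)
      have h6 : Nat.card ↥(P' ⊓ M) ≤ Nat.card G := Subgroup.card_le_card_group _
      exact ih (Nat.card G - Nat.card ↥(P' ⊓ M)) (by omega) P' M hMP' hM ⟨s, hs, hsD.trans h4.le⟩ rfl
    exact hne ((hgrow P hMP hDP h1).trans (hgrow R hMR hDR h2).symm)
  · obtain ⟨e1, e2⟩ := QG.eqfix_sub hP F hodd huL hvL (D := D) Subgroup.le_normalizer le_rfl hDodd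
    have hDK : ∀ t : G, D ⊓ K t ≤ Kq q t := fun t => TI.inf_K_le_Kq t hDq
    have hst : s ≠ 1 ∧ s * s = 1 := by
      rcases hs with rfl | rfl | rfl
      · exact ⟨F.u1, F.uu⟩
      · exact ⟨F.v1, F.vv⟩
      · exact ⟨F.w1, F.ww⟩
    have hsK : D ⊓ K s = Kq q s := le_antisymm (hDK s) (le_inf hsD (Kq_le hP hst.1 hst.2))
    have hall : ∀ t, (t = u ∨ t = v ∨ t = u * v) → Nat.card ↥(D ⊓ K t) = Nat.card ↥(D ⊓ K s) := by
      have h3 : ∀ t, (t = u ∨ t = v ∨ t = u * v) → Nat.card ↥(D ⊓ K t) = Nat.card ↥(D ⊓ K u) := by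
        rintro t (rfl | rfl | rfl)
        · rfl
        · exact e1.symm
        · exact e2.symm
      intro t ht
      rw [h3 t ht, h3 s hs]
    have hle : ∀ t, (t = u ∨ t = v ∨ t = u * v) → t ≠ 1 → t * t = 1 → Kq q t ≤ D := by
      intro t ht t1 tt
      have h3 : D ⊓ K t = Kq q t := by
        apply Subgroup.eq_of_le_of_card_ge (hDK t)
        rw [hall t ht, hsK, TI.card_Kq_eq hG q t1 tt hst.1 hst.2]
      rw [← h3]; exact inf_le_left
    have hTD : T q u v ≤ D :=
      sup_le (sup_le (hle u (Or.inl rfl) F.u1 F.uu) (hle v (Or.inr (Or.inl rfl)) F.v1 F.vv))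
        (hle (u * v) (Or.inr (Or.inr rfl)) F.w1 F.ww)
    exact hDP.not_ge ((le_T hP hq F hMP.1 hMP.2.1).trans hTD)

/-- a nontrivial `q`-element inverted ... if some `1 ≠ y ∈ Kq q v` centralises `Kq q u` then `T q u v` is a `q`-group -/
theorem tq (hG : Core G) {u v : G} (F : Four u v) {q : ℕ} [Fact q.Prime] (hq : q ≠ 2)
    {y : G} (hy : y ∈ Kq q v) (hy1 : y ≠ 1) (hyc : ∀ a ∈ Kq q u, a * y = y * a) :
    IsPGroup q (T q u v) := by
  have hP := hG.pp
  have hyK : y ∈ K v := Kq_le hP F.v1 F.vv hy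
  have hYK : Subgroup.zpowers y ≤ K v := by rw [Subgroup.zpowers_le]; exact hyK
  obtain ⟨hodd, -⟩ := ny hP F.symm hYK (by rw [ne_eq, Subgroup.zpowers_eq_bot]; exact hy1)
  set L := Subgroup.normalizer (Subgroup.zpowers y : Set G) with hL
  have hcomm : ∀ a : G, a * y = y * a → a ∈ L := by
    intro a ha
    apply TI.T_norm_of_le
    rintro x ⟨k, rfl⟩
    have h1 : a * y ^ k * a⁻¹ = y ^ k := by
      rw [((show Commute a y from ha).zpow_right k).eq, mul_inv_cancel_right]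
    change a * y ^ k * a⁻¹ ∈ _
    rw [h1]; exact ⟨k, rfl⟩
  have hIY : Inv v u (Subgroup.zpowers y) := Inv_of_le hP F.symm hYK
  have huL : u ∈ L := Inv.mem_normalizer F.uu hIY.2
  have hvL : v ∈ L := Inv.mem_normalizer F.vv hIY.1
  have hIu : Inv u v (Kq q u) := Inv_of_le hP F (Kq_le hP F.u1 F.uu)
  have hIv : Inv u v (Kq q v) := (Inv_of_le hP F.symm (Kq_le hP F.v1 F.vv)).symm
  obtain ⟨S, -, hSq, hSI, h1, h2⟩ := join hP F hodd huL hvL hq (P := Kq q u) (R := Kq q v)
    (fun a ha => hcomm a (hyc a ha))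
    (fun a ha => hcomm a (K_comm hP F.v1 F.vv (Kq_le hP F.v1 F.vv ha) hyK))
    (Kq_pgroup hP F.u1 F.uu) (Kq_pgroup hP F.v1 F.vv) hIu hIv
  obtain ⟨P, hMP, hSP⟩ := QG.exists_Mx hSq hSI
  obtain ⟨r, hru, hrv⟩ := rho hG F
  -- the conjugate
  set Q := P.map (MulAut.conj r).toMonoidHom with hQ
  have hQq : IsPGroup q Q := hMP.1.map _
  have hr3 : r * (u * v) * r⁻¹ = u := by
    have : r * (u * v) * r⁻¹ = (r * u * r⁻¹) * (r * v * r⁻¹) := by group
    rw [this, hru, hrv, F.vw]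
  -- `r⁻¹ u r = u v`, `r⁻¹ v r = u`
  have hiu : r⁻¹ * u * r = u * v := by
    calc r⁻¹ * u * r = r⁻¹ * (r * (u * v) * r⁻¹) * r := by rw [hr3]
      _ = u * v := by group
  have hiv : r⁻¹ * v * r = u := by
    calc r⁻¹ * v * r = r⁻¹ * (r * u * r⁻¹) * r := by rw [hru]
      _ = u := by group
  have hiw : r⁻¹ * (u * v) * r = v := by
    calc r⁻¹ * (u * v) * r = r⁻¹ * (r * v * r⁻¹) * r := by rw [hrv]
      _ = v := by group
  have hQI : Inv u v Q := by
    constructor
    · rintro _ ⟨x, hx, rfl⟩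
      refine ⟨(u * v) * x * (u * v)⁻¹, hMP.2.1.w x hx, ?_⟩
      change r * ((u * v) * x * (u * v)⁻¹) * r⁻¹ = u * (r * x * r⁻¹) * u⁻¹
      calc r * ((u * v) * x * (u * v)⁻¹) * r⁻¹
          = (r * (u * v) * r⁻¹) * (r * x * r⁻¹) * (r * (u * v) * r⁻¹)⁻¹ := by group
        _ = u * (r * x * r⁻¹) * u⁻¹ := by rw [hr3]
    · rintro _ ⟨x, hx, rfl⟩
      refine ⟨u * x * u⁻¹, hMP.2.1.1 x hx, ?_⟩
      change r * (u * x * u⁻¹) * r⁻¹ = v * (r * x * r⁻¹) * v⁻¹
      calc r * (u * x * u⁻¹) * r⁻¹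
          = (r * u * r⁻¹) * (r * x * r⁻¹) * (r * u * r⁻¹)⁻¹ := by group
        _ = v * (r * x * r⁻¹) * v⁻¹ := by rw [hru]
  obtain ⟨P', hMP', hQP'⟩ := QG.exists_Mx hQq hQI
  have hvQ : Kq q v ≤ Q := by
    intro x hx
    refine ⟨r⁻¹ * x * r, h1.trans hSP ?_, ?_⟩
    · have h3 := Kq_conj hP r⁻¹ v F.v1 F.vv hx
      rw [inv_inv, hiv] at h3
      exact h3
    · change r * (r⁻¹ * x * r) * r⁻¹ = x
      group
  have hPP' : P = P' := QG.uniq hG F hq _ P P' hMP hMP' ⟨v, Or.inr (Or.inl rfl), le_inf (h2.trans hSP) (hvQ.trans hQP')⟩ rfl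
  have hw : Kq q (u * v) ≤ P := by
    rw [hPP']
    intro x hx
    apply hQP'
    refine ⟨r⁻¹ * x * r, h2.trans hSP ?_, ?_⟩
    · have h3 := Kq_conj hP r⁻¹ (u * v) F.w1 F.ww hx
      rw [inv_inv, hiw] at h3
      exact h3
    · change r * (r⁻¹ * x * r) * r⁻¹ = x
      group
  exact hMP.1.to_le (sup_le (sup_le (h1.trans hSP) (h2.trans hSP)) hw)

end Cfsg.Agent.GWP
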