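import Cfsg.Agent.GWP.Basic

set_option autoImplicit false

namespace Cfsg.Agent.GWP
universe u
variable {G : Type u} [Group G] [Finite G]

/-- the four-group as a subgroup -/
def Rho.VV {u v : G} (F : Four u v) : Subgroup G where
  carrier := {g | g = 1 ∨ g = u ∨ g = v ∨ g = u * v}
  one_mem' := Or.inl rfl
  mul_mem' := by
    rintro a b (rfl | rfl | rfl | rfl) (rfl | rfl | rfl | rfl)
    · exact Or.inl (one_mul 1)
    · exact Or.inr (Or.inl (one_mul _))
    · exact Or.inr (Or.inr (Or.inl (one_mul _)))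
    · exact Or.inr (Or.inr (Or.inr (one_mul _)))
    · exact Or.inr (Or.inl (mul_one _))
    · exact Or.inl F.uu
    · exact Or.inr (Or.inr (Or.inr rfl))
    · exact Or.inr (Or.inr (Or.inl F.uw))
    · exact Or.inr (Or.inr (Or.inl (mul_one _)))
    · exact Or.inr (Or.inr (Or.inr F.comm.symm))
    · exact Or.inl F.vv
    · exact Or.inr (Or.inl F.vw)
    · exact Or.inr (Or.inr (Or.inr (mul_one _)))
    · exact Or.inr (Or.inr (Or.inl F.wu))
    · exact Or.inr (Or.inl F.wv)
    · exact Or.inl F.ww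
  inv_mem' := by
    rintro a (rfl | rfl | rfl | rfl)
    · exact Or.inl inv_one
    · exact Or.inr (Or.inl F.uinv)
    · exact Or.inr (Or.inr (Or.inl F.vinv))
    · exact Or.inr (Or.inr (Or.inr (inv_eq_of_mul_eq_one_left F.ww)))

theorem Rho.mem_VV {u v : G} (F : Four u v) {g : G} :
    g ∈ Rho.VV F ↔ g = 1 ∨ g = u ∨ g = v ∨ g = u * v := Iff.rfl

theorem Rho.VV_sq {u v : G} (F : Four u v) {g : G} (h : g ∈ Rho.VV F) : g * g = 1 := by
  rcases (Rho.mem_VV F).1 h with rfl | rfl | rfl | rfl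
  · exact one_mul 1
  · exact F.uu
  · exact F.vv
  · exact F.ww

theorem Rho.VV_pgroup {u v : G} (F : Four u v) : IsPGroup 2 (Rho.VV F) := by
  intro g
  refine ⟨1, ?_⟩
  ext
  rw [pow_one, pow_two]
  exact Rho.VV_sq F g.2

/-- a nontrivial 2-group has a central involution -/
theorem Rho.exists_central (S : Subgroup G) (hS : IsPGroup 2 S) (h1 : S ≠ ⊥) :
    ∃ z ∈ S, z ≠ 1 ∧ z * z = 1 ∧ ∀ s ∈ S, s * z = z * s := by
  haveI : Nontrivial S := (Subgroup.nontrivial_iff_ne_bot S).2 h1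
  haveI : Fact (Nat.Prime 2) := ⟨Nat.prime_two⟩
  haveI := hS.center_nontrivial
  have h2 : IsPGroup 2 (Subgroup.center S) := hS.to_subgroup _
  have h3 : 2 ∣ Nat.card (Subgroup.center S) := by
    obtain ⟨n, hn⟩ := IsPGroup.iff_card.1 h2
    rcases Nat.eq_zero_or_pos n with h0 | h0
    · rw [h0, pow_zero] at hn
      have := Finite.one_lt_card (α := Subgroup.center S)
      omega
    · rw [hn]; exact dvd_pow_self 2 h0.ne'
  obtain ⟨z, hz⟩ := exists_prime_orderOf_dvd_card' 2 h3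
  refine ⟨((z : S) : G), (z : S).2, ?_, ?_, ?_⟩
  · intro h
    have : z = 1 := by
      ext; exact h
    rw [this, orderOf_one] at hz
    exact absurd hz (by decide)
  · have := pow_orderOf_eq_one z
    rw [hz, pow_two] at this
    have := congrArg (fun x : Subgroup.center S => ((x : S) : G)) this
    simpa using this
  · intro s hs
    have := (Subgroup.mem_center_iff.1 z.2) ⟨s, hs⟩
    exact congrArg Subtype.val this

/-- if the four-group is not a Sylow subgroup, every involution of it is fixed by some element of the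
normaliser swapping the other two -/
theorem Rho.swap (hG : Core G) {u v : G} (F : Four u v)
    (hS : ∀ S : Sylow 2 G, (S : Subgroup G) ≤ Rho.VV F → False) :
    ∃ g : G, g * u * g⁻¹ = v ∧ g * v * g⁻¹ = u := by
  haveI : Fact (Nat.Prime 2) := ⟨Nat.prime_two⟩
  -- a Sylow subgroup centralised by the involution `u * v`
  obtain ⟨S0⟩ : Nonempty (Sylow 2 G) := inferInstance
  have hS0 : (S0 : Subgroup G) ≠ ⊥ := by
    intro h
    exact hS S0 (by rw [h]; exact bot_le)
  obtain ⟨z, hz, hz1, hzz, hzc⟩ := Rho.exists_central (S0 : Subgroup G) S0.isPGroup' hS0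
  obtain ⟨g, hg⟩ := hG.conj z (u * v) hz1 hzz F.w1 F.ww
  -- `S1 = g S0 g⁻¹ ≤ C(w)`
  let C : Subgroup G := Subgroup.centralizer {u * v}
  have hS1 : ((g • S0 : Sylow 2 G) : Subgroup G) ≤ C := by
    intro x hx
    rw [Sylow.coe_subgroup_smul, Subgroup.mem_pointwise_smul_iff_inv_smul_mem] at hx
    have h1 := hzc _ hx
    rw [Subgroup.mem_centralizer_singleton_iff]
    rw [← hg]
    have h2 : (MulAut.conj g)⁻¹ • x = g⁻¹ * x * g := by
      rw [← map_inv, MulAut.smul_def, MulAut.conj_apply, inv_inv]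
    rw [h2] at h1
    have e1 : g * (g⁻¹ * x * g * z) * g⁻¹ = x * (g * z * g⁻¹) := by group
    have e2 : g * (z * (g⁻¹ * x * g)) * g⁻¹ = (g * z * g⁻¹) * x := by group
    rw [← e1, ← e2, h1]
  let S1 : Sylow 2 C := (g • S0 : Sylow 2 G).subtype hS1
  have hVC : Rho.VV F ≤ C := by
    rintro x (rfl | rfl | rfl | rfl)
    · exact one_mem _
    · rw [Subgroup.mem_centralizer_singleton_iff, F.uw, F.wu]
    · rw [Subgroup.mem_centralizer_singleton_iff, F.vw, F.wv]
    · rw [Subgroup.mem_centralizer_singleton_iff]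
  have hV' : IsPGroup 2 ((Rho.VV F).subgroupOf C) := (Rho.VV_pgroup F).comap_subtype
  obtain ⟨S2, hS2⟩ := hV'.exists_le_sylow
  obtain ⟨c, hc⟩ := MulAction.exists_smul_eq C S1 S2
  -- `S3` as a Sylow subgroup of `G`
  let S3 : Sylow 2 G := ((c : G) * g) • S0
  have hS3C : (S3 : Subgroup G) ≤ C := by
    intro x hx
    have hx' : x ∈ ((c : G) • (g • S0 : Sylow 2 G) : Sylow 2 G) := by
      rw [smul_smul]; exact hx
    rw [← SetLike.mem_coe, ← Sylow.coe_coe, SetLike.mem_coe] at hx'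
    rw [Sylow.coe_subgroup_smul, Subgroup.mem_pointwise_smul_iff_inv_smul_mem] at hx'
    have h3 := hS1 hx'
    have h2 : (MulAut.conj (c : G))⁻¹ • x = (c : G)⁻¹ * x * c := by
      rw [← map_inv, MulAut.smul_def, MulAut.conj_apply, inv_inv]
    rw [h2] at h3
    have := C.mul_mem (C.mul_mem c.2 h3) (C.inv_mem c.2)
    have e : (c : G) * ((c : G)⁻¹ * x * c) * (c : G)⁻¹ = x := by group
    rwa [e] at this
  have hVS : Rho.VV F ≤ S3 := by
    intro x hx
    have h1 : (⟨x, hVC hx⟩ : C) ∈ (S2 : Subgroup C) := hS2 (by rw [Subgroup.mem_subgroupOf]; exact hx)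
    rw [← hc, Sylow.coe_subgroup_smul, Subgroup.mem_pointwise_smul_iff_inv_smul_mem] at h1
    have h2 : (MulAut.conj c)⁻¹ • (⟨x, hVC hx⟩ : C) = c⁻¹ * ⟨x, hVC hx⟩ * c := by
      rw [← map_inv, MulAut.smul_def, MulAut.conj_apply, inv_inv]
    rw [h2] at h1
    have h3 : (c : G)⁻¹ * x * c ∈ ((g • S0 : Sylow 2 G) : Subgroup G) := h1
    rw [Sylow.coe_subgroup_smul, Subgroup.mem_pointwise_smul_iff_inv_smul_mem] at h3
    show x ∈ (((c : G) * g) • S0 : Sylow 2 G)
    rw [← SetLike.mem_coe, ← Sylow.coe_coe, SetLike.mem_coe]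
    rw [Sylow.coe_subgroup_smul, Subgroup.mem_pointwise_smul_iff_inv_smul_mem]
    have e1 : (MulAut.conj ((c : G) * g))⁻¹ • x = (MulAut.conj g)⁻¹ • ((c : G)⁻¹ * x * c) := by
      rw [← map_inv, ← map_inv, MulAut.smul_def, MulAut.smul_def, MulAut.conj_apply, MulAut.conj_apply]
      group
    rw [e1]; exact h3
  -- the normaliser of `V` in `S3`
  have hlt : Rho.VV F < S3 := lt_of_le_of_ne hVS (fun h => hS S3 h.ge)
  have hN : NormalizerCondition S3 := by
    haveI : Group.IsNilpotent S3 := (S3.isPGroup').isNilpotent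
    exact Group.normalizerCondition_of_isNilpotent
  have h4 : (Rho.VV F).subgroupOf (S3 : Subgroup G) < ⊤ := by
    rw [lt_top_iff_ne_top, ne_eq, Subgroup.subgroupOf_eq_top]
    exact fun h => hlt.not_ge h
  obtain ⟨s, hs, hs'⟩ := SetLike.exists_of_lt (hN _ h4)
  have hsn : ∀ x ∈ Rho.VV F, (s : G) * x * (s : G)⁻¹ ∈ Rho.VV F := by
    intro x hx
    have := (Subgroup.mem_normalizer_iff.1 hs ⟨x, hVS hx⟩).1 (by rw [Subgroup.mem_subgroupOf]; exact hx)
    rw [Subgroup.mem_subgroupOf] at this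
    exact this
  have hsV : (s : G) ∉ Rho.VV F := fun h => hs' (by rw [Subgroup.mem_subgroupOf]; exact h)
  have hsw : (s : G) * (u * v) = u * v * s := Subgroup.mem_centralizer_singleton_iff.1 (hS3C s.2)
  have hsw' : (s : G) * (u * v) * (s : G)⁻¹ = u * v := by rw [hsw, mul_inv_cancel_right]
  have hnu : ¬ (s : G) * u * (s : G)⁻¹ = u := by
    intro h
    have h5 : (s : G) * u = u * s := by rw [← mul_inv_eq_iff_eq_mul]; exact h
    have h6 : (s : G) * v * (s : G)⁻¹ = v := by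
      have e : (s : G) * (u * v) * (s : G)⁻¹ = ((s : G) * u * (s : G)⁻¹) * ((s : G) * v * (s : G)⁻¹) := by group
      rw [e, h] at hsw'
      exact mul_left_cancel hsw'
    have h7 : (s : G) * v = v * s := by rw [← mul_inv_eq_iff_eq_mul]; exact h6
    exact hsV (cent_four hG.pp F h5 h7)
  have hv : (s : G) * u * (s : G)⁻¹ = v := by
    rcases hsn u (Or.inr (Or.inl rfl)) with h | h | h | h
    · rw [conj_eq_one_iff] at h; exact absurd h F.u1
    · exact absurd h hnu
    · exact h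
    · exfalso
      rw [← hsw'] at h
      have h8 : u = u * v := by simpa using h
      exact F.v1 (by simpa using h8.symm)
  refine ⟨s, hv, ?_⟩
  have e : (s : G) * (u * v) * (s : G)⁻¹ = ((s : G) * u * (s : G)⁻¹) * ((s : G) * v * (s : G)⁻¹) := by group
  rw [e, hv] at hsw'
  have h9 : v * (v * ((s : G) * v * (s : G)⁻¹)) = v * (u * v) := by rw [hsw']
  rw [← mul_assoc, F.vv, one_mul, F.vw] at h9
  exact h9

/-- fusion inside a four-group -/
theorem Rho.fuse (hG : Core G) {u v : G} (F : Four u v) :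
    ∃ g : G, g * u * g⁻¹ = v ∧ (g * v * g⁻¹ = u ∨ g * v * g⁻¹ = u * v) := by
  haveI : Fact (Nat.Prime 2) := ⟨Nat.prime_two⟩
  by_cases h : ∀ S : Sylow 2 G, (S : Subgroup G) ≤ Rho.VV F → False
  · obtain ⟨g, h1, h2⟩ := Rho.swap hG F h
    exact ⟨g, h1, Or.inl h2⟩
  · simp only [imp_false, not_forall, not_not] at h
    obtain ⟨S, hS⟩ := h
    have hSV : (S : Subgroup G) = Rho.VV F := (S.is_maximal' (Rho.VV_pgroup F) hS).symm
    obtain ⟨g, hg⟩ := hG.conj u v F.u1 F.uu F.v1 F.vv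
    haveI : IsMulCommutative S := by
      refine ⟨⟨fun a b => ?_⟩⟩
      have ha : (a : G) ∈ Rho.VV F := hS a.2
      have hb : (b : G) ∈ Rho.VV F := hS b.2
      have hab : (a : G) * b ∈ Rho.VV F := mul_mem ha hb
      ext
      push_cast
      have h1 := Rho.VV_sq F ha
      have h2 := Rho.VV_sq F hb
      have h3 := Rho.VV_sq F hab
      have i1 : (a : G)⁻¹ = a := inv_eq_of_mul_eq_one_left h1
      have i2 : (b : G)⁻¹ = b := inv_eq_of_mul_eq_one_left h2
      have i3 : ((a : G) * b)⁻¹ = a * b := inv_eq_of_mul_eq_one_left h3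
      rw [← i3, mul_inv_rev, i1, i2]
    have hu : u ∈ (S : Subgroup G) := by rw [hSV]; exact Or.inr (Or.inl rfl)
    have hv : v ∈ (S : Subgroup G) := by rw [hSV]; exact Or.inr (Or.inr (Or.inl rfl))
    obtain ⟨n, hn, hn'⟩ := Sylow.conj_eq_normalizer_conj_of_mem S u g⁻¹ hu (by rw [inv_inv, hg]; exact hv)
    rw [inv_inv, hg] at hn'
    have hnu : n⁻¹ * u * n⁻¹⁻¹ = v := by rw [inv_inv]; exact hn'.symm
    have hnv : n⁻¹ * v * n⁻¹⁻¹ ∈ (S : Subgroup G) :=
      (Subgroup.mem_normalizer_iff.1 (inv_mem hn) v).1 hv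
    refine ⟨n⁻¹, hnu, ?_⟩
    rw [hSV] at hnv
    rcases hnv with h | h | h | h
    · rw [conj_eq_one_iff] at h; exact absurd h F.v1
    · exact Or.inl h
    · exfalso
      have h8 : n⁻¹ * v * n⁻¹⁻¹ = n⁻¹ * u * n⁻¹⁻¹ := by rw [h, hnu]
      exact F.ne (by simpa using h8.symm)
    · exact Or.inr h

/-- all involutions conjugate ⟹ every four-group has an automorphism of order three in its normaliser -/
theorem rho (hG : Core G) {u v : G} (F : Four u v) :
    ∃ r : G, r * u * r⁻¹ = v ∧ r * v * r⁻¹ = u * v := by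
  obtain ⟨g, hg1, hg2⟩ := Rho.fuse hG F
  rcases hg2 with hg2 | hg2
  · obtain ⟨h, hh1, hh2⟩ := Rho.fuse hG F.f3
    rw [F.vw] at hh2
    rcases hh2 with hh2 | hh2
    · -- `h : v ↔ u v`
      have hu : h * u * h⁻¹ = u := by
        have e : h * (v * (u * v)) * h⁻¹ = (h * v * h⁻¹) * (h * (u * v) * h⁻¹) := by group
        rw [F.vw, hh1, hh2, F.wv] at e
        exact e
      -- `(h g)^2`
      have k1 : h * g * u * (h * g)⁻¹ = u * v := by
        calc h * g * u * (h * g)⁻¹ = h * (g * u * g⁻¹) * h⁻¹ := by group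
          _ = u * v := by rw [hg1, hh1]
      have k2 : h * g * v * (h * g)⁻¹ = u := by
        calc h * g * v * (h * g)⁻¹ = h * (g * v * g⁻¹) * h⁻¹ := by group
          _ = u := by rw [hg2, hu]
      have k3 : h * g * (u * v) * (h * g)⁻¹ = v := by
        calc h * g * (u * v) * (h * g)⁻¹ = (h * g * u * (h * g)⁻¹) * (h * g * v * (h * g)⁻¹) := by group
          _ = v := by rw [k1, k2, F.wu]
      refine ⟨(h * g) * (h * g), ?_, ?_⟩
      · calc h * g * (h * g) * u * (h * g * (h * g))⁻¹ = (h * g) * (h * g * u * (h * g)⁻¹) * (h * g)⁻¹ := by group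
          _ = v := by rw [k1, k3]
      · calc h * g * (h * g) * v * (h * g * (h * g))⁻¹ = (h * g) * (h * g * v * (h * g)⁻¹) * (h * g)⁻¹ := by group
          _ = u * v := by rw [k2, k1]
    · -- `h : v → u v → u → v`
      refine ⟨h, ?_, hh1⟩
      have e : h * (v * (u * v)) * h⁻¹ = (h * v * h⁻¹) * (h * (u * v) * h⁻¹) := by group
      rw [F.vw, hh1, hh2, F.wu] at e
      exact e
  · exact ⟨g, hg1, hg2⟩

end Cfsg.Agent.GWP
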